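import Cfsg.Agent.H487.EP.Tensor
import Cfsg.Agent.H487.EP.Fr
import Cfsg.Agent.H523.EP.Fit

/-!
# S3499, class C4, a factor `SL₂(3)` (helper681)

`kill_three`: `|F| = 3`, `A` in the stabiliser of a tensor decomposition with a symplectic factor of dimension two. The
normal subgroup `1 ⊗ Q₈` of `A` is elementary abelian modulo scalars, and one of its elements lies in another conjugate
of `A`.
-/

set_option autoImplicit false
set_option linter.unusedSectionVars false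

namespace Cfsg.Agent.H681.EP

open Matrix Subgroup Cfsg.Agent.H284 Cfsg.Agent.H419.EP Cfsg.Agent.H487.EP Cfsg.Geo
open scoped MatrixGroups Kronecker

section q8
variable {F : Type*} [Field F] [Fintype F]

theorem three_claim (h3 : Fintype.card F = 3) {a b c x y z : F} (h1 : a * a + b * c = -1) (h2 : x * x + y * z = -1) :
    2 * a * x + b * z + c * y = 0 ∨ (a = x ∧ b = y ∧ c = z) ∨ (a = -x ∧ b = -y ∧ c = -z) := by
  have key : ∀ a b c x y z : ZMod 3, a * a + b * c = -1 → x * x + y * z = -1 →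
      2 * a * x + b * z + c * y = 0 ∨ (a = x ∧ b = y ∧ c = z) ∨ (a = -x ∧ b = -y ∧ c = -z) := by decide
  let φ : F ≃+* ZMod 3 := (ZMod.ringEquivOfPrime F Nat.prime_three h3).symm
  have h := key (φ a) (φ b) (φ c) (φ x) (φ y) (φ z) (by rw [← map_mul, ← map_mul, ← map_add, h1, map_neg, map_one])
    (by rw [← map_mul, ← map_mul, ← map_add, h2, map_neg, map_one])
  rcases h with h | ⟨e1, e2, e3⟩ | ⟨e1, e2, e3⟩
  · left
    apply φ.injective
    rw [map_add, map_add, map_mul, map_mul, map_mul, map_mul, map_ofNat, map_zero]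
    exact h
  · exact Or.inr (Or.inl ⟨φ.injective e1, φ.injective e2, φ.injective e3⟩)
  · refine Or.inr (Or.inr ⟨φ.injective ?_, φ.injective ?_, φ.injective ?_⟩) <;> rw [map_neg] <;> assumption

theorem three_zero (h3 : Fintype.card F = 3) : (3 : F) = 0 := by
  let φ : ZMod 3 ≃+* F := ZMod.ringEquivOfPrime F Nat.prime_three h3
  have h : φ 3 = 3 := map_ofNat φ 3
  rw [← h, show (3 : ZMod 3) = 0 by decide, map_zero]

/-- the matrices of `Q₈` -/
def T8 (M : Matrix (Fin 2) (Fin 2) F) : Prop := M.det = 1 ∧ (M = 1 ∨ M = -1 ∨ M 0 0 + M 1 1 = 0)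

theorem T8.cases {M : Matrix (Fin 2) (Fin 2) F} (h : T8 M) :
    M = 1 ∨ M = -1 ∨ ∃ a b c : F, M = !![a, b; c, -a] ∧ a * a + b * c = -1 := by
  obtain ⟨hd, h1 | h1 | h1⟩ := h
  · exact Or.inl h1
  · exact Or.inr (Or.inl h1)
  · refine Or.inr (Or.inr ⟨M 0 0, M 0 1, M 1 0, ?_, ?_⟩)
    · have e : M 1 1 = -M 0 0 := by linear_combination h1
      rw [← e]
      exact Matrix.eta_fin_two M
    · rw [Matrix.det_fin_two] at hd
      linear_combination (M 0 0) * h1 - hd

theorem T8.of {a b c : F} (h : a * a + b * c = -1) : T8 !![a, b; c, -a] := by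
  refine ⟨?_, Or.inr (Or.inr ?_)⟩
  · rw [Matrix.det_fin_two_of]
    linear_combination -h
  · simp

theorem T8.one : T8 (1 : Matrix (Fin 2) (Fin 2) F) := ⟨Matrix.det_one, Or.inl rfl⟩

theorem T8.neg {M : Matrix (Fin 2) (Fin 2) F} (h : T8 M) : T8 (-M) := by
  obtain ⟨hd, h1⟩ := h
  refine ⟨?_, ?_⟩
  · rw [Matrix.det_fin_two] at hd ⊢
    rw [← hd]
    simp
  · rcases h1 with h1 | h1 | h1
    · exact Or.inr (Or.inl (by rw [h1]))
    · exact Or.inl (by rw [h1, neg_neg])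
    · refine Or.inr (Or.inr ?_)
      rw [Matrix.neg_apply, Matrix.neg_apply, ← neg_add, h1, neg_zero]

theorem sq8 {a b c : F} (h : a * a + b * c = -1) : !![a, b; c, -a] * !![a, b; c, -a] = -1 := by
  ext i j
  fin_cases i <;> fin_cases j <;> simp [Matrix.mul_apply, Fin.sum_univ_two]
  · exact h
  · ring
  · ring
  · linear_combination h

theorem T8.mul_comm (h3 : Fintype.card F = 3) {M N : Matrix (Fin 2) (Fin 2) F} (hM : T8 M) (hN : T8 N) :
    T8 (M * N) ∧ (M * N = N * M ∨ M * N = -(N * M)) := by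
  rcases hM.cases with rfl | rfl | ⟨a, b, c, rfl, h1⟩
  · rw [one_mul, mul_one]
    exact ⟨hN, Or.inl rfl⟩
  · rw [neg_one_mul, mul_neg_one]
    exact ⟨hN.neg, Or.inl rfl⟩
  · rcases hN.cases with rfl | rfl | ⟨x, y, z, rfl, h2⟩
    · rw [one_mul, mul_one]
      exact ⟨hM, Or.inl rfl⟩
    · rw [neg_one_mul, mul_neg_one]
      exact ⟨hM.neg, Or.inl rfl⟩
    · rcases three_claim h3 h1 h2 with h | ⟨rfl, rfl, rfl⟩ | ⟨rfl, rfl, rfl⟩
      · refine ⟨⟨by rw [Matrix.det_mul, hM.1, hN.1, mul_one], Or.inr (Or.inr ?_)⟩, Or.inr ?_⟩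
        · simp [Matrix.mul_apply, Fin.sum_univ_two]
          linear_combination h
        · ext i j
          fin_cases i <;> fin_cases j <;> simp [Matrix.mul_apply, Fin.sum_univ_two]
          · linear_combination h
          · ring
          · ring
          · linear_combination h
      · rw [sq8 h1]
        exact ⟨T8.one.neg, Or.inl rfl⟩
      · have e : !![-x, -y; -z, - -x] = -!![x, y; z, -x] := by
          ext i j
          fin_cases i <;> fin_cases j <;> simp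
        rw [e, neg_mul, mul_neg, sq8 h2, neg_neg]
        exact ⟨T8.one, Or.inl rfl⟩

/-- `Q₈` -/
def q8 (h3 : Fintype.card F = 3) : Subgroup (GL (Fin 2) F) where
  carrier := {v | T8 (v : Matrix (Fin 2) (Fin 2) F)}
  mul_mem' {a b} ha hb := (T8.mul_comm h3 ha hb).1
  one_mem' := T8.one
  inv_mem' {v} hv := by
    have key : ∀ w : Matrix (Fin 2) (Fin 2) F, w * (v : Matrix (Fin 2) (Fin 2) F) = 1 →
        ((v⁻¹ : GL (Fin 2) F) : Matrix (Fin 2) (Fin 2) F) = w := by
      intro w hw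
      calc ((v⁻¹ : GL (Fin 2) F) : Matrix (Fin 2) (Fin 2) F) =
          w * (v : Matrix (Fin 2) (Fin 2) F) * ((v⁻¹ : GL (Fin 2) F) : Matrix (Fin 2) (Fin 2) F) := by rw [hw, one_mul]
        _ = w := by rw [mul_assoc, Units.mul_inv, mul_one]
    change T8 _ at hv
    change T8 _
    rcases hv.cases with h | h | ⟨a, b, c, h, h1⟩
    · rw [key 1 (by rw [h, one_mul])]
      exact T8.one
    · rw [key (-1) (by rw [h, neg_mul_neg, one_mul])]
      exact T8.one.neg
    · rw [key (-(v : Matrix (Fin 2) (Fin 2) F)) (by rw [neg_mul, h, sq8 h1, neg_neg])]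
      exact hv.neg

theorem mem_q8 {h3 : Fintype.card F = 3} {v : GL (Fin 2) F} : v ∈ q8 h3 ↔ T8 (v : Matrix (Fin 2) (Fin 2) F) := Iff.rfl

/-- `Q₈` is normal in `GL₂` -/
theorem q8_conj {h3 : Fintype.card F = 3} (g : GL (Fin 2) F) {v : GL (Fin 2) F} (hv : v ∈ q8 h3) :
    g * v * g⁻¹ ∈ q8 h3 := by
  obtain ⟨hd, h1⟩ := mem_q8.1 hv
  rw [mem_q8, Units.val_mul, Units.val_mul]
  refine ⟨?_, ?_⟩
  · rw [Matrix.det_mul, Matrix.det_mul, hd, mul_one, ← Matrix.det_mul, Units.mul_inv, Matrix.det_one]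
  · rcases h1 with h1 | h1 | h1
    · left
      rw [h1, mul_one, Units.mul_inv]
    · right; left
      rw [h1, mul_neg_one, neg_mul, Units.mul_inv]
    · right; right
      have h2 : ((g : Matrix (Fin 2) (Fin 2) F) * (v : Matrix (Fin 2) (Fin 2) F) *
          ((g⁻¹ : GL (Fin 2) F) : Matrix (Fin 2) (Fin 2) F)).trace = (v : Matrix (Fin 2) (Fin 2) F).trace := by
        rw [Matrix.trace_mul_comm, ← mul_assoc, Units.inv_mul, one_mul]
      rw [Matrix.trace_fin_two, Matrix.trace_fin_two, h1] at h2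
      exact h2

end q8


section kill
variable {Q : Type*} [Group Q] [Finite Q] {A : Subgroup Q} {Γ : Subgroup (MulAut Q)} (h : EPT A Γ)
variable {ι : Type} [Fintype ι] [DecidableEq ι] {F : Type*} [Field F] {S : Subgroup (GL ι F)} (m : Model Q S)

include h

/-- a normal subgroup `R` of `Â`, abelian modulo scalars, `z ∈ R` not scalar : `z` lies in no other conjugate of `Â` -/
theorem fit_kill_mod {R : Subgroup (GL ι F)} (hRA : R ≤ m.hat A) (hRn : ∀ a ∈ m.hat A, ∀ n ∈ R, a * n * a⁻¹ ∈ R)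
    (hRab : ∀ a ∈ R, ∀ b ∈ R, a * b * (b * a)⁻¹ ∈ Cfsg.Geo.scalars ι F) {z x : GL ι F} (hz : z ∈ R)
    (hz1 : z ∉ Cfsg.Geo.scalars ι F) (hxS : x ∈ S) (hx : x ∉ m.hat A) : x⁻¹ * z * x ∉ m.hat A := by
  intro hzx
  have hRS : R ≤ S := hRA.trans (m.hat_le A)
  have hx' : m.π ⟨x, hxS⟩ ∉ A := fun e => hx ((m.mem_hat_iff ⟨x, hxS⟩).2 e)
  refine Cfsg.Agent.H523.EP.fit_kill h (N := (R.subgroupOf S).map m.π) ?_ ?_ ?_ (z := m.π ⟨z, hRS hz⟩)
    (x := m.π ⟨x, hxS⟩) ?_ ?_ hx' ?_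
  · rintro _ ⟨r, hr, rfl⟩
    exact (m.mem_hat_iff r).1 (hRA hr)
  · rintro a ha _ ⟨r, hr, rfl⟩
    obtain ⟨s, rfl⟩ := m.surj a
    refine ⟨s * r * s⁻¹, hRn s ((m.mem_hat_iff s).2 ha) r hr, ?_⟩
    rw [map_mul, map_mul, map_inv]
  · apply Cfsg.Agent.H523.EP.ab_nil
    rintro ⟨_, r, hr, rfl⟩ ⟨_, t, ht, rfl⟩
    apply Subtype.ext
    show m.π r * m.π t = m.π t * m.π r
    have h1 : m.π (r * t * (t * r)⁻¹) = 1 := (m.ker _).2 (hRab r hr t ht)
    rw [map_mul, map_inv, mul_inv_eq_one, map_mul, map_mul] at h1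
    exact h1
  · exact ⟨⟨z, hRS hz⟩, hz, rfl⟩
  · intro e
    exact hz1 ((m.ker _).1 e)
  · obtain ⟨hg, h1⟩ := m.mem_hat.1 hzx
    have e : (⟨x⁻¹ * z * x, hg⟩ : S) = ⟨x, hxS⟩⁻¹ * ⟨z, hRS hz⟩ * ⟨x, hxS⟩ := rfl
    rw [e, map_mul, map_mul, map_inv] at h1
    rw [mem_cj]
    exact h1

end kill

section elts
variable {F : Type*} [Field F] (h3 : (3 : F) = 0)

/-- a transvection -/
def tU (F : Type*) [Field F] : GL (Fin 2) F :=
  ⟨!![1, 1; 0, 1], !![1, -1; 0, 1], by ext i j; fin_cases i <;> fin_cases j <;> simp [Matrix.mul_apply, Fin.sum_univ_two],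
    by ext i j; fin_cases i <;> fin_cases j <;> simp [Matrix.mul_apply, Fin.sum_univ_two]⟩

/-- an element of order four -/
def iU (F : Type*) [Field F] : GL (Fin 2) F :=
  ⟨!![0, 1; -1, 0], !![0, -1; 1, 0], by ext i j; fin_cases i <;> fin_cases j <;> simp [Matrix.mul_apply, Fin.sum_univ_two],
    by ext i j; fin_cases i <;> fin_cases j <;> simp [Matrix.mul_apply, Fin.sum_univ_two]⟩

include h3 in
theorem jU_aux : !![1, 1; 1, -1] * !![-1, -1; -1, 1] = (1 : Matrix (Fin 2) (Fin 2) F) ∧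
    !![-1, -1; -1, 1] * !![1, 1; 1, -1] = (1 : Matrix (Fin 2) (Fin 2) F) := by
  constructor
  · ext i j
    fin_cases i <;> fin_cases j <;> simp [Matrix.mul_apply, Fin.sum_univ_two]
    · linear_combination -h3
    · linear_combination -h3
  · ext i j
    fin_cases i <;> fin_cases j <;> simp [Matrix.mul_apply, Fin.sum_univ_two]
    · linear_combination -h3
    · linear_combination -h3

/-- an element of order four -/
def jU : GL (Fin 2) F := ⟨!![1, 1; 1, -1], !![-1, -1; -1, 1], (jU_aux h3).1, (jU_aux h3).2⟩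

/-- `z₀` -/
def zU (F : Type*) [Field F] : GL (Fin 2) F := tU F * iU F * (tU F)⁻¹ * (iU F)⁻¹

/-- `x₀` -/
def xU : GL (Fin 2) F := tU F * jU h3 * (tU F)⁻¹ * (jU h3)⁻¹

include h3 in
theorem zU_val : (zU F : Matrix (Fin 2) (Fin 2) F) = !![-1, 1; 1, 1] := by
  change !![1, 1; 0, 1] * !![0, 1; -1, 0] * !![1, -1; 0, 1] * !![0, -1; 1, 0] = _
  ext i j
  fin_cases i <;> fin_cases j <;> simp [Matrix.mul_apply, Fin.sum_univ_two]
  linear_combination h3

theorem xU_val : (xU h3 : Matrix (Fin 2) (Fin 2) F) = !![0, -1; 1, 0] := by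
  change !![1, 1; 0, 1] * !![1, 1; 1, -1] * !![1, -1; 0, 1] * !![-1, -1; -1, 1] = _
  ext i j
  fin_cases i <;> fin_cases j <;> simp [Matrix.mul_apply, Fin.sum_univ_two]
  all_goals first
    | linear_combination h3
    | linear_combination -h3
    | linear_combination 2 * h3
    | linear_combination (-2 : F) * h3
    | ring

/-- the isometry group of a symplectic Gram matrix -/
theorem mem_isoG_of_det {G : Matrix (Fin 2) (Fin 2) F} (h00 : G 0 0 = 0) (h11 : G 1 1 = 0) (h10 : G 1 0 = -G 0 1)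
    {c : GL (Fin 2) F} (hc : (c : Matrix (Fin 2) (Fin 2) F).det = 1) : c ∈ IsoG G := by
  rw [mem_isoG]
  rw [Matrix.det_fin_two] at hc
  ext i j
  fin_cases i <;> fin_cases j <;> simp [Matrix.mul_apply, Fin.sum_univ_two, h00, h11, h10]
  · ring
  · linear_combination (G 0 1) * hc
  · linear_combination (-(G 0 1)) * hc
  · ring

end elts


/-- **[Om-C4, a factor `SL₂(3)`]** -/
theorem kill_three {Q : Type} [Group Q] [Finite Q] {A : Subgroup Q} {Γ : Subgroup (MulAut Q)} (h : EPT A Γ) {F : Type}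
    [Field F] [Fintype F] (h3 : Fintype.card F = 3) {ι : Type} [Fintype ι] [DecidableEq ι] {Qf : (ι → F) → F}
    (m : Model Q (Geo.omegaGL Qf)) {n₁ : ℕ} (e : ι ≃ Fin n₁ × Fin 2) (P : GL ι F)
    {f₁ : (Fin n₁ → F) → (Fin n₁ → F) → F} {f₂ : (Fin 2 → F) → (Fin 2 → F) → F} (hf₂ : IsSymplecticForm f₂)
    (hfr : Fr Qf (sL e P) (sR e P) (gramMatrix f₁) (gramMatrix f₂)) (hp : PP (gramMatrix f₁))
    (hA : m.hat A ≤ tensorProductSubgroup n₁ 2 e P) : False := by
  classical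
  obtain ⟨p, hp, hp0, hp1, hpa⟩ := hp
  have h30 : (3 : F) = 0 := three_zero h3
  set s := sL e P with hs
  set r := sR e P with hr
  have hts := hfr.ts
  -- the commutators
  have h00 : gramMatrix f₂ 0 0 = 0 := hf₂.alternating _
  have h11 : gramMatrix f₂ 1 1 = 0 := hf₂.alternating _
  have h10 : gramMatrix f₂ 1 0 = - gramMatrix f₂ 0 1 := hf₂.skew _ _
  have hiso : ∀ c : GL (Fin 2) F, (c : Matrix (Fin 2) (Fin 2) F).det = 1 → c ∈ IsoG (gramMatrix f₂) :=
    fun c hc => mem_isoG_of_det h00 h11 h10 hc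
  have htU : tU F ∈ IsoG (gramMatrix f₂) := hiso _ (by
    change Matrix.det !![1, 1; 0, 1] = (1 : F)
    rw [Matrix.det_fin_two_of]
    ring)
  have hiU : iU F ∈ IsoG (gramMatrix f₂) := hiso _ (by
    change Matrix.det !![0, 1; -1, 0] = (1 : F)
    rw [Matrix.det_fin_two_of]
    ring)
  have hjU : jU h30 ∈ IsoG (gramMatrix f₂) := hiso _ (by
    change Matrix.det !![1, 1; 1, -1] = (1 : F)
    rw [Matrix.det_fin_two_of]
    linear_combination -h30)
  have hzK : zU F ∈ KG (gramMatrix f₂) := comm_mem_KG htU hiU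
  have hxK : xU h30 ∈ KG (gramMatrix f₂) := comm_mem_KG htU hjU
  obtain ⟨z, hzS, hzv⟩ := hfr.w_mem hzK
  rw [Units.val_one, map_one, one_mul] at hzv
  let x : GL ι F := psi hts.comm hp (xU h30)
  have hxS : x ∈ omegaGL Qf := comm_le_omega Qf (hfr.psi_omega hp hpa hxK)
  have hxv : (x : Matrix ι ι F) = s p * r (xU h30 : Matrix (Fin 2) (Fin 2) F) + s (1 - p) := psi_val _ _ _
  have hpp' : p * (1 - p) = 0 := by rw [mul_sub, hp, mul_one, sub_self]
  have hnsx : NonSc (xU h30 : Matrix (Fin 2) (Fin 2) F) := by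
    intro c hc
    rw [xU_val] at hc
    have := congrFun (congrFun hc 1) 0
    simp at this
  -- `x` is not in the stabiliser
  have hxM : x ∉ tensorProductSubgroup n₁ 2 e P := by
    intro hx
    obtain ⟨a, b, hab⟩ := (mem_tensor e P).1 hx
    have ha0 : (a : Matrix (Fin n₁) (Fin n₁) F) ≠ 0 := by
      intro h0
      apply hp0
      have h1 : (1 : Matrix (Fin n₁) (Fin n₁) F) = 0 := by rw [← Units.mul_inv a, h0, zero_mul]
      rw [← mul_one p, h1, mul_zero]
    obtain ⟨α, β, e1, e2, -⟩ := hts.key (u := (a : Matrix (Fin n₁) (Fin n₁) F)) (v1 := p) (v2 := 1 - p)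
      (d := (b : Matrix (Fin 2) (Fin 2) F)) (w1 := (xU h30 : Matrix (Fin 2) (Fin 2) F)) (w2 := 1)
      (by rw [← hab, hxv, map_one, mul_one]) ha0 (fun α β hαβ => hnsx.lin α β hαβ)
    have e3 : (α * β) • ((a : Matrix (Fin n₁) (Fin n₁) F) * (a : Matrix (Fin n₁) (Fin n₁) F)) = 0 := by
      calc (α * β) • ((a : Matrix (Fin n₁) (Fin n₁) F) * (a : Matrix (Fin n₁) (Fin n₁) F)) =
          (α • (a : Matrix (Fin n₁) (Fin n₁) F)) * (β • (a : Matrix (Fin n₁) (Fin n₁) F)) := by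
            rw [Matrix.smul_mul, Matrix.mul_smul, smul_smul]
        _ = 0 := by rw [← e1, ← e2, hpp']
    have haa : (a : Matrix (Fin n₁) (Fin n₁) F) * (a : Matrix (Fin n₁) (Fin n₁) F) ≠ 0 := by
      intro h0
      apply ha0
      rw [← mul_one (a : Matrix (Fin n₁) (Fin n₁) F), ← Units.mul_inv a, ← mul_assoc, h0, zero_mul]
    rcases mul_eq_zero.1 ((smul_eq_zero.1 e3).resolve_right haa) with h4 | h4
    · exact hp0 (by rw [e1, h4, zero_smul])
    · rw [h4, zero_smul, sub_eq_zero] at e2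
      exact hp1 e2.symm
  have hhat : m.hat A = tensorProductSubgroup n₁ 2 e P ⊓ omegaGL Qf :=
    Cfsg.Agent.H458.EP.hat_eq m h.max hA (fun hS => hxM (hS hxS))
  -- the normal subgroup
  have hRval : ∀ v : GL (Fin 2) F, ((Units.map (r : Matrix (Fin 2) (Fin 2) F →* Matrix ι ι F) v : GL ι F) :
      Matrix ι ι F) = r (v : Matrix (Fin 2) (Fin 2) F) := fun v => rfl
  refine fit_kill_mod h m (R := (q8 h3).map (Units.map (r : Matrix (Fin 2) (Fin 2) F →* Matrix ι ι F)) ⊓ omegaGL Qf)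
    (z := z) (x := x) ?_ ?_ ?_ ?_ ?_ hxS ?_ ?_
  · rw [hhat]
    refine inf_le_inf_right _ ?_
    rintro _ ⟨v, -, rfl⟩
    rw [mem_tensor]
    exact ⟨1, v, by rw [hRval, Units.val_one, ← hs, map_one, one_mul]⟩
  · rintro a ha _ ⟨⟨v, hv, rfl⟩, hn⟩
    rw [hhat] at ha
    refine Subgroup.mem_inf.2 ⟨?_, (omegaGL Qf).mul_mem ((omegaGL Qf).mul_mem ha.2 hn) ((omegaGL Qf).inv_mem ha.2)⟩
    obtain ⟨a₁, a₂, ha12⟩ := (mem_tensor e P).1 ha.1
    have hact := Acts.of_pure (ts e P) ha12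
    refine ⟨a₂ * v * a₂⁻¹, q8_conj a₂ hv, ?_⟩
    apply Units.ext
    have h5 := hact.right (v : Matrix (Fin 2) (Fin 2) F)
    rw [hRval]
    exact h5.symm
  · rintro _ ⟨⟨u, hu, rfl⟩, -⟩ _ ⟨⟨v, hv, rfl⟩, -⟩
    rw [← map_mul, ← map_mul, ← map_inv, ← map_mul]
    rcases (T8.mul_comm h3 (mem_q8.1 hu) (mem_q8.1 hv)).2 with h5 | h5
    · have h6 : u * v = v * u := Units.ext h5
      rw [h6, mul_inv_cancel, map_one]
      exact one_mem _
    · rw [mem_scalars_iff]
      refine ⟨-1, ?_⟩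
      have h6 : ((u * v * (v * u)⁻¹ : GL (Fin 2) F) : Matrix (Fin 2) (Fin 2) F) = -1 := by
        rw [Units.val_mul, Units.val_mul, h5, ← Units.val_mul, neg_mul, Units.mul_inv]
      rw [hRval, h6, map_neg, map_one, Units.val_neg, Units.val_one, neg_one_smul]
  · refine ⟨⟨zU F, ?_, ?_⟩, hzS⟩
    · change T8 _
      rw [zU_val h30]
      have := T8.of (F := F) (a := -1) (b := 1) (c := 1) (by linear_combination h30)
      rwa [neg_neg] at this
    · exact Units.ext (by rw [hRval, hzv])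
  · intro hz
    obtain ⟨c, hc⟩ := (mem_scalars_iff z).1 hz
    rw [hzv] at hc
    have h5 : s (1 : Matrix (Fin n₁) (Fin n₁) F) * r (zU F : Matrix (Fin 2) (Fin 2) F) =
        s 1 * r ((c : F) • 1) := by
      rw [map_one, one_mul, one_mul, hc, map_smul, map_one]
    obtain ⟨i, j, hij⟩ : ∃ i j, p i j ≠ 0 := by
      by_contra hcon
      push Not at hcon
      exact hp0 (by ext i j; exact hcon i j)
    have h6 := hts.ind2 h5 i i 0 1
    rw [zU_val h30] at h6
    simp at h6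
  · rw [hhat]
    exact fun hx => hxM hx.1
  · rw [hhat]
    refine Subgroup.mem_inf.2
      ⟨?_, (omegaGL Qf).mul_mem ((omegaGL Qf).mul_mem ((omegaGL Qf).inv_mem hxS) hzS) hxS⟩
    have hinv : (1 - (p + p)) * (1 - (p + p)) = 1 := by
      have : (1 - (p + p)) * (1 - (p + p)) = 1 - (p + p) - (p + p) + (p * p + p * p + (p * p + p * p)) := by
        noncomm_ring
      rw [this, hp]
      abel
    let y₁ : GL (Fin n₁) F := ⟨1 - (p + p), 1 - (p + p), hinv, hinv⟩
    rw [mem_tensor]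
    refine ⟨y₁, zU F, ?_⟩
    have hzx : (zU F : Matrix (Fin 2) (Fin 2) F) * (xU h30 : Matrix (Fin 2) (Fin 2) F) =
        -((xU h30 : Matrix (Fin 2) (Fin 2) F) * (zU F : Matrix (Fin 2) (Fin 2) F)) := by
      rw [zU_val h30, xU_val]
      ext i j
      fin_cases i <;> fin_cases j <;> simp [Matrix.mul_apply, Fin.sum_univ_two]
    have key : (z : Matrix ι ι F) * (x : Matrix ι ι F) =
        (x : Matrix ι ι F) * (s (1 - (p + p)) * r (zU F : Matrix (Fin 2) (Fin 2) F)) := by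
      have e1 : p * (1 - (p + p)) = -p := by rw [mul_sub, mul_add, hp, mul_one]; abel
      have e2 : (1 - p) * (1 - (p + p)) = 1 - p := by
        rw [sub_mul, one_mul, e1]; abel
      rw [hzv, hxv, mul_add, add_mul, ← mul_assoc (r _) (s p), ← hts.comm, mul_assoc (s p), ← map_mul r, hzx,
        ← hts.comm, mul_assoc (s p), ← mul_assoc (r _) (s _) (r _), ← hts.comm (1 - (p + p)), mul_assoc (s _) (r _) (r _),
        ← map_mul r, ← mul_assoc (s p), ← map_mul s, e1, ← mul_assoc (s (1 - p)), ← map_mul s, e2, map_neg, map_neg,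
        mul_neg, neg_mul]
    change ((x⁻¹ : GL ι F) : Matrix ι ι F) * (z : Matrix ι ι F) * (x : Matrix ι ι F) = s (1 - (p + p)) * _
    rw [mul_assoc, key, ← mul_assoc, Units.inv_mul, one_mul]

end Cfsg.Agent.H681.EP
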