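import Cfsg.Agent.H487.EP.Tensor
import Cfsg.Agent.H778.EP.OmAsm
import Cfsg.Agent.H917.TensorTwo

/-!
# S3499, class C4 of the orthogonal groups, a factor of dimension two (helper681)

`omC4_two`: `V = F² ⊗ F^m`, `f = f₁ ⊗ f₂`. `q` odd and `f₁` symmetric: the skew-adjoint matrices of `f₁` are the multiples
of one matrix `j`, `j² = δ`; `F[j]` is a field or has two totally singular eigenspaces, so the stabiliser lies in the
class C3 or C2. `q = 2`: `GL₂(2)` normalises a field with four elements.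
-/

set_option autoImplicit false
set_option linter.unusedSectionVars false

open Cfsg Cfsg.Geo Matrix QuadraticMap

namespace Cfsg.Agent.H681.EP

open Cfsg.Agent.H284 Cfsg.Agent.H419.EP Cfsg.Agent.H487.EP
open Cfsg.Agent.H919 (HermForm)
open scoped Kronecker

section quad
variable {F : Type*} [Field F] {ι : Type} [Fintype ι] [DecidableEq ι]

theorem qmul {θ : Matrix ι ι F} {α β : F} (hθ : θ * θ = α • θ + β • 1) (x y a b : F) :
    (x • (1 : Matrix ι ι F) + y • θ) * (a • 1 + b • θ) =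
      (x * a + y * b * β) • 1 + (x * b + y * a + y * b * α) • θ := by
  have h1 : (x • (1 : Matrix ι ι F) + y • θ) * (a • 1 + b • θ) =
      (x * a) • 1 + (x * b + y * a) • θ + (y * b) • (θ * θ) := by
    simp only [add_mul, mul_add, Matrix.smul_mul, Matrix.mul_smul, mul_one, one_mul, smul_smul]
    module
  rw [h1, hθ]
  module

/-- the algebra `F + F θ`, `θ² = α θ + β` -/
def qAlg {θ : Matrix ι ι F} {α β : F} (hθ : θ * θ = α • θ + β • 1) : Subalgebra F (Matrix ι ι F) where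
  carrier := {m | ∃ x y : F, m = x • 1 + y • θ}
  mul_mem' := by
    rintro _ _ ⟨x, y, rfl⟩ ⟨a, b, rfl⟩
    exact ⟨_, _, qmul hθ x y a b⟩
  add_mem' := by
    rintro _ _ ⟨x, y, rfl⟩ ⟨a, b, rfl⟩
    exact ⟨x + a, y + b, by module⟩
  algebraMap_mem' := fun c => ⟨c, 0, by rw [Algebra.algebraMap_eq_smul_one, zero_smul, add_zero]⟩

theorem isField_qAlg [Nonempty ι] {θ : Matrix ι ι F} {α β : F} (hθ : θ * θ = α • θ + β • 1)
    (hani : ∀ x y : F, x * x + α * x * y - β * y * y = 0 → x = 0 ∧ y = 0) : IsFieldSubalgebra 2 (qAlg hθ) := by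
  have hz : ∀ x y : F, x • (1 : Matrix ι ι F) + y • θ = 0 → x = 0 ∧ y = 0 := by
    intro x y h
    apply hani
    have h1 := qmul hθ x y (x + α * y) (-y)
    rw [h, zero_mul] at h1
    have h2 : (x * x + α * x * y - β * y * y) • (1 : Matrix ι ι F) = 0 := by
      rw [h1]
      module
    obtain ⟨i⟩ := ‹Nonempty ι›
    simpa using congrFun (congrFun h2 i) i
  refine ⟨?_, ?_, ?_⟩
  · rintro _ ⟨x, y, rfl⟩ _ ⟨a, b, rfl⟩
    rw [qmul hθ, qmul hθ]
    module
  · rintro _ ⟨x, y, rfl⟩ hne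
    set d := x * x + α * x * y - β * y * y with hd
    have hd0 : d ≠ 0 := by
      intro h0
      obtain ⟨rfl, rfl⟩ := hani x y h0
      apply hne
      rw [zero_smul, zero_smul, add_zero]
    refine ⟨(d⁻¹ * (x + α * y)) • 1 + (d⁻¹ * (-y)) • θ, ⟨_, _, rfl⟩, ?_⟩
    rw [qmul hθ]
    have h1 : x * (d⁻¹ * (x + α * y)) + y * (d⁻¹ * (-y)) * β = 1 := by
      rw [← inv_mul_cancel₀ hd0]
      simp only [hd]
      ring
    have h2 : x * (d⁻¹ * (-y)) + y * (d⁻¹ * (x + α * y)) + y * (d⁻¹ * (-y)) * α = 0 := by ring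
    rw [h1, h2, one_smul, zero_smul, add_zero]
  · let φ : (Fin 2 → F) →ₗ[F] (qAlg hθ) :=
      { toFun := fun v => ⟨v 0 • 1 + v 1 • θ, ⟨_, _, rfl⟩⟩
        map_add' := by
          intro u v
          apply Subtype.ext
          change (u + v) 0 • (1 : Matrix ι ι F) + (u + v) 1 • θ = (u 0 • 1 + u 1 • θ) + (v 0 • 1 + v 1 • θ)
          rw [Pi.add_apply, Pi.add_apply]
          module
        map_smul' := by
          intro c v
          apply Subtype.ext
          change (c • v) 0 • (1 : Matrix ι ι F) + (c • v) 1 • θ = c • (v 0 • 1 + v 1 • θ)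
          rw [Pi.smul_apply, Pi.smul_apply, smul_eq_mul, smul_eq_mul]
          module }
    have hφ : Function.Bijective φ := by
      constructor
      · rw [injective_iff_map_eq_zero]
        intro v hv
        obtain ⟨h3, h4⟩ := hz (v 0) (v 1) (congrArg Subtype.val hv)
        funext i; fin_cases i
        · exact h3
        · exact h4
      · rintro ⟨_, x, y, rfl⟩
        exact ⟨![x, y], rfl⟩
    rw [← (LinearEquiv.ofBijective φ hφ).finrank_eq, Module.finrank_fin_fun]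

theorem le_normalizer_qAlg {θ : Matrix ι ι F} {α β : F} (hθ : θ * θ = α • θ + β • 1) {H : Subgroup (GL ι F)}
    (hH : ∀ g ∈ H, ∃ x y : F, cjm g θ = x • 1 + y • θ) : H ≤ subalgebraNormalizer (qAlg hθ) := by
  have key : ∀ g ∈ H, ∀ k ∈ qAlg hθ, cjm g k ∈ qAlg hθ := by
    rintro g hg _ ⟨x, y, rfl⟩
    obtain ⟨x', y', h⟩ := hH g hg
    rw [cjm_add, cjm_smul, cjm_smul, cjm_one, h]
    exact ⟨x + y * x', y * y', by module⟩
  intro g hg k
  refine ⟨fun hk => key g hg k hk, fun hk => ?_⟩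
  have := key g⁻¹ (inv_mem hg) _ hk
  change cjm g⁻¹ (cjm g k) ∈ _ at this
  rwa [cjm_inv_self] at this

theorem adj_qAlg {θ θ' : Matrix ι ι F} {α β : F} (hθ : θ * θ = α • θ + β • 1) (hθ' : θ' ∈ qAlg hθ)
    {f : (ι → F) → (ι → F) → F} (hf : IsBilinearForm f) (h : ∀ v w, f (θ *ᵥ v) w = f v (θ' *ᵥ w)) :
    IsAdjointClosedFor f (qAlg hθ) := by
  rintro _ ⟨x, y, rfl⟩
  refine ⟨x • 1 + y • θ', ?_, fun v w => ?_⟩
  · exact (qAlg hθ).add_mem ((qAlg hθ).smul_mem (qAlg hθ).one_mem x) ((qAlg hθ).smul_mem hθ' y)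
  · rw [Matrix.add_mulVec, Matrix.add_mulVec, Matrix.smul_mulVec, Matrix.smul_mulVec, Matrix.smul_mulVec,
      Matrix.smul_mulVec, Matrix.one_mulVec, Matrix.one_mulVec, hf.add_left, hf.add_right, hf.smul_left, hf.smul_left,
      hf.smul_right, hf.smul_right, h]

end quad

section tens
variable {F : Type*} [Field F] {ι : Type} [Fintype ι] [DecidableEq ι] {n₁ n₂ : ℕ}

theorem sL_mulVec (e : ι ≃ Fin n₁ × Fin n₂) (P : GL ι F) (u : Matrix (Fin n₁) (Fin n₁) F)
    (x : Fin n₁ × Fin n₂ → F) : sL e P u *ᵥ ((P : Matrix ι ι F) *ᵥ (x ∘ e)) =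
      (P : Matrix ι ι F) *ᵥ (((u ⊗ₖ (1 : Matrix (Fin n₂) (Fin n₂) F)) *ᵥ x) ∘ e) := by
  change (frA e P (krL _ _ F u)) *ᵥ _ = _
  rw [frA_apply, krL_apply, Matrix.mulVec_mulVec, mul_assoc, Units.inv_mul, mul_one, ← Matrix.mulVec_mulVec]
  congr 1
  change ((u ⊗ₖ (1 : Matrix (Fin n₂) (Fin n₂) F)).submatrix e e) *ᵥ (x ∘ e) = _
  rw [Matrix.submatrix_mulVec_equiv]
  congr 2
  funext i
  simp

variable {f : (ι → F) → (ι → F) → F} {f₁ : (Fin n₁ → F) → (Fin n₁ → F) → F} {f₂ : (Fin n₂ → F) → (Fin n₂ → F) → F}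
variable {e : ι ≃ Fin n₁ × Fin n₂} {P : GL ι F}

theorem formOfGram_id {κ : Type} [Fintype κ] [DecidableEq κ] (G : Matrix κ κ F) (x y : κ → F) :
    formOfGram id G x y = x ⬝ᵥ (G *ᵥ y) := by
  simp only [formOfGram, id, dotProduct, Matrix.mulVec, Finset.mul_sum, mul_assoc]

theorem exists_pre (P : GL ι F) (e : ι ≃ Fin n₁ × Fin n₂) (v : ι → F) :
    ∃ x : Fin n₁ × Fin n₂ → F, v = (P : Matrix ι ι F) *ᵥ (x ∘ e) := by
  refine ⟨(((P⁻¹ : GL ι F) : Matrix ι ι F) *ᵥ v) ∘ e.symm, ?_⟩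
  rw [Function.comp_assoc, Equiv.symm_comp_self, Function.comp_id, Matrix.mulVec_mulVec, Units.mul_inv,
    Matrix.one_mulVec]

theorem sL_adj_iff (hT : IsTensorFormStructure id f f₁ f₂ e P) (u u' : Matrix (Fin n₁) (Fin n₁) F) :
    (∀ v w, f (sL e P u *ᵥ v) w = f v (sL e P u' *ᵥ w)) ↔
      (uᵀ * gramMatrix f₁) ⊗ₖ gramMatrix f₂ = (gramMatrix f₁ * u') ⊗ₖ gramMatrix f₂ := by
  obtain ⟨c, hc, h⟩ := hT
  set M : Matrix (Fin n₁ × Fin n₂) (Fin n₁ × Fin n₂) F := u ⊗ₖ (1 : Matrix (Fin n₂) (Fin n₂) F) with hM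
  set M' : Matrix (Fin n₁ × Fin n₂) (Fin n₁ × Fin n₂) F := u' ⊗ₖ (1 : Matrix (Fin n₂) (Fin n₂) F) with hM'
  set G : Matrix (Fin n₁ × Fin n₂) (Fin n₁ × Fin n₂) F := gramMatrix f₁ ⊗ₖ gramMatrix f₂ with hG
  have e1 : (uᵀ * gramMatrix f₁) ⊗ₖ gramMatrix f₂ = Mᵀ * G := by
    rw [hM, hG, ← Matrix.kroneckerMap_transpose, Matrix.transpose_one, ← Matrix.mul_kronecker_mul, one_mul]
  have e2 : (gramMatrix f₁ * u') ⊗ₖ gramMatrix f₂ = G * M' := by
    rw [hM', hG, ← Matrix.mul_kronecker_mul, mul_one]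
  rw [e1, e2]
  have key : ∀ x y : Fin n₁ × Fin n₂ → F, (f (sL e P u *ᵥ ((P : Matrix ι ι F) *ᵥ (x ∘ e))) ((P : Matrix ι ι F) *ᵥ (y ∘ e)) =
      c * (x ⬝ᵥ ((Mᵀ * G) *ᵥ y))) ∧ (f ((P : Matrix ι ι F) *ᵥ (x ∘ e)) (sL e P u' *ᵥ ((P : Matrix ι ι F) *ᵥ (y ∘ e))) =
      c * (x ⬝ᵥ ((G * M') *ᵥ y))) := by
    intro x y
    rw [sL_mulVec, sL_mulVec, h, h, formOfGram_id, formOfGram_id, ← Matrix.mulVec_mulVec, ← Matrix.mulVec_mulVec]
    refine ⟨?_, rfl⟩
    rw [Matrix.dotProduct_mulVec x, Matrix.vecMul_transpose]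
  constructor
  · intro hvw
    have h1 : ∀ x y : Fin n₁ × Fin n₂ → F, x ⬝ᵥ ((Mᵀ * G) *ᵥ y) = x ⬝ᵥ ((G * M') *ᵥ y) := by
      intro x y
      apply mul_left_cancel₀ hc
      rw [← (key x y).1, ← (key x y).2, hvw]
    refine Matrix.mulVec_injective (funext fun y => ?_)
    exact dotProduct_eq _ _ fun x => by rw [dotProduct_comm, h1, dotProduct_comm]
  · intro hMG v w
    obtain ⟨x, rfl⟩ := exists_pre P e v
    obtain ⟨y, rfl⟩ := exists_pre P e w
    rw [(key x y).1, (key x y).2, hMG]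

end tens


section two
variable {F : Type*} [Field F]

/-- the skew-adjoint matrix of a symmetric `2 × 2` matrix -/
def jj (G : Matrix (Fin 2) (Fin 2) F) : Matrix (Fin 2) (Fin 2) F := !![G 0 1, G 1 1; -G 0 0, -G 0 1]

variable {G : Matrix (Fin 2) (Fin 2) F}

theorem jj_sq : jj G * jj G = (-G.det - G 0 1 * (G 1 0 - G 0 1)) • 1 := by
  rw [Matrix.det_fin_two]
  ext i j
  fin_cases i <;> fin_cases j <;> simp [jj, Matrix.mul_apply, Fin.sum_univ_two] <;> ring

theorem mul_jj (hs : G 1 0 = G 0 1) : G * jj G = G.det • !![0, 1; -1, 0] := by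
  rw [Matrix.det_fin_two]
  ext i j
  fin_cases i <;> fin_cases j <;> simp [jj, Matrix.mul_apply, Fin.sum_univ_two, hs] <;> ring

theorem jj_adj (hs : G 1 0 = G 0 1) : (jj G)ᵀ * G = G * (-jj G) := by
  ext i j
  fin_cases i <;> fin_cases j <;> simp [jj, Matrix.mul_apply, Fin.sum_univ_two, hs] <;> ring

theorem jj_unique (hs : G 1 0 = G 0 1) (h2 : (2 : F) ≠ 0) (hd : G.det ≠ 0) {u : Matrix (Fin 2) (Fin 2) F}
    (hu : uᵀ * G = G * (-u)) : ∃ t : F, u = t • jj G := by
  have h : ∀ i j, (uᵀ * G) i j = (G * (-u)) i j := fun i j => by rw [hu]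
  have h00 := h 0 0
  have h01 := h 0 1
  have h11 := h 1 1
  simp only [Matrix.mul_apply, Fin.sum_univ_two, Matrix.transpose_apply, Matrix.neg_apply, hs] at h00 h01 h11
  refine ⟨(G * u) 0 1 / G.det, ?_⟩
  have hinj : ∀ A B : Matrix (Fin 2) (Fin 2) F, G * A = G * B → A = B := by
    intro A B hAB
    have h3 : G⁻¹ * (G * A) = G⁻¹ * (G * B) := by rw [hAB]
    rwa [← mul_assoc, ← mul_assoc, Matrix.nonsing_inv_mul _ (isUnit_iff_ne_zero.2 hd), one_mul, one_mul] at h3
  apply hinj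
  rw [Matrix.mul_smul, mul_jj hs, smul_smul, div_mul_cancel₀ _ hd]
  ext i j
  fin_cases i <;> fin_cases j <;>
    simp only [Matrix.mul_apply, Fin.sum_univ_two, Matrix.smul_apply, smul_eq_mul, Fin.zero_eta, Fin.mk_one,
      Matrix.of_apply, Matrix.cons_val_zero, Matrix.cons_val_one, Matrix.cons_val', Matrix.cons_val_fin_one, hs]
  · apply mul_left_cancel₀ h2
    linear_combination h00
  · ring
  · linear_combination h01
  · apply mul_left_cancel₀ h2
    linear_combination h11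

end two


section eig
variable {F : Type*} [Field F] {ι : Type} [Fintype ι] [DecidableEq ι]

theorem cjm_form {f : (ι → F) → (ι → F) → F} {g : GL ι F}
    (hg : ∀ u v, f ((g : Matrix ι ι F) *ᵥ u) ((g : Matrix ι ι F) *ᵥ v) = f u v) {θ θ' : Matrix ι ι F}
    (h : ∀ v w, f (θ *ᵥ v) w = f v (θ' *ᵥ w)) (v w : ι → F) : f (cjm g θ *ᵥ v) w = f v (cjm g θ' *ᵥ w) := by
  have h1 : ∀ w : ι → F, (g : Matrix ι ι F) *ᵥ (((g⁻¹ : GL ι F) : Matrix ι ι F) *ᵥ w) = w := fun w => by
    rw [Matrix.mulVec_mulVec, Units.mul_inv, Matrix.one_mulVec]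
  have h2 : ∀ (k : Matrix ι ι F) (w : ι → F), cjm g k *ᵥ w =
      (g : Matrix ι ι F) *ᵥ (k *ᵥ (((g⁻¹ : GL ι F) : Matrix ι ι F) *ᵥ w)) := fun k w => by
    rw [cjm, ← Matrix.mulVec_mulVec, ← Matrix.mulVec_mulVec]
  rw [h2, h2]
  nth_rw 1 [← h1 w]
  nth_rw 2 [← h1 v]
  rw [hg, hg, h]

/-- eigenspaces -/
def eig (θ : Matrix ι ι F) (s : F) : Submodule F (ι → F) := LinearMap.ker (Matrix.toLin' (θ - s • 1))

theorem mem_eig {θ : Matrix ι ι F} {s : F} {v : ι → F} : v ∈ eig θ s ↔ θ *ᵥ v = s • v := by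
  rw [eig, LinearMap.mem_ker, Matrix.toLin'_apply, Matrix.sub_mulVec, Matrix.smul_mulVec, Matrix.one_mulVec,
    sub_eq_zero]

theorem map_eig (g : GL ι F) (θ : Matrix ι ι F) (s : F) :
    (eig θ s).map (Matrix.toLin' (g : Matrix ι ι F)) = eig (cjm g θ) s := by
  have h1 : ∀ w : ι → F, (g : Matrix ι ι F) *ᵥ (((g⁻¹ : GL ι F) : Matrix ι ι F) *ᵥ w) = w := fun w => by
    rw [Matrix.mulVec_mulVec, Units.mul_inv, Matrix.one_mulVec]
  have h3 : ∀ w : ι → F, ((g⁻¹ : GL ι F) : Matrix ι ι F) *ᵥ ((g : Matrix ι ι F) *ᵥ w) = w := fun w => by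
    rw [Matrix.mulVec_mulVec, Units.inv_mul, Matrix.one_mulVec]
  have h2 : ∀ (k : Matrix ι ι F) (w : ι → F), cjm g k *ᵥ w =
      (g : Matrix ι ι F) *ᵥ (k *ᵥ (((g⁻¹ : GL ι F) : Matrix ι ι F) *ᵥ w)) := fun k w => by
    rw [cjm, ← Matrix.mulVec_mulVec, ← Matrix.mulVec_mulVec]
  ext w
  rw [Submodule.mem_map, mem_eig]
  constructor
  · rintro ⟨v, hv, rfl⟩
    rw [Matrix.toLin'_apply, h2, h3, mem_eig.1 hv, Matrix.mulVec_smul]
  · intro hw
    refine ⟨((g⁻¹ : GL ι F) : Matrix ι ι F) *ᵥ w, ?_, by rw [Matrix.toLin'_apply, h1]⟩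
    rw [mem_eig, ← Matrix.mulVec_smul, ← hw, h2, h3]

end eig

section main
variable {F : Type} [Field F] [Fintype F] {ι : Type} [Fintype ι] [DecidableEq ι] {Qf : (ι → F) → F}

theorem polar_inv {H : Subgroup (GL ι F)} (hH : H ≤ isometryGroup F Qf) {g : GL ι F} (hg : g ∈ H) (u v : ι → F) :
    polar Qf ((g : Matrix ι ι F) *ᵥ u) ((g : Matrix ι ι F) *ᵥ v) = polar Qf u v := by
  have h : ∀ x, Qf ((g : Matrix ι ι F) *ᵥ x) = Qf x := fun x => hH hg x x
  simp only [polar, ← Matrix.mulVec_add, h]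

theorem gram_cancel {n₁ n₂ : ℕ} {A B : Matrix (Fin n₁) (Fin n₁) F} {G : Matrix (Fin n₂) (Fin n₂) F} (hG : G ≠ 0)
    (h : A ⊗ₖ G = B ⊗ₖ G) : A = B := by
  obtain ⟨k, l, hkl⟩ : ∃ k l, G k l ≠ 0 := by
    by_contra hc
    push Not at hc
    exact hG (by ext i j; exact hc i j)
  ext i j
  have h1 := congrFun (congrFun h (i, k)) (j, l)
  rw [Matrix.kroneckerMap_apply, Matrix.kroneckerMap_apply] at h1
  exact mul_right_cancel₀ hkl h1

/-- the skew-adjoint matrix of the first factor is normalised up to sign -/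
theorem exists_sign {H : Subgroup (GL ι F)} (hH : H ≤ isometryGroup F Qf) {n₂ : ℕ} {e : ι ≃ Fin 2 × Fin n₂}
    {P : GL ι F} {f₁ : (Fin 2 → F) → (Fin 2 → F) → F} {f₂ : (Fin n₂ → F) → (Fin n₂ → F) → F}
    (hT : IsTensorFormStructure id (polar Qf) f₁ f₂ e P) (hHT : H ≤ tensorProductSubgroup 2 n₂ e P) [Nonempty ι]
    (hs : gramMatrix f₁ 1 0 = gramMatrix f₁ 0 1) (hd : (gramMatrix f₁).det ≠ 0) (hG2 : gramMatrix f₂ ≠ 0)
    (h2 : (2 : F) ≠ 0) {g : GL ι F} (hg : g ∈ H) :
    cjm g (sL e P (jj (gramMatrix f₁))) = sL e P (jj (gramMatrix f₁)) ∨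
      cjm g (sL e P (jj (gramMatrix f₁))) = - sL e P (jj (gramMatrix f₁)) := by
  set j := jj (gramMatrix f₁) with hj
  obtain ⟨a, b, hab⟩ := (mem_tensor e P).1 (hHT hg)
  have hact := Acts.of_pure (ts e P) hab
  have h1 := cjm_form (polar_inv hH hg) ((sL_adj_iff hT j (-j)).2 (by rw [jj_adj hs]))
  rw [hact.left, hact.left] at h1
  have h3 := gram_cancel hG2 ((sL_adj_iff hT _ _).1 h1)
  have h4 : cjm a (-j) = - cjm a j := by rw [cjm, cjm, mul_neg, neg_mul]
  rw [h4] at h3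
  obtain ⟨t, ht⟩ := jj_unique hs h2 hd h3
  have hsq : j * j = (-(gramMatrix f₁).det) • 1 := by
    rw [hj, jj_sq, hs, sub_self, mul_zero, sub_zero]
  have h5 : (t * t) * (-(gramMatrix f₁).det) = -(gramMatrix f₁).det := by
    have h6 : cjm a (j * j) = (t * t) • (j * j) := by
      rw [cjm_mul, ht, Matrix.smul_mul, Matrix.mul_smul, smul_smul]
    rw [hsq, cjm_smul, cjm_one, smul_smul] at h6
    have := congrFun (congrFun h6 0) 0
    simpa using this.symm
  have h7 : t = 1 ∨ t = -1 := by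
    have h8 : t * t = 1 := mul_right_cancel₀ (neg_ne_zero.2 hd) (by rw [h5, one_mul])
    exact mul_self_eq_one_iff.1 h8
  rw [hact.left, ht]
  rcases h7 with rfl | rfl
  · left
    rw [one_smul]
  · right
    rw [neg_one_smul, map_neg]

/-- **[Om-C4, a factor of dimension two]** -/
theorem omC4_two (hC2b : Cfsg.Agent.H778.EP.OmC2b) (hC3 : Cfsg.Agent.H778.EP.OmC3) :
    Cfsg.Agent.H778.EP.OmRow fun F _ _ ι _ _ Qf H =>
      Geo.ActsIrreducibly (Geo.matrixSet H) ∧ ∃ (n2 : ℕ) (e : ι ≃ Fin 2 × Fin n2) (P : GL ι F) (eps : F)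
        (f1 : (Fin 2 → F) → (Fin 2 → F) → F) (f2 : (Fin n2 → F) → (Fin n2 → F) → F), 2 ≤ n2 ∧
        HermForm (RingEquiv.refl F) eps f1 ∧ HermForm (RingEquiv.refl F) eps f2 ∧
        ((eps = 1 ∧ (2 : F) ≠ 0) ∨ Fintype.card F = 2) ∧
        Geo.IsTensorFormStructure id (polar Qf) f1 f2 e P ∧ H ≤ Geo.tensorProductSubgroup 2 n2 e P := by
  intro Q _ _ hs A Γ h F _ _ ι _ _ Qf m h7 hQ hyp
  obtain ⟨hirr, n2, e, P, eps, f1, f2, hn2, hf1, hf2, hcase, hT, hHT⟩ := hyp
  have hH : m.hat A ≤ isometryGroup F Qf := (m.hat_le A).trans (Cfsg.Agent.H778.EP.omegaGL_le Qf)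
  haveI : Nonempty ι := Fintype.card_pos_iff.1 (by omega)
  have hcard : 2 * n2 = Fintype.card ι := by
    rw [Fintype.card_congr e, Fintype.card_prod, Fintype.card_fin, Fintype.card_fin]
  have hG1 : IsUnit (gramMatrix f1) := Cfsg.Agent.H924.isUnit_gram hf1
  have hG2 : gramMatrix f2 ≠ 0 := by
    haveI : Nonempty (Fin n2) := ⟨⟨0, by omega⟩⟩
    exact (Cfsg.Agent.H924.isUnit_gram hf2).ne_zero
  have hd : (gramMatrix f1).det ≠ 0 := ((Matrix.isUnit_iff_isUnit_det _).1 hG1).ne_zero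
  rcases hcase with ⟨heps, h2⟩ | hF
  · have hsy : gramMatrix f1 1 0 = gramMatrix f1 0 1 := by
      rw [gramMatrix, gramMatrix, hf1.herm, heps, one_mul, RingEquiv.refl_apply]
    set θ := sL e P (jj (gramMatrix f1)) with hθdef
    have hsgn := fun g (hg : g ∈ m.hat A) => exists_sign hH hT hHT hsy hd hG2 h2 hg
    rw [← hθdef] at hsgn
    have hsq : θ * θ = (0 : F) • θ + (-(gramMatrix f1).det) • 1 := by
      rw [hθdef, ← map_mul, jj_sq, hsy, sub_self, mul_zero, sub_zero, map_smul, map_one, zero_smul, zero_add]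
    have hadj : ∀ v w, polar Qf (θ *ᵥ v) w = polar Qf v ((-θ) *ᵥ w) := by
      have := (sL_adj_iff hT (jj (gramMatrix f1)) (-jj (gramMatrix f1))).2 (by rw [jj_adj hsy])
      rwa [map_neg] at this
    by_cases hsquare : IsSquare (-(gramMatrix f1).det)
    · obtain ⟨s, hsd⟩ := hsquare
      have hs0 : s ≠ 0 := by
        rintro rfl
        rw [mul_zero, neg_eq_zero] at hsd
        exact hd hsd
      have h2s : (2 * s : F) ≠ 0 := mul_ne_zero h2 hs0
      -- totally singular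
      have hts : ∀ t : F, t ≠ 0 → IsTotallySingularQuad Qf (eig θ t) := by
        intro t ht w hw
        have h3 := hadj w w
        rw [Matrix.neg_mulVec, mem_eig.1 hw, ← neg_smul, hQ.polar_bilinear.smul_left, hQ.polar_bilinear.smul_right] at h3
        have h4 : polar Qf w w = 2 * Qf w := by
          rw [polar, ← two_smul F w, hQ.smul]
          ring
        have h5 : (2 * t * 2) * Qf w = 0 := by
          rw [h4] at h3
          linear_combination h3
        rcases mul_eq_zero.1 h5 with h6 | h6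
        · exact absurd h6 (mul_ne_zero (mul_ne_zero h2 ht) h2)
        · exact h6
      have hinf : ∀ v : ι → F, v ∈ eig θ s → v ∈ eig θ (-s) → v = 0 := by
        intro v h3 h4
        have h5 : (2 * s) • v = 0 := by
          have h6 : s • v = (-s) • v := (mem_eig.1 h3).symm.trans (mem_eig.1 h4)
          rw [mul_smul, two_smul]
          nth_rw 2 [h6]
          rw [neg_smul, add_neg_cancel]
        exact (smul_eq_zero.1 h5).resolve_left h2s
      have hsum : ∀ v : ι → F, ∃ a ∈ eig θ s, ∃ b ∈ eig θ (-s), v = a + b := by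
        intro v
        have h3 : θ *ᵥ (θ *ᵥ v) = (s * s) • v := by
          rw [Matrix.mulVec_mulVec, hsq, hsd, zero_smul, zero_add, Matrix.smul_mulVec, Matrix.one_mulVec]
        refine ⟨(2 * s)⁻¹ • (θ *ᵥ v + s • v), ?_, (2 * s)⁻¹ • (s • v - θ *ᵥ v), ?_, ?_⟩
        · rw [mem_eig, Matrix.mulVec_smul, Matrix.mulVec_add, h3, Matrix.mulVec_smul]
          module
        · rw [mem_eig, Matrix.mulVec_smul, Matrix.mulVec_sub, h3, Matrix.mulVec_smul]
          module
        · rw [← smul_add, show θ *ᵥ v + s • v + (s • v - θ *ᵥ v) = (2 * s) • v by module, smul_smul,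
            inv_mul_cancel₀ h2s, one_smul]
      have hcompl : IsCompl (eig θ s) (eig θ (-s)) := by
        constructor
        · rw [Submodule.disjoint_def]
          exact hinf
        · rw [codisjoint_iff, eq_top_iff]
          intro v _
          obtain ⟨a, ha, b, hb, rfl⟩ := hsum v
          exact Submodule.add_mem_sup ha hb
      have hdim := Submodule.finrank_add_eq_of_isCompl hcompl
      rw [Module.finrank_fintype_fun_eq_card] at hdim
      have hd1 := Cfsg.Agent.H925.two_mul_finrank_le hQ (hts s hs0)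
      have hd2 := Cfsg.Agent.H925.two_mul_finrank_le hQ (hts (-s) (neg_ne_zero.2 hs0))
      refine hC2b hs h m h7 hQ ⟨hirr, n2, ![eig θ s, eig θ (-s)], hcard, ⟨le_rfl, by omega, ?_, ?_, ?_⟩, ?_, ?_⟩
      · intro i
        fin_cases i
        · change Module.finrank F (eig θ s) = n2
          omega
        · change Module.finrank F (eig θ (-s)) = n2
          omega
      · rw [iSupIndep_pair (i := 0) (j := 1) (by decide) (by decide)]
        exact hcompl.disjoint
      · rw [eq_top_iff]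
        intro v _
        obtain ⟨a, ha, b, hb, rfl⟩ := hsum v
        exact Submodule.add_mem _ (Submodule.mem_iSup_of_mem 0 ha) (Submodule.mem_iSup_of_mem 1 hb)
      · intro i
        fin_cases i
        · exact hts s hs0
        · exact hts (-s) (neg_ne_zero.2 hs0)
      · intro g hg
        have hneg : ∀ t : F, eig (-θ) t = eig θ (-t) := by
          intro t
          ext v
          rw [mem_eig, mem_eig, Matrix.neg_mulVec, neg_smul, neg_eq_iff_eq_neg]
        rcases hsgn g hg with h3 | h3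
        · refine ⟨1, fun i => ?_⟩
          rw [Equiv.Perm.one_apply]
          fin_cases i
          · change (eig θ s).map _ = eig θ s
            rw [map_eig, h3]
          · change (eig θ (-s)).map _ = eig θ (-s)
            rw [map_eig, h3]
        · refine ⟨Equiv.swap 0 1, fun i => ?_⟩
          fin_cases i
          · change (eig θ s).map _ = _
            rw [map_eig, h3, hneg]
            rfl
          · change (eig θ (-s)).map _ = _
            rw [map_eig, h3, hneg, neg_neg]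
            rfl
    · refine hC3 hs h m h7 hQ ⟨hirr, 2, qAlg hsq, Nat.prime_two, Dvd.intro _ hcard, isField_qAlg hsq ?_, ?_,
        le_normalizer_qAlg hsq ?_⟩
      · intro x y hxy
        by_cases hy : y = 0
        · subst hy
          refine ⟨?_, rfl⟩
          have : x * x = 0 := by linear_combination hxy
          exact mul_self_eq_zero.1 this
        · exfalso
          apply hsquare
          refine ⟨x / y, ?_⟩
          field_simp
          linear_combination -hxy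
      · exact adj_qAlg hsq ⟨0, -1, by rw [zero_smul, zero_add, neg_one_smul]⟩ hQ.polar_bilinear hadj
      · intro g hg
        rcases hsgn g hg with h3 | h3
        · exact ⟨0, 1, by rw [h3, zero_smul, zero_add, one_smul]⟩
        · exact ⟨0, -1, by rw [h3, zero_smul, zero_add, neg_one_smul]⟩
  · have h01 : ∀ x : F, x = 0 ∨ x = 1 := by
      classical
      intro x
      by_contra hcon
      push Not at hcon
      have h3 : ({0, 1, x} : Finset F).card = 3 := by
        rw [Finset.card_eq_three]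
        exact ⟨0, 1, x, zero_ne_one, hcon.1.symm, hcon.2.symm, rfl⟩
      have := Finset.card_le_univ ({0, 1, x} : Finset F)
      omega
    have h2 : (1 : F) + 1 = 0 := by
      rcases h01 (1 + 1) with h | h
      · exact h
      · exfalso
        have : (1 : F) = 0 := by linear_combination h
        exact one_ne_zero this
    have hq : ∀ x y : F, Cfsg.Agent.H917.quadMat x y = x • 1 + y • Cfsg.Agent.H917.quadMat 0 1 := by
      intro x y
      ext i j
      fin_cases i <;> fin_cases j <;> simp [Cfsg.Agent.H917.quadMat]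
    have hw : Cfsg.Agent.H917.quadMat (0 : F) 1 * Cfsg.Agent.H917.quadMat 0 1 =
        (1 : F) • Cfsg.Agent.H917.quadMat 0 1 + (1 : F) • 1 := by
      rw [Cfsg.Agent.H917.quadMat_mul, hq]
      module
    have hsq : sL e P (Cfsg.Agent.H917.quadMat 0 1) * sL e P (Cfsg.Agent.H917.quadMat 0 1) =
        (1 : F) • sL e P (Cfsg.Agent.H917.quadMat 0 1) + (1 : F) • 1 := by
      rw [← map_mul, hw, map_add, map_smul, map_smul, map_one]
    refine hC3 hs h m h7 hQ ⟨hirr, 2, qAlg hsq, Nat.prime_two, Dvd.intro _ hcard, isField_qAlg hsq ?_, ?_,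
        le_normalizer_qAlg hsq ?_⟩
    · intro x y hxy
      rcases h01 x with rfl | rfl <;> rcases h01 y with rfl | rfl <;> simp at hxy ⊢
    · obtain ⟨G, hG⟩ := hG1
      obtain ⟨x, y, hxy⟩ := Cfsg.Agent.H917.conj_quadMat h01 h2 G⁻¹ 0 1
      refine adj_qAlg hsq (θ' := sL e P (Cfsg.Agent.H917.quadMat x y)) ⟨x, y, ?_⟩ hQ.polar_bilinear
        ((sL_adj_iff hT _ _).2 ?_)
      · rw [hq, map_add, map_smul, map_smul, map_one]
      · congr 1
        have h3 : (Cfsg.Agent.H917.quadMat (0 : F) 1)ᵀ = Cfsg.Agent.H917.quadMat 0 1 := by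
          ext i j
          fin_cases i <;> fin_cases j <;> simp [Cfsg.Agent.H917.quadMat]
        rw [h3, ← hG]
        have h4 := congrArg (fun M => (G : Matrix (Fin 2) (Fin 2) F) * M * (G : Matrix (Fin 2) (Fin 2) F)) hxy
        rw [← mul_assoc, ← mul_assoc, Units.mul_inv, one_mul, mul_assoc, mul_assoc, Units.inv_mul, mul_one] at h4
        exact h4
    · intro g hg
      obtain ⟨a, b, hab⟩ := (mem_tensor e P).1 (hHT hg)
      have hact := Acts.of_pure (ts e P) hab
      obtain ⟨x, y, hxy⟩ := Cfsg.Agent.H917.conj_quadMat h01 h2 a 0 1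
      refine ⟨x, y, ?_⟩
      rw [hact.left, cjm, hxy, mul_assoc, Units.mul_inv, mul_one, hq, map_add, map_smul, map_smul, map_one]

end main

end Cfsg.Agent.H681.EP
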