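import Cfsg.Agent.H681.EP.OmC3U
import Cfsg.Agent.H408.EP.OmC3E
import Cfsg.Agent.H408.EP.OmC3O
import Cfsg.Agent.H893.EP.OmC3S
import Cfsg.Agent.H893.EP.TwoMain
import Cfsg.Agent.H926.Deg

/-!
# S3499, class C3 of the orthogonal groups: assembly (helper681)

`omC3_of` : the row `OmC3` from its last part `OmC3Q` (`|F| = 2`, degree two, self-adjoint).
-/

set_option autoImplicit false

open Cfsg Cfsg.Geo Matrix QuadraticMap

namespace Cfsg.Agent.H681.EP

/-- `|F| = 2`, degree two, self-adjoint -/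
def OmC3Q : Prop := Cfsg.Agent.H778.EP.OmRow fun F _ _ ι _ _ Qf H =>
  ∃ (K : Subalgebra F (Matrix ι ι F)), Fintype.card F = 2 ∧ Geo.IsFieldSubalgebra 2 K ∧
    Geo.IsSelfAdjointFor (QuadraticMap.polar Qf) K ∧ H ≤ Geo.subalgebraNormalizer K

theorem hermForm_polar {F : Type*} [Field F] {ι : Type} [Fintype ι] [DecidableEq ι] {Qf : (ι → F) → F}
    (hQ : IsNondegenerateQuadraticForm Qf) :
    Cfsg.Agent.H919.HermForm (RingEquiv.refl F) 1 (polar Qf) where
  add_left := hQ.polar_bilinear.add_left
  smul_left := hQ.polar_bilinear.smul_left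
  sigma_sq := fun _ => rfl
  eps := by rw [RingEquiv.refl_apply, one_mul]
  herm := fun v w => by rw [RingEquiv.refl_apply, one_mul, polar_comm]
  nondegenerate := hQ.nondegenerate

/-- **[Om-C3], assembly** -/
theorem omC3_of (hQ2 : OmC3Q) : Cfsg.Agent.H778.EP.OmC3 := by
  intro Q _ _ hs A Γ h F _ _ ι _ _ Qf m h7 hQ ⟨hirr, r, K, hr, hrd, hK, hadj, hle⟩
  haveI : Nonempty ι := Fintype.card_pos_iff.1 (by omega)
  by_cases hsa : IsSelfAdjointFor (polar Qf) K
  · by_cases hr2 : r = 2
    · subst hr2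
      by_cases hF : Fintype.card F = 2
      · exact hQ2 hs h m h7 hQ ⟨K, hF, hK, hsa, hle⟩
      · have h1 : 1 < Fintype.card F := Fintype.one_lt_card
        exact Cfsg.Agent.H893.EP.omC3R hs h m h7 hQ ⟨K, by omega, hK, hsa, hle⟩
    · have hr3 : 3 ≤ r := by
        have := hr.two_le
        omega
      by_cases h3r : 3 * r ≤ Fintype.card ι
      · by_cases h2 : (2 : F) = 0
        · exact Cfsg.Agent.H408.EP.omC3E hs h m h7 hQ ⟨r, K, hr, hr3, h2, h3r, hK, hsa, hle⟩
        · exact Cfsg.Agent.H408.EP.omC3O hs h m h7 hQ ⟨r, K, hr, hr3, h2, h3r, hK, hsa, hle⟩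
      · obtain ⟨c, hc⟩ := hrd
        have hc3 : c < 3 := by
          by_contra hcon
          apply h3r
          rw [hc, mul_comm 3 r]
          exact Nat.mul_le_mul_left r (by omega)
        have hr5 : 5 ≤ r := by
          have h3 : r ≠ 3 := by
            rintro rfl
            omega
          have h4 : r ≠ 4 := by
            rintro rfl
            exact absurd hr (by norm_num)
          omega
        refine Cfsg.Agent.H893.EP.omC3S hs h m h7 hQ ⟨r, K, hr, hr5, ?_, hK, hsa, hle⟩
        have hc0 : c ≠ 0 := by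
          rintro rfl
          omega
        interval_cases c
        · exact absurd rfl hc0
        · left; omega
        · right; omega
  · have hr2 : r = 2 := by
      by_contra hr2
      exact hsa (Cfsg.Agent.H926.selfAdjoint_of_odd (hermForm_polar hQ) (hr.odd_of_ne_two hr2) hK hadj)
    subst hr2
    exact omC3U hs h m h7 hQ ⟨hirr, K, hK, hadj, hsa, hle⟩

end Cfsg.Agent.H681.EP
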