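import Cfsg.Agent.H681.EP.OmUK
import Cfsg.Agent.H778.EP.OmAsm

/-!
# S3499, class C3 of the orthogonal groups, unitary type (helper681)

`omC3U` : `K` of degree two, adjoint closed, not self-adjoint. `q` even: the squares of the elements of `A` commute with
`U_1(K)`, and the square of a rotation of a `K`-line commutes with a Siegel element outside `A`. `q` odd: (KX) with a
Siegel element `x` and an element `y` of `U_1(K)` acting on a hyperbolic `K`-plane.
-/

set_option autoImplicit false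
set_option linter.unusedSectionVars false

open Cfsg Cfsg.Geo Matrix QuadraticMap

namespace Cfsg.Agent.H681.EP

open Cfsg.Agent.H284 Cfsg.Agent.ClassicalGeometry.Reflection Cfsg.Agent.H419.EP

section pair
variable {F : Type*} [Field F] {ι : Type} [Fintype ι] [DecidableEq ι]
variable {K : Subalgebra F (Matrix ι ι F)} {q : QuadraticForm F (ι → F)} {θ : Matrix ι ι F} {b N : F}

/-- squares of isometries lie in `Ω` -/
theorem sq_mem_omega {Qf : (ι → F) → F} (hQ : IsNondegenerateQuadraticForm Qf) (hn : 7 ≤ Fintype.card ι) {y : GL ι F}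
    (hy : ∀ x, Qf ((y : Matrix ι ι F) *ᵥ x) = Qf x) : y ^ 2 ∈ omegaGL Qf := by
  have hy' : y ∈ isometryGroup F Qf := (mem_isometryGroup_iff _ _).2 hy
  have hcl := ClassicalGeometry.GenReflections.closure_refls_eq_top (H889.bundleQ Qf hQ)
    (H889.bundleQ_nondegenerate Qf hQ) (Or.inr (by omega))
  have key : ∀ g : isometryGroup F (⇑(H889.bundleQ Qf hQ)), g ^ 2 ∈ commutator (isometryGroup F (⇑(H889.bundleQ Qf hQ))) := by
    intro g
    rw [← Abelianization.ker_of, MonoidHom.mem_ker, map_pow]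
    have hg : g ∈ Subgroup.closure (ClassicalGeometry.GenReflections.refls (H889.bundleQ Qf hQ)) := by
      rw [hcl]; exact Subgroup.mem_top _
    induction hg using Subgroup.closure_induction with
    | mem x hx =>
      obtain ⟨v, hv, hs⟩ := hx
      have : x = reflIso (H889.bundleQ Qf hQ) v hv := Subtype.ext (Units.ext hs)
      rw [← map_pow, this, pow_two, reflIso_mul_self, map_one]
    | one => rw [map_one, one_pow]
    | mul x y _ _ hx hy => rw [map_mul, mul_pow, hx, hy, one_mul]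
    | inv x _ hx => rw [map_inv, inv_pow, hx, inv_one]
  exact ⟨⟨y, hy'⟩ ^ 2, key ⟨y, hy'⟩, rfl⟩

namespace Pr

variable {u v : ι → F} (P : Pr q θ u v) (h : UK q K θ b N) (hF : Fm q θ b N)
include P h hF

/-- the Siegel element of the pair does not normalise `K` -/
theorem not_norm {g : GL ι F}
    (hg : ∀ x, (g : Matrix ι ι F) *ᵥ x = x + (polar q u x • v - polar q v x • u)) {w : ι → F} (hw : w ≠ 0)
    (hp : Pp q θ u v w) : g ∉ subalgebraNormalizer K := by
  intro hgK
  obtain ⟨t1, t2, t3, t4, t5, t6, t7, t8, t9, t10⟩ := P.tab h hF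
  have hu0 : u ≠ 0 := by
    rintro rfl
    have := P.tuv
    rw [Matrix.mulVec_zero, polar_zero_left] at this
    exact zero_ne_one this
  rcases h.conj hgK with hc | hc
  · have e := congrArg (fun M => M *ᵥ (θ *ᵥ u)) hc
    simp only [← Matrix.mulVec_mulVec] at e
    have e1 : (g : Matrix ι ι F) *ᵥ u = u := by
      rw [hg, t1, t3, zero_smul, zero_smul, sub_zero, add_zero]
    have e2 : (g : Matrix ι ι F) *ᵥ (θ *ᵥ u) = θ *ᵥ u - u := by
      rw [hg, t4, t7, zero_smul, one_smul, zero_sub, sub_eq_add_neg]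
    rw [h.two, e2, Matrix.mulVec_sub, Matrix.mulVec_smul, Matrix.mulVec_smul, e1, e2, Matrix.mulVec_sub, h.two] at e
    have e3 := (h.lin hu0 (α := -b) (β := 1) (by
      rw [smul_sub] at e
      have e4 : (-b) • u + (1 : F) • (θ *ᵥ u) =
        (b • (θ *ᵥ u) - b • u - N • u) - (b • (θ *ᵥ u) - N • u - θ *ᵥ u) := by module
      rw [e4, e, sub_self])).2
    exact one_ne_zero e3
  · have e := congrArg (fun M => M *ᵥ w) hc
    simp only [Matrix.sub_mulVec, Matrix.smul_mulVec, ← Matrix.mulVec_mulVec] at e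
    have hp' := hp.th h
    have e1 : (g : Matrix ι ι F) *ᵥ w = w := by
      rw [hg, hp.pu, hp.pv, zero_smul, zero_smul, sub_zero, add_zero]
    have e2 : (g : Matrix ι ι F) *ᵥ (θ *ᵥ w) = θ *ᵥ w := by
      rw [hg, hp'.pu, hp'.pv, zero_smul, zero_smul, sub_zero, add_zero]
    rw [e1, e2] at e
    have e3 := h.lin hw (α := -b) (β := 2) (by
      have e4 : (-b) • w + (2 : F) • (θ *ᵥ w) = θ *ᵥ w - (b • w - θ *ᵥ w) := by module
      rw [e4, ← e, sub_self])
    apply h.nb
    rw [← two_smul F θ, e3.2, neg_eq_zero.1 e3.1, zero_smul, zero_smul]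

end Pr

/-- the rotation of a `K`-line -/
theorem UK.exists_rot (h : UK q K θ b N) (hF : Fm q θ b N) {w : ι → F} (hw : q w ≠ 0) :
    ∃ g : GL ι F, (∀ x, q ((g : Matrix ι ι F) *ᵥ x) = q x) ∧ (∀ x, (g : Matrix ι ι F) *ᵥ x =
      x - ((q w)⁻¹ * polar q w x) • w - ((N * q w)⁻¹ * (polar q (θ *ᵥ w) x - b * polar q w x)) • (θ *ᵥ w)) := by
  have hN := h.N_ne
  have hθw : q (θ *ᵥ w) ≠ 0 := by rw [(hF w).1]; exact mul_ne_zero hN hw
  refine ⟨reflGL q (θ *ᵥ w) hθw * reflGL q w hw, ?_, ?_⟩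
  · intro x
    rw [Units.val_mul, ← Matrix.mulVec_mulVec, coe_reflGL, coe_reflGL, reflectionMatrix_isometry q _ hθw,
      reflectionMatrix_isometry q _ hw]
  · intro x
    rw [Units.val_mul, ← Matrix.mulVec_mulVec, coe_reflGL, coe_reflGL, reflectionMatrix_mulVec, reflectionMatrix_mulVec,
      (hF w).1, sub_eq_add_neg x, polar_add_right, polar_neg_right, polar_smul_right, polar_comm q (θ *ᵥ w) w,
      (hF w).2, smul_eq_mul]
    congr 2
    field_simp
    ring

/-- the rotation commutes with `θ` -/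
theorem UK.rot_comm (h : UK q K θ b N) {w : ι → F} (hw : q w ≠ 0) {g : GL ι F}
    (hg : ∀ x, (g : Matrix ι ι F) *ᵥ x =
      x - ((q w)⁻¹ * polar q w x) • w - ((N * q w)⁻¹ * (polar q (θ *ᵥ w) x - b * polar q w x)) • (θ *ᵥ w)) :
    (g : Matrix ι ι F) * θ = θ * g := by
  have hN := h.N_ne
  apply mat_ext
  intro x
  have e1 : polar q w (θ *ᵥ x) = b * polar q w x - polar q (θ *ᵥ w) x := h.adj' w x
  have e2 : polar q (θ *ᵥ w) (θ *ᵥ x) = N * polar q w x := by
    rw [h.adj, h.two, sub_eq_add_neg (b • (θ *ᵥ x)), polar_add_right, polar_neg_right, polar_smul_right,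
      polar_smul_right, smul_eq_mul, smul_eq_mul]
    ring
  rw [← Matrix.mulVec_mulVec, ← Matrix.mulVec_mulVec, hg, hg, e1, e2, Matrix.mulVec_sub, Matrix.mulVec_sub,
    Matrix.mulVec_smul, Matrix.mulVec_smul, h.two]
  match_scalars <;> field_simp <;> ring

end pair

/-- **The even case.** -/
theorem omC3U_even {Q : Type*} [Group Q] {A : Subgroup Q} {Γ : Subgroup (MulAut Q)} (hE : EPT A Γ)
    {F : Type*} [Field F] [Finite F] {ι : Type} [Fintype ι] [DecidableEq ι] {Qf : (ι → F) → F}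
    (hQ : IsNondegenerateQuadraticForm Qf) (m : Model Q (omegaGL Qf)) (hn : 7 ≤ Fintype.card ι) (h2 : (2 : F) = 0)
    {K : Subalgebra F (Matrix ι ι F)} {θ : Matrix ι ι F} {b N : F} (h : UK (H889.bundleQ Qf hQ) K θ b N)
    (hF : Fm (H889.bundleQ Qf hQ) θ b N) (hA : m.hat A ≤ subalgebraNormalizer K) : False := by
  classical
  obtain ⟨q, hq⟩ : ∃ q, q = H889.bundleQ Qf hQ := ⟨_, rfl⟩
  have hqf : ∀ x, q x = Qf x := fun x => by rw [hq]; rfl
  have hnd : ∀ x, (∀ y, polar q x y = 0) → x = 0 := fun x hx =>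
    (H889.bundleQ_nondegenerate Qf hQ).1 x (fun y => by rw [← hq]; exact hx y)
  rw [← hq] at h hF
  have hN := h.N_ne
  have hadd : ∀ M : Matrix ι ι F, M + M = 0 := fun M => by rw [← two_smul F M, h2, zero_smul]
  have hb : b ≠ 0 := by
    intro hb
    apply h.nb
    rw [hadd, hb, zero_smul]
  obtain ⟨u, v, P⟩ := h.exists_pair hF hnd (by omega)
  obtain ⟨w, hw, hp⟩ := P.exists_nonsing h hF hnd hn
  have hw0 : w ≠ 0 := by rintro rfl; exact hw (QuadraticMap.map_zero q)
  have hu0 : u ≠ 0 := by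
    rintro rfl
    have := P.tuv
    rw [Matrix.mulVec_zero, polar_zero_left] at this
    exact zero_ne_one this
  obtain ⟨t, htO, ht⟩ := H889.exists_siegel_omegaGL Qf hQ (by omega) u v (by rw [← hqf]; exact P.qu)
    (by rw [← hqf]; exact P.qv) (by have := P.uv; rw [hq] at this; exact this)
  have ht' : ∀ x, (t : Matrix ι ι F) *ᵥ x = x + (polar q u x • v - polar q v x • u) := by rw [hq]; exact ht
  have htK := P.not_norm h hF ht' hw0 hp
  have hM : m.hat A = subalgebraNormalizer K ⊓ omegaGL Qf := by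
    rcases (m.isMaximalIn hE.max).2 _ (le_inf hA (m.hat_le A)) inf_le_right with e | e
    · exact e.symm
    · exfalso
      apply htK
      exact (show t ∈ subalgebraNormalizer K ⊓ omegaGL Qf by rw [e]; exact htO).1
  -- `z0`
  have hθb : (b • (1 : Matrix ι ι F) - θ) * θ = N • 1 := by
    rw [sub_mul, h.sq, smul_mul_assoc, one_mul, sub_sub_cancel]
  have hθb' : θ * (b • (1 : Matrix ι ι F) - θ) = N • 1 := by
    rw [mul_sub, h.sq, mul_smul_comm, mul_one, sub_sub_cancel]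
  obtain ⟨z0, hz0⟩ : ∃ z0 : GL ι F, (z0 : Matrix ι ι F) = N⁻¹ • ((b • (1 : Matrix ι ι F) - θ) * (b • 1 - θ)) := by
    refine ⟨⟨N⁻¹ • ((b • (1 : Matrix ι ι F) - θ) * (b • 1 - θ)), N⁻¹ • (θ * θ), ?_, ?_⟩, rfl⟩
    · have e1 : (b • (1 : Matrix ι ι F) - θ) * (b • 1 - θ) * (θ * θ) = (N * N) • 1 := by
        rw [mul_assoc, ← mul_assoc (b • (1 : Matrix ι ι F) - θ) θ θ, hθb, smul_mul_assoc, one_mul, mul_smul_comm, hθb,
          smul_smul]
      rw [smul_mul_smul_comm, e1, smul_smul]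
      have : N⁻¹ * N⁻¹ * (N * N) = 1 := by field_simp
      rw [this, one_smul]
    · have e1 : (θ * θ) * ((b • (1 : Matrix ι ι F) - θ) * (b • 1 - θ)) = (N * N) • 1 := by
        rw [mul_assoc, ← mul_assoc θ (b • (1 : Matrix ι ι F) - θ), hθb', smul_mul_assoc, one_mul, mul_smul_comm, hθb',
          smul_smul]
      rw [smul_mul_smul_comm, e1, smul_smul]
      have : N⁻¹ * N⁻¹ * (N * N) = 1 := by field_simp
      rw [this, one_smul]
  have hz0q : ∀ x, Qf ((z0 : Matrix ι ι F) *ᵥ x) = Qf x := by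
    have e1 : ∀ x, q ((b • (1 : Matrix ι ι F) - θ) *ᵥ x) = N * q x := by
      intro x
      rw [Matrix.sub_mulVec, Matrix.smul_mulVec, Matrix.one_mulVec, q_sub, QuadraticMap.map_smul, polar_smul_left,
        (hF x).1, (hF x).2, smul_eq_mul, smul_eq_mul]
      ring
    intro x
    rw [← hqf, ← hqf, hz0, Matrix.smul_mulVec, QuadraticMap.map_smul, ← Matrix.mulVec_mulVec, e1, e1, smul_eq_mul]
    field_simp
  have hz0c : ∀ G : Matrix ι ι F, G * θ = θ * G → G * z0 = z0 * G := by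
    intro G hG
    have e1 : G * (b • (1 : Matrix ι ι F) - θ) = (b • (1 : Matrix ι ι F) - θ) * G := by
      rw [mul_sub, sub_mul, hG, mul_smul_comm, smul_mul_assoc, mul_one, one_mul]
    rw [hz0, mul_smul_comm, smul_mul_assoc, ← mul_assoc, e1, mul_assoc, e1, ← mul_assoc]
  have hzO := sq_mem_omega hQ hn hz0q
  have hzs : z0 ^ 2 ∉ scalars ι F := by
    rw [mem_scalars_iff]
    rintro ⟨c, hc⟩
    have e1 : (b • (1 : Matrix ι ι F) - θ) * (b • 1 - θ) = (b * b - N) • 1 - b • θ := by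
      rw [sub_mul, hθb', smul_mul_assoc, one_mul, smul_sub, smul_smul]
      module
    have e2 : ((z0 ^ 2 : GL ι F) : Matrix ι ι F) = (N⁻¹ * N⁻¹) • (((b * b - N) • (1 : Matrix ι ι F) - b • θ) *
        ((b * b - N) • 1 - b • θ)) := by
      rw [pow_two, Units.val_mul, hz0, smul_mul_smul_comm, e1]
    have e3 : ((b * b - N) • (1 : Matrix ι ι F) - b • θ) * ((b * b - N) • 1 - b • θ) =
        ((b * b - N) * (b * b - N) - b * b * N) • 1 + (b * b * b - 2 * b * (b * b - N)) • θ := by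
      simp only [sub_mul, mul_sub, smul_mul_smul_comm, one_mul, mul_one, h.sq, smul_sub, smul_smul]
      module
    rw [e2, e3] at hc
    have e4 := congrArg (fun M => M *ᵥ w) hc
    simp only [Matrix.smul_mulVec, Matrix.add_mulVec, Matrix.one_mulVec] at e4
    have e5 := (h.lin hw0 (α := N⁻¹ * N⁻¹ * ((b * b - N) * (b * b - N) - b * b * N) - c)
      (β := N⁻¹ * N⁻¹ * (b * b * b - 2 * b * (b * b - N))) (by
      rw [sub_smul, ← e4]
      module)).2
    rw [h2, zero_mul, zero_mul, sub_zero] at e5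
    have := mul_ne_zero (mul_ne_zero (inv_ne_zero hN) (inv_ne_zero hN)) (mul_ne_zero (mul_ne_zero hb hb) hb)
    exact this e5
  -- `y0`
  obtain ⟨y0, hy0q, hy0⟩ := h.exists_rot hF hw
  have hy0θ := h.rot_comm hw hy0
  have hyO := sq_mem_omega hQ hn (y := y0) (fun x => by rw [← hqf, ← hqf]; exact hy0q x)
  have hy0t : (t : Matrix ι ι F) * y0 = y0 * t := by
    have e1 : (t : Matrix ι ι F) *ᵥ w = w := by
      rw [ht', hp.pu, hp.pv, zero_smul, zero_smul, sub_zero, add_zero]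
    have hp' := hp.th h
    have e2 : (t : Matrix ι ι F) *ᵥ (θ *ᵥ w) = θ *ᵥ w := by
      rw [ht', hp'.pu, hp'.pv, zero_smul, zero_smul, sub_zero, add_zero]
    have hpt : ∀ x y, polar q ((t : Matrix ι ι F) *ᵥ x) ((t : Matrix ι ι F) *ᵥ y) = polar q x y := by
      apply polar_mulVec_of_isometry q
      intro x
      obtain ⟨t', ht1, ht2⟩ := htO
      rw [hqf, hqf, ← ht2]
      exact (mem_isometryGroup_iff _ _).1 t'.2 x
    apply mat_ext
    intro x
    rw [← Matrix.mulVec_mulVec, ← Matrix.mulVec_mulVec, hy0, hy0, Matrix.mulVec_sub, Matrix.mulVec_sub,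
      Matrix.mulVec_smul, Matrix.mulVec_smul, e1, e2]
    have e3 := hpt w x
    have e4 := hpt (θ *ᵥ w) x
    rw [e1] at e3
    rw [e2] at e4
    rw [e3, e4]
  have hys : (y0 ^ 2) ^ 2 ∉ scalars ι F := by
    rw [mem_scalars_iff]
    rintro ⟨c, hc⟩
    have hcu : (c : F) = 1 := by
      have e1 : (y0 : Matrix ι ι F) *ᵥ u = u := by
        rw [hy0, polar_comm q w u, polar_comm q (θ *ᵥ w) u, hp.pu, (hp.th h).pu, mul_zero, mul_zero, sub_zero, mul_zero,
          zero_smul, zero_smul, sub_zero, sub_zero]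
      have e2 := congrArg (fun M => M *ᵥ u) hc
      simp only [pow_two, Units.val_mul, ← Matrix.mulVec_mulVec, e1, Matrix.smul_mulVec, Matrix.one_mulVec] at e2
      have e3 : (1 - (c : F)) • u = 0 := by rw [sub_smul, one_smul, ← e2, sub_self]
      exact (sub_eq_zero.1 ((smul_eq_zero.1 e3).resolve_right hu0)).symm
    obtain ⟨M, hMd⟩ : ∃ M : Matrix ι ι F, M = 1 + (N⁻¹ * b) • θ := ⟨_, rfl⟩
    have hyw : (y0 : Matrix ι ι F) *ᵥ w = M *ᵥ w := by
      rw [hy0, hMd, Matrix.add_mulVec, Matrix.one_mulVec, Matrix.smul_mulVec, polar_self', polar_comm q (θ *ᵥ w) w,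
        (hF w).2, h2]
      match_scalars
      · ring
      · field_simp
        linear_combination (-1 : F) * h2
    have hyM : (y0 : Matrix ι ι F) * M = M * y0 := by
      rw [hMd, mul_add, add_mul, mul_one, one_mul, mul_smul_comm, smul_mul_assoc, hy0θ]
    have e4 : (M * M * (M * M)) *ᵥ w = w := by
      have e2 := congrArg (fun M => M *ᵥ w) hc
      rw [hcu, one_smul] at e2
      have e5 : (((y0 ^ 2) ^ 2 : GL ι F) : Matrix ι ι F) *ᵥ w = (M * M * (M * M)) *ᵥ w := by
        have f1 : ∀ x, (y0 : Matrix ι ι F) *ᵥ (M *ᵥ x) = M *ᵥ ((y0 : Matrix ι ι F) *ᵥ x) := by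
          intro x
          rw [Matrix.mulVec_mulVec, hyM, Matrix.mulVec_mulVec]
        simp only [pow_two, Units.val_mul, ← Matrix.mulVec_mulVec, hyw, f1]
      rw [← e5]
      simpa using e2
    have e6 : M * M = 1 + (N⁻¹ * b * (N⁻¹ * b)) • (θ * θ) := by
      have := hadd ((N⁻¹ * b) • θ)
      rw [hMd, mul_add, mul_one, add_mul, one_mul, smul_mul_smul_comm, add_assoc, ← add_assoc ((N⁻¹ * b) • θ), this,
        zero_add]
    obtain ⟨S, hS⟩ : ∃ S : Matrix ι ι F, S = (N⁻¹ * b * (N⁻¹ * b)) • (θ * θ) := ⟨_, rfl⟩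
    have hμ : N⁻¹ * b ≠ 0 := mul_ne_zero (inv_ne_zero hN) hb
    have hSK : S ∈ K := by rw [hS]; exact K.smul_mem (K.mul_mem h.mem h.mem) _
    have hS0 : S ≠ 0 := by
      rw [hS]
      intro e
      rcases smul_eq_zero.1 e with e | e
      · exact mul_ne_zero hμ hμ e
      · rcases h.mul_eq_zero h.mem h.mem e with e | e
        · exact h.ne e
        · exact h.ne e
    rw [← hS] at e6
    have e7 : (1 + S) * (1 + S) = 1 + S * S := by
      rw [mul_add, mul_one, add_mul, one_mul, add_assoc, ← add_assoc S, hadd, zero_add]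
    rw [e6, e7, Matrix.add_mulVec, Matrix.one_mulVec, add_eq_left] at e4
    have e8 : S * S ≠ 0 := by
      intro e
      rcases h.mul_eq_zero hSK hSK e with e | e
      · exact hS0 e
      · exact hS0 e
    exact hw0 (h.inj (K.mul_mem hSK hSK) e8 e4)
  -- end
  have hpw : ∀ G : Matrix ι ι F, ∀ g : GL ι F, G * g = g * G → G * ((g ^ 2 : GL ι F) : Matrix ι ι F) =
      ((g ^ 2 : GL ι F) : Matrix ι ι F) * G := by
    intro G g hg
    rw [pow_two, Units.val_mul, ← mul_assoc, hg, mul_assoc, hg, ← mul_assoc]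
  have hzA : m.π ⟨z0 ^ 2, hzO⟩ ∈ A := by
    rw [← m.mem_hat_iff, hM]
    exact ⟨h.mem_norm (hpw θ z0 (hz0c θ rfl)).symm, hzO⟩
  have hyA : m.π ⟨y0 ^ 2, hyO⟩ ∈ A := by
    rw [← m.mem_hat_iff, hM]
    exact ⟨h.mem_norm (hpw θ y0 hy0θ.symm).symm, hyO⟩
  have hTA := mem_of_sq hE hzA ?_ ?_ hyA ?_ (t := m.π ⟨t, htO⟩) ?_
  · apply htK
    have h3 := (m.mem_hat_iff ⟨t, htO⟩).2 hTA
    rw [hM] at h3
    exact h3.1
  · rw [Ne, m.ker]
    exact hzs
  · intro g hg
    obtain ⟨g, rfl⟩ := m.surj g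
    have hg' := (m.mem_hat_iff g).2 hg
    have hg2 := h.sq_comm (hA hg')
    rw [← map_pow, ← map_mul, ← map_mul]
    congr 1
    apply Subtype.ext
    apply Units.ext
    change ((((g : GL ι F) ^ 2 : GL ι F)) : Matrix ι ι F) * ((z0 ^ 2 : GL ι F) : Matrix ι ι F) =
      ((z0 ^ 2 : GL ι F) : Matrix ι ι F) * ((((g : GL ι F) ^ 2 : GL ι F)) : Matrix ι ι F)
    apply hpw
    apply hz0c
    rw [pow_two, Units.val_mul]
    exact hg2
  · rw [← map_pow, Ne, m.ker]
    exact hys
  · rw [← map_pow, ← map_mul, ← map_mul]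
    congr 1
    apply Subtype.ext
    apply Units.ext
    exact hpw _ _ (hpw _ _ hy0t)

/-- a skew generator of `K` -/
theorem UK.skew {F : Type*} [Field F] {ι : Type} [Fintype ι] [DecidableEq ι] {K : Subalgebra F (Matrix ι ι F)}
    {q : QuadraticForm F (ι → F)} {θ : Matrix ι ι F} {b N : F} (h : UK q K θ b N) (h2 : (2 : F) ≠ 0) :
    UK q K (θ - (b / 2) • 1) 0 (N - b / 2 * (b / 2)) := by
  have hns : ∀ c : F, θ - (b / 2) • 1 ≠ c • 1 := by
    intro c hc
    apply h.ns (c + b / 2)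
    rw [add_smul, ← hc, sub_add_cancel]
  have hmem : θ - (b / 2) • 1 ∈ K := K.sub_mem h.mem (one_smul_mem _)
  refine ⟨h.field, hmem, ?_, ?_, gen_of_ns h.field hmem hns, hns, ?_⟩
  · intro u v
    rw [Matrix.sub_mulVec, Matrix.sub_mulVec, Matrix.smul_mulVec, Matrix.smul_mulVec, Matrix.one_mulVec,
      Matrix.one_mulVec, sub_eq_add_neg, polar_add_left, polar_neg_left, polar_smul_left, sub_eq_add_neg (θ *ᵥ v),
      polar_add_right, polar_neg_right, polar_smul_right, h.adj, smul_eq_mul]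
    field_simp
    ring
  · rw [sub_mul, mul_sub, mul_sub, h.sq, mul_smul_comm, mul_one, smul_mul_smul_comm, one_mul, smul_mul_assoc, one_mul]
    match_scalars
    · field_simp
      ring
    · field_simp
      ring
  · intro e
    rw [zero_smul] at e
    apply hns 0
    rw [zero_smul]
    have e1 : (2 : F) • (θ - (b / 2) • (1 : Matrix ι ι F)) = 0 := by rw [two_smul, e]
    exact (smul_eq_zero.1 e1).resolve_left h2

/-- **The odd case.** -/
theorem omC3U_odd {Q : Type*} [Group Q] {A : Subgroup Q} {Γ : Subgroup (MulAut Q)} (hE : EPT A Γ)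
    {F : Type*} [Field F] [Finite F] {ι : Type} [Fintype ι] [DecidableEq ι] {Qf : (ι → F) → F}
    (hQ : IsNondegenerateQuadraticForm Qf) (m : Model Q (omegaGL Qf)) (hn : 7 ≤ Fintype.card ι) (h2 : (2 : F) ≠ 0)
    {K : Subalgebra F (Matrix ι ι F)} {θ : Matrix ι ι F} {N : F} (h : UK (H889.bundleQ Qf hQ) K θ 0 N)
    (hF : Fm (H889.bundleQ Qf hQ) θ 0 N) (hA : m.hat A ≤ subalgebraNormalizer K) : False := by
  classical
  obtain ⟨q, hq⟩ : ∃ q, q = H889.bundleQ Qf hQ := ⟨_, rfl⟩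
  have hqf : ∀ x, q x = Qf x := fun x => by rw [hq]; rfl
  have hqfp : ∀ x y, polar q x y = polar Qf x y := fun x y => by rw [hq]; rfl
  have hnd : ∀ x, (∀ y, polar q x y = 0) → x = 0 := fun x hx =>
    (H889.bundleQ_nondegenerate Qf hQ).1 x (fun y => by rw [← hq]; exact hx y)
  rw [← hq] at h hF
  have hN := h.N_ne
  obtain ⟨u, v, P⟩ := h.exists_pair hF hnd (by omega)
  obtain ⟨w, hw0, hqw, hwp⟩ := exists_perp_sing (q := q) ![u, θ *ᵥ u, v, θ *ᵥ v] hn
  have hp : Pp q θ u v w := ⟨hwp 0, hwp 1, hwp 2, hwp 3⟩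
  have hp' := hp.th h
  obtain ⟨t1, t2, t3, t4, t5, t6, t7, t8, t9, t10⟩ := P.tab h hF
  have t0 := P.uv
  have s1 : polar q (θ *ᵥ u) u = 0 := by rw [polar_comm, t4]
  have s2 : polar q (θ *ᵥ v) v = 0 := by rw [polar_comm, t5]
  have s3 : polar q (θ *ᵥ v) u = -1 := by rw [polar_comm, t6]
  have s4 : polar q (θ *ᵥ u) v = 1 := P.tuv
  have s5 : polar q (θ *ᵥ v) (θ *ᵥ u) = 0 := by rw [polar_comm, t10]
  have s6 : polar q (θ *ᵥ u) (θ *ᵥ u) = 0 := by rw [polar_self', t8, mul_zero]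
  have s7 : polar q (θ *ᵥ v) (θ *ᵥ v) = 0 := by rw [polar_self', t9, mul_zero]
  have hu0 : u ≠ 0 := by
    rintro rfl
    have := P.tuv
    rw [Matrix.mulVec_zero, polar_zero_left] at this
    exact zero_ne_one this
  have htwo : ∀ y, θ *ᵥ (θ *ᵥ y) = (-N) • y := by
    intro y
    rw [h.two, zero_smul, zero_sub, neg_smul]
  have hadj : ∀ x y, polar q x (θ *ᵥ y) = -polar q (θ *ᵥ x) y := by
    intro x y
    rw [h.adj']; ring
  have htt : ∀ x y, polar q (θ *ᵥ x) (θ *ᵥ y) = N * polar q x y := by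
    intro x y
    rw [hadj, htwo, polar_smul_left, smul_eq_mul]; ring
  -- `x`
  obtain ⟨x, hxO, hx⟩ := H889.exists_siegel_omegaGL Qf hQ (by omega) u v (by rw [← hqf]; exact P.qu)
    (by rw [← hqf]; exact P.qv) (by rw [← hqfp]; exact P.uv)
  simp only [← hqfp] at hx
  have hxK := P.not_norm h hF hx hw0 hp
  have hM : m.hat A = subalgebraNormalizer K ⊓ omegaGL Qf := by
    rcases (m.isMaximalIn hE.max).2 _ (le_inf hA (m.hat_le A)) inf_le_right with e | e
    · exact e.symm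
    · exfalso
      apply hxK
      exact (show x ∈ subalgebraNormalizer K ⊓ omegaGL Qf by rw [e]; exact hxO).1
  obtain ⟨x', hx'⟩ : ∃ x' : Matrix ι ι F, x' = ((x⁻¹ : GL ι F) : Matrix ι ι F) := ⟨_, rfl⟩
  have hxx' : (x : Matrix ι ι F) * x' = 1 := by rw [hx', ← Units.val_mul, mul_inv_cancel, Units.val_one]
  have hx'x : x' * (x : Matrix ι ι F) = 1 := by rw [hx', ← Units.val_mul, inv_mul_cancel, Units.val_one]
  have hxi : ∀ y, x' *ᵥ y = y - (polar q u y • v - polar q v y • u) := by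
    intro y
    have e1 : (x : Matrix ι ι F) *ᵥ (y - (polar q u y • v - polar q v y • u)) = y := by
      rw [Matrix.mulVec_sub, Matrix.mulVec_sub, Matrix.mulVec_smul, Matrix.mulVec_smul, hx, hx u, hx v, t0, t1, t2, t3]
      module
    calc x' *ᵥ y = x' *ᵥ ((x : Matrix ι ι F) *ᵥ (y - (polar q u y • v - polar q v y • u))) := by rw [e1]
      _ = _ := by rw [Matrix.mulVec_mulVec, hx'x, Matrix.one_mulVec]
  -- `D`
  obtain ⟨D, hDd⟩ : ∃ D : Matrix ι ι F, D = (x : Matrix ι ι F) * θ * x' - θ := ⟨_, rfl⟩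
  have hD : ∀ y, D *ᵥ y = (-polar q (θ *ᵥ u) y) • v + (polar q (θ *ᵥ v) y) • u - (polar q u y) • (θ *ᵥ v - v) +
      (polar q v y) • (θ *ᵥ u - u) := by
    intro y
    rw [hDd, Matrix.sub_mulVec, ← Matrix.mulVec_mulVec, ← Matrix.mulVec_mulVec, hxi, Matrix.mulVec_sub,
      Matrix.mulVec_sub, Matrix.mulVec_sub, Matrix.mulVec_sub, Matrix.mulVec_smul, Matrix.mulVec_smul,
      Matrix.mulVec_smul, Matrix.mulVec_smul, hx (θ *ᵥ y), hx (θ *ᵥ u), hx (θ *ᵥ v), t4, t5, t6, t7, hadj u y,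
      hadj v y]
    module
  have hDD : ∀ y, D *ᵥ (D *ᵥ y) = (-polar q (θ *ᵥ v) y) • u + (polar q v y) • (θ *ᵥ u) + (polar q (θ *ᵥ u) y) • v -
      (polar q u y) • (θ *ᵥ v) := by
    intro y
    rw [hD y, Matrix.mulVec_add, Matrix.mulVec_sub, Matrix.mulVec_add, Matrix.mulVec_smul, Matrix.mulVec_smul,
      Matrix.mulVec_smul, Matrix.mulVec_smul, Matrix.mulVec_sub, Matrix.mulVec_sub, hD u, hD v, hD (θ *ᵥ u),
      hD (θ *ᵥ v), t0, t1, t2, t3, t4, t5, t6, t7, t10, s1, s2, s3, s4, s5, s6, s7]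
    module
  have hθDD : ∀ y, θ *ᵥ (D *ᵥ (D *ᵥ y)) = (-polar q (θ *ᵥ v) y) • (θ *ᵥ u) - (N * polar q v y) • u +
      (polar q (θ *ᵥ u) y) • (θ *ᵥ v) + (N * polar q u y) • v := by
    intro y
    rw [hDD, Matrix.mulVec_sub, Matrix.mulVec_add, Matrix.mulVec_add, Matrix.mulVec_smul, Matrix.mulVec_smul,
      Matrix.mulVec_smul, Matrix.mulVec_smul, htwo, htwo]
    module
  -- the scalars
  have h1N : 1 + N ≠ 0 := by
    intro e
    have e1 : (θ - 1) * (θ + 1) = 0 := by
      rw [sub_mul, mul_add, mul_one, one_mul, h.sq, zero_smul, zero_sub, ← neg_smul, eq_neg_of_add_eq_zero_right e,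
        neg_neg, one_smul]
      abel
    rcases h.mul_eq_zero (K.sub_mem h.mem K.one_mem) (K.add_mem h.mem K.one_mem) e1 with h1 | h1
    · apply h.ns 1
      rw [one_smul]
      exact sub_eq_zero.1 h1
    · apply h.ns (-1)
      rw [neg_smul, one_smul]
      exact eq_neg_of_add_eq_zero_left h1
  obtain ⟨s, hs⟩ : ∃ s : F, s = (1 - N) / (1 + N) := ⟨_, rfl⟩
  obtain ⟨t, ht⟩ : ∃ t : F, t = 2 / (1 + N) := ⟨_, rfl⟩
  have ht0 : t ≠ 0 := by rw [ht]; exact div_ne_zero h2 h1N
  have hst : s * s + N * (t * t) = 1 := by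
    rw [hs, ht]
    field_simp
    ring
  obtain ⟨r, hr⟩ : ∃ r : F, r = (s - 1) / t := ⟨_, rfl⟩
  have hrt : r * t = s - 1 := by rw [hr, div_mul_cancel₀ _ ht0]
  have hrr : 2 * r + r * (r * t) = -(N * t) := by
    have : t * (2 * r + r * (r * t) + N * t) = 0 := by
      rw [hrt]
      linear_combination (s + 1) * hrt + hst
    linear_combination (_root_.mul_eq_zero.1 this).resolve_left ht0
  -- `y`
  obtain ⟨e1, he1O, he1⟩ := H889.exists_siegel_omegaGL Qf hQ (by omega) v (r • u) (by rw [← hqf]; exact P.qv)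
    (by rw [← hqf, QuadraticMap.map_smul, P.qu, smul_zero]) (by rw [← hqfp, polar_smul_right, t3, smul_zero])
  obtain ⟨e2, he2O, he2⟩ := H889.exists_siegel_omegaGL Qf hQ (by omega) (θ *ᵥ u) (t • (θ *ᵥ v)) (by rw [← hqf]; exact t8)
    (by rw [← hqf, QuadraticMap.map_smul, t9, smul_zero]) (by rw [← hqfp, polar_smul_right, t10, smul_zero])
  simp only [← hqfp, polar_smul_left, smul_eq_mul] at he1 he2
  obtain ⟨y, hy⟩ : ∃ y : GL ι F, y = e1 * e2 * e1 := ⟨_, rfl⟩
  have hyO : y ∈ omegaGL Qf := by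
    rw [hy]
    exact (omegaGL Qf).mul_mem ((omegaGL Qf).mul_mem he1O he2O) he1O
  have hyv : ∀ a, (y : Matrix ι ι F) *ᵥ a = a + (s - 1) • (D *ᵥ (D *ᵥ a)) + t • (θ *ᵥ (D *ᵥ (D *ᵥ a))) := by
    intro a
    rw [hθDD, hDD, hy, Units.val_mul, Units.val_mul, ← Matrix.mulVec_mulVec, ← Matrix.mulVec_mulVec]
    obtain ⟨z1, hz1⟩ : ∃ z1, z1 = (e1 : Matrix ι ι F) *ᵥ a := ⟨_, rfl⟩
    obtain ⟨z2, hz2⟩ : ∃ z2, z2 = (e2 : Matrix ι ι F) *ᵥ z1 := ⟨_, rfl⟩
    rw [← hz1, ← hz2]
    rw [he1] at hz1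
    rw [he2] at hz2
    have p1 : polar q (θ *ᵥ u) z1 = polar q (θ *ᵥ u) a - r * polar q u a := by
      rw [hz1]
      simp only [polar_add_right, polar_neg_right, sub_eq_add_neg, polar_smul_right, smul_eq_mul, s1, s4]
      ring
    have p2 : polar q (θ *ᵥ v) z1 = polar q (θ *ᵥ v) a - r * polar q v a := by
      rw [hz1]
      simp only [polar_add_right, polar_neg_right, sub_eq_add_neg, polar_smul_right, smul_eq_mul, s2, s3]
      ring
    have p3 : polar q v z1 = polar q v a := by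
      rw [hz1]
      simp only [polar_add_right, polar_neg_right, sub_eq_add_neg, polar_smul_right, smul_eq_mul, t3, t2]
      ring
    have p4 : polar q u z1 = polar q u a := by
      rw [hz1]
      simp only [polar_add_right, polar_neg_right, sub_eq_add_neg, polar_smul_right, smul_eq_mul, t1, t0]
      ring
    have p5 : polar q v z2 = polar q v a - t * (polar q (θ *ᵥ v) a - r * polar q v a) := by
      rw [hz2]
      simp only [polar_add_right, polar_neg_right, sub_eq_add_neg, polar_smul_right, smul_eq_mul, t5, t7, p1, p2, p3]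
      ring
    have p6 : polar q u z2 = polar q u a - t * (polar q (θ *ᵥ u) a - r * polar q u a) := by
      rw [hz2]
      simp only [polar_add_right, polar_neg_right, sub_eq_add_neg, polar_smul_right, smul_eq_mul, t4, t6, p1, p2, p4]
      ring
    rw [he1 z2, p5, p6, hz2, p1, p2, hz1]
    generalize polar q u a = α
    generalize polar q v a = β
    generalize polar q (θ *ᵥ u) a = γ
    generalize polar q (θ *ᵥ v) a = δ
    generalize θ *ᵥ u = u'
    generalize θ *ᵥ v = v'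
    match_scalars
    · ring
    · linear_combination β * hrr - δ * hrt
    · linear_combination (-α) * hrr + γ * hrt
    · linear_combination (-α) * hrt
    · linear_combination β * hrt
  have hyM : (y : Matrix ι ι F) = 1 + (s - 1) • (D * D) + t • (θ * (D * D)) := by
    apply mat_ext
    intro a
    rw [hyv, Matrix.add_mulVec, Matrix.add_mulVec, Matrix.one_mulVec, Matrix.smul_mulVec, Matrix.smul_mulVec,
      ← Matrix.mulVec_mulVec, ← Matrix.mulVec_mulVec, ← Matrix.mulVec_mulVec]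
  have hyc : ∀ G : Matrix ι ι F, G * θ = θ * G → G * D = D * G → G * y = y * G := by
    intro G hGθ hGD
    have c1 : G * (D * D) = D * D * G := by rw [← mul_assoc, hGD, mul_assoc, hGD, mul_assoc]
    have c2 : G * (θ * (D * D)) = θ * (D * D) * G := by rw [← mul_assoc, hGθ, mul_assoc, c1, ← mul_assoc]
    rw [hyM, mul_add, mul_add, add_mul, add_mul, mul_smul_comm, mul_smul_comm, smul_mul_assoc, smul_mul_assoc, c1, c2,
      mul_one, one_mul]
  have hyθ : (y : Matrix ι ι F) * θ = θ * y := by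
    have c1 : (D * D) * θ = θ * (D * D) := by
      apply mat_ext
      intro a
      rw [← Matrix.mulVec_mulVec, ← Matrix.mulVec_mulVec, ← Matrix.mulVec_mulVec, ← Matrix.mulVec_mulVec, hθDD, hDD,
        htt, htt, hadj u a, hadj v a]
      module
    rw [hyM, add_mul, add_mul, mul_add, mul_add, smul_mul_assoc, smul_mul_assoc, mul_smul_comm, mul_smul_comm, c1,
      mul_assoc θ, c1, mul_one, one_mul]
  -- the element of `M0`
  obtain ⟨g, hgO, hg⟩ := H889.exists_siegel_omegaGL Qf hQ (by omega) w (θ *ᵥ w) (by rw [← hqf]; exact hqw)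
    (by rw [← hqf, (hF w).1, hqw, mul_zero]) (by rw [← hqfp, (hF w).2, hqw, mul_zero])
  simp only [← hqfp] at hg
  have hww : polar q w w = 0 := by rw [polar_self', hqw, mul_zero]
  have hwθw : polar q w (θ *ᵥ w) = 0 := by rw [(hF w).2, hqw, mul_zero]
  have hgθ : (g : Matrix ι ι F) * θ = θ * g := by
    apply mat_ext
    intro a
    rw [← Matrix.mulVec_mulVec, ← Matrix.mulVec_mulVec, hg, hg, Matrix.mulVec_add, Matrix.mulVec_sub,
      Matrix.mulVec_smul, Matrix.mulVec_smul, htwo, htt, hadj w a]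
    module
  have hwu : polar q w u = 0 := by rw [polar_comm, hp.pu]
  have hwv : polar q w v = 0 := by rw [polar_comm, hp.pv]
  have hwu' : polar q (θ *ᵥ w) u = 0 := by rw [polar_comm, hp'.pu]
  have hwv' : polar q (θ *ᵥ w) v = 0 := by rw [polar_comm, hp'.pv]
  have hgx : (g : Matrix ι ι F) * x = x * g := by
    apply mat_ext
    intro a
    rw [← Matrix.mulVec_mulVec, ← Matrix.mulVec_mulVec, hg a, hx a, Matrix.mulVec_add, Matrix.mulVec_sub,
      Matrix.mulVec_smul, Matrix.mulVec_smul, Matrix.mulVec_add, Matrix.mulVec_sub, Matrix.mulVec_smul,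
      Matrix.mulVec_smul, hg a, hg u, hg v, hx a, hx w, hx (θ *ᵥ w), hwu, hwv, hwu', hwv', hp.pu, hp.pv, hp'.pu,
      hp'.pv]
    module
  have hg2 : g ^ 2 ∉ scalars ι F := by
    rw [mem_scalars_iff]
    rintro ⟨c, hc⟩
    have f1 : ∀ a, ((g ^ 2 : GL ι F) : Matrix ι ι F) *ᵥ a = a + (2 : F) • (polar q w a • (θ *ᵥ w) - polar q (θ *ᵥ w) a • w) := by
      intro a
      have f2 : (g : Matrix ι ι F) *ᵥ w = w := by
        rw [hg, hww, polar_comm q (θ *ᵥ w) w, hwθw]
        module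
      have f3 : (g : Matrix ι ι F) *ᵥ (θ *ᵥ w) = θ *ᵥ w := by
        rw [Matrix.mulVec_mulVec, hgθ, ← Matrix.mulVec_mulVec, f2]
      rw [pow_two, Units.val_mul, ← Matrix.mulVec_mulVec, hg a, Matrix.mulVec_add, Matrix.mulVec_sub,
        Matrix.mulVec_smul, Matrix.mulVec_smul, f2, f3, hg a]
      module
    have hc1 : (c : F) = 1 := by
      have f2 := f1 u
      rw [hc, hwu, hwu', Matrix.smul_mulVec, Matrix.one_mulVec] at f2
      have f3 : ((c : F) - 1) • u = 0 := by
        rw [sub_smul, one_smul, f2]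
        module
      exact sub_eq_zero.1 ((smul_eq_zero.1 f3).resolve_right hu0)
    obtain ⟨a, ha⟩ : ∃ a, polar q w a ≠ 0 := by
      by_contra hcon
      push Not at hcon
      exact hw0 (hnd w hcon)
    have f2 := f1 a
    rw [hc, hc1, one_smul, Matrix.one_mulVec, left_eq_add] at f2
    have f3 := (h.lin hw0 (α := -(2 * polar q (θ *ᵥ w) a)) (β := 2 * polar q w a) (by
      rw [← f2]; module)).2
    exact mul_ne_zero h2 ha f3
  -- end
  have hyA : m.π ⟨y, hyO⟩ ∈ A := by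
    rw [← m.mem_hat_iff, hM]
    exact ⟨h.mem_norm hyθ, hyO⟩
  have hgA : m.π ⟨g, hgO⟩ ∈ A := by
    rw [← m.mem_hat_iff, hM]
    exact ⟨h.mem_norm hgθ, hgO⟩
  have hxA : m.π ⟨x, hxO⟩ ∉ A := by
    rw [← m.mem_hat_iff, hM]
    exact fun e => hxK e.1
  have hgx' : (m.π ⟨x, hxO⟩)⁻¹ * m.π ⟨g, hgO⟩ * m.π ⟨x, hxO⟩ = m.π ⟨g, hgO⟩ := by
    rw [← map_inv, ← map_mul, ← map_mul]
    congr 1
    apply Subtype.ext
    change x⁻¹ * g * x = g
    have : g * x = x * g := Units.ext hgx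
    rw [mul_assoc, this, inv_mul_cancel_left]
  have hfin := conj_mem_of_sq hE hxA hgA (by rw [hgx']; exact hgA) (by
    rw [← map_pow, Ne, m.ker]
    exact hg2) hyA ?_
  · rw [← map_inv, ← map_mul, ← map_mul, ← m.mem_hat_iff] at hfin
    have hfK : x⁻¹ * y * x ∈ subalgebraNormalizer K := hA hfin
    have hval : ((x⁻¹ * y * x : GL ι F) : Matrix ι ι F) = x' * (y : Matrix ι ι F) * (x : Matrix ι ι F) := by
      rw [Units.val_mul, Units.val_mul, ← hx']
    have hxu : (x : Matrix ι ι F) *ᵥ u = u := by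
      rw [hx, t1, t3]; module
    have hyw : ∀ a, Pp q θ u v a → (x' * (y : Matrix ι ι F) * (x : Matrix ι ι F)) *ᵥ a = a := by
      intro a ha
      have f1 : (x : Matrix ι ι F) *ᵥ a = a := by rw [hx, ha.pu, ha.pv]; module
      have f2 : (y : Matrix ι ι F) *ᵥ a = a := by
        rw [hyv, hθDD, hDD, ha.pu, ha.pv, ha.ptu, ha.ptv]; module
      rw [← Matrix.mulVec_mulVec, ← Matrix.mulVec_mulVec, f1, f2, hxi, ha.pu, ha.pv]; module
    rcases h.conj hfK with hc | hc
    · rw [hval] at hc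
      have f0 := congrArg (fun M => M *ᵥ u) hc
      simp only [← Matrix.mulVec_mulVec] at f0
      have f1 : (y : Matrix ι ι F) *ᵥ u = s • u + t • (θ *ᵥ u) := by
        rw [hyv, hθDD, hDD, t1, t3, s1, s3]; module
      have f2 : (y : Matrix ι ι F) *ᵥ (θ *ᵥ u) = s • (θ *ᵥ u) - (t * N) • u := by
        rw [Matrix.mulVec_mulVec, hyθ, ← Matrix.mulVec_mulVec, f1, Matrix.mulVec_add, Matrix.mulVec_smul,
          Matrix.mulVec_smul, htwo]
        module
      have f3 : (x : Matrix ι ι F) *ᵥ (θ *ᵥ u) = θ *ᵥ u - u := by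
        rw [hx, t4, t7]; module
      have f4 : x' *ᵥ u = u := by rw [hxi, t1, t3]; module
      have f5 : x' *ᵥ (θ *ᵥ u) = θ *ᵥ u + u := by rw [hxi, t4, t7]; module
      rw [f3, hxu, Matrix.mulVec_sub, f1, f2, Matrix.mulVec_sub, Matrix.mulVec_sub, Matrix.mulVec_add,
        Matrix.mulVec_smul, Matrix.mulVec_smul, Matrix.mulVec_smul, Matrix.mulVec_smul, f4, f5, Matrix.mulVec_add,
        Matrix.mulVec_smul, Matrix.mulVec_smul, Matrix.mulVec_add, htwo] at f0
      have f6 := (h.lin hu0 (α := -t) (β := -(2 * t)) (by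
        rw [← sub_eq_zero] at f0
        rw [← f0]
        module)).1
      exact ht0 (neg_eq_zero.1 f6)
    · rw [hval, zero_smul, zero_sub] at hc
      have f0 := congrArg (fun M => M *ᵥ w) hc
      simp only [Matrix.neg_mulVec] at f0
      rw [← Matrix.mulVec_mulVec w (x' * (y : Matrix ι ι F) * (x : Matrix ι ι F)) θ,
        ← Matrix.mulVec_mulVec w θ (x' * (y : Matrix ι ι F) * (x : Matrix ι ι F)), hyw _ hp', hyw _ hp] at f0
      have f1 : (2 : F) • (θ *ᵥ w) = 0 := by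
        rw [two_smul]
        nth_rewrite 1 [f0]
        rw [neg_add_cancel]
      exact h.mulVec_ne hw0 ((smul_eq_zero.1 f1).resolve_left h2)
  · intro k hk hkx
    obtain ⟨k, rfl⟩ := m.surj k
    have hk1 := hA ((m.mem_hat_iff k).2 hk)
    rw [← map_inv, ← map_mul, ← map_mul, ← m.mem_hat_iff] at hkx
    have hk2 : x⁻¹ * (k : GL ι F) * x ∈ subalgebraNormalizer K := hA hkx
    have f1 := h.sq_comm hk1
    have f2 := h.sq_comm hk2
    have hval : ((x⁻¹ * (k : GL ι F) * x : GL ι F) : Matrix ι ι F) = x' * ((k : GL ι F) : Matrix ι ι F) * x := by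
      rw [Units.val_mul, Units.val_mul, ← hx']
    obtain ⟨G, hG⟩ : ∃ G : Matrix ι ι F, G = ((k : GL ι F) : Matrix ι ι F) * ((k : GL ι F) : Matrix ι ι F) := ⟨_, rfl⟩
    have f3 : x' * ((k : GL ι F) : Matrix ι ι F) * x * (x' * ((k : GL ι F) : Matrix ι ι F) * x) = x' * G * x := by
      rw [hG]
      simp only [mul_assoc]
      rw [← mul_assoc (x : Matrix ι ι F) x', hxx', one_mul]
    rw [← hG] at f1
    rw [hval, f3] at f2
    have f4 : G * ((x : Matrix ι ι F) * θ * x') = ((x : Matrix ι ι F) * θ * x') * G := by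
      have f5 := congrArg (fun M => (x : Matrix ι ι F) * M * x') f2
      simp only [mul_assoc] at f5
      rw [← mul_assoc (x : Matrix ι ι F) x', hxx', one_mul, mul_one] at f5
      simpa only [mul_assoc] using f5
    have f6 : G * D = D * G := by
      rw [hDd, mul_sub, sub_mul, f4, f1]
    have f7 := hyc G f1 f6
    rw [← map_pow, ← map_mul, ← map_mul]
    congr 1
    apply Subtype.ext
    apply Units.ext
    change ((((k : GL ι F) ^ 2 : GL ι F)) : Matrix ι ι F) * (y : Matrix ι ι F) =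
      (y : Matrix ι ι F) * ((((k : GL ι F) ^ 2 : GL ι F)) : Matrix ι ι F)
    rw [pow_two, Units.val_mul, ← hG]
    exact f7

/-- **Unitary type, all `q`.** -/
theorem omC3U_all {Q : Type*} [Group Q] {A : Subgroup Q} {Γ : Subgroup (MulAut Q)} (hE : EPT A Γ)
    {F : Type*} [Field F] [Finite F] {ι : Type} [Fintype ι] [DecidableEq ι] {Qf : (ι → F) → F}
    (m : Model Q (omegaGL Qf)) (hn : 7 ≤ Fintype.card ι) (hQ : IsNondegenerateQuadraticForm Qf)
    (hirr : ActsIrreducibly (matrixSet (m.hat A))) {K : Subalgebra F (Matrix ι ι F)} (hK : IsFieldSubalgebra 2 K)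
    (hadj : IsAdjointClosedFor (polar Qf) K) (hns : ¬ IsSelfAdjointFor (polar Qf) K)
    (hHK : m.hat A ≤ subalgebraNormalizer K) : False := by
  obtain ⟨θ, b, N, h⟩ := exists_uk (q := H889.bundleQ Qf hQ) hK hadj hns
  by_cases h2 : (2 : F) = 0
  · refine omC3U_even hE hQ m hn h2 h (h.form_even h2 (by omega) hirr hHK ?_) hHK
    intro g hg x
    obtain ⟨t, -, ht⟩ := m.hat_le A hg
    rw [← ht]
    exact (mem_isometryGroup_iff _ _).1 t.2 x
  · exact omC3U_odd hE hQ m hn h2 (h.skew h2) ((h.skew h2).form_odd h2) hHK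

/-- **[Om-C3], unitary type.** -/
theorem omC3U : Cfsg.Agent.H778.EP.OmRow fun F _ _ ι _ _ Qf H => Geo.ActsIrreducibly (Geo.matrixSet H) ∧
    ∃ K : Subalgebra F (Matrix ι ι F), Geo.IsFieldSubalgebra 2 K ∧ Geo.IsAdjointClosedFor (QuadraticMap.polar Qf) K ∧
      ¬ Geo.IsSelfAdjointFor (QuadraticMap.polar Qf) K ∧ H ≤ Geo.subalgebraNormalizer K := by
  rintro Q _ _ - A Γ hE F _ _ ι _ _ Qf m hn hQ ⟨hirr, K, hK, hadj, hns, hHK⟩
  exact omC3U_all hE m hn hQ hirr hK hadj hns hHK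

end Cfsg.Agent.H681.EP
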