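import Cfsg.Agent.H681.EP.TTwo
import Cfsg.Agent.H889.QForm
import Cfsg.Agent.ClassicalGeometry.GenReflections
import Cfsg.Agent.H181.StdBasis

/-!
# S3499, class C3 of the orthogonal groups, unitary type: tools (helper681)

* `mem_of_sq`, `conj_mem_of_sq` : the two kill criteria with squares;
* `UK q K θ b N` : `K = F ⊕ F θ` a quadratic field of matrices, `θ* = b - θ`, `θ θ* = N`; `exists_uk`; `UK.conj`,
  `UK.sq_comm` : the normaliser of `K`;
* `Fm q θ b N` : `q (θ x) = N q x`, `(x, θ x) = b q x` (`UK.form_odd`, `UK.form_even`);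
* `Pr q θ u v`, `Pp q θ u v w` : pairs of singular vectors, the orthogonal space.
-/

set_option autoImplicit false
set_option linter.unusedSectionVars false

open Cfsg Cfsg.Geo Matrix QuadraticMap

namespace Cfsg.Agent.H681.EP

open Cfsg.Agent.H284 Cfsg.Agent.ClassicalGeometry.Reflection

section crit
open Subgroup
variable {Q : Type*} [Group Q] {A : Subgroup Q} {Γ : Subgroup (MulAut Q)}

/-- **Kill criterion (T2), squares.** -/
theorem mem_of_sq (h : EPT A Γ) {z : Q} (hz : z ∈ A) (hz1 : z ≠ 1) (hzc : ∀ g ∈ A, g ^ 2 * z = z * g ^ 2)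
    {y t : Q} (hy : y ∈ A) (hy1 : y ^ 2 ≠ 1) (ht : t * y ^ 2 = y ^ 2 * t) : t ∈ A := by
  set X : Subgroup Q := closure {g | ∃ a ∈ A, g = a ^ 2} with hXdef
  have hXA : X ≤ A := (closure_le A).2 (by rintro g ⟨a, ha, rfl⟩; exact A.pow_mem ha 2)
  have hX : ∀ σ ∈ Γ, ∀ k ∈ X, σ k ∈ X := by
    intro σ hσ
    have h1 : X ≤ X.comap σ.toMonoidHom := by
      rw [hXdef, closure_le]
      rintro g ⟨a, ha, rfl⟩
      exact subset_closure ⟨σ a, (h.inv σ hσ a).2 ha, map_pow σ a 2⟩
    exact fun k hk => h1 hk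
  have hzX : z ∈ centralizer (X : Set Q) := by
    have h1 : X ≤ centralizer ({z} : Set Q) := by
      rw [hXdef, closure_le]
      rintro g ⟨a, ha, rfl⟩
      exact mem_centralizer_singleton_iff.2 (hzc a ha)
    rw [mem_centralizer_iff]
    intro x hx
    exact mem_centralizer_singleton_iff.1 (h1 hx)
  refine mem_of_comm' h hXA (inf_le_left : A ⊓ centralizer (X : Set Q) ≤ A) hX (centralizer_inv h hX) ?_ ?_
    (subset_closure ⟨y, hy, rfl⟩) hy1 ht
  · intro h1
    apply hz1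
    rw [← mem_bot, ← h1]
    exact mem_inf.2 ⟨hz, hzX⟩
  · intro a ha b hb
    exact mem_centralizer_iff.1 (mem_inf.1 hb).2 a ha

/-- **Kill criterion (KX).** -/
theorem conj_mem_of_sq (h : EPT A Γ) {x : Q} (hx : x ∉ A) {s : Q} (hs : s ∈ A) (hsx : x⁻¹ * s * x ∈ A)
    (hs1 : s ^ 2 ≠ 1) {y : Q} (hy : y ∈ A) (hyc : ∀ g ∈ A, x⁻¹ * g * x ∈ A → g ^ 2 * y = y * g ^ 2) :
    x⁻¹ * y * x ∈ A := by
  rw [← mem_cj]
  set X : Subgroup Q := closure {g | ∃ a ∈ A ⊓ cj x A, g = a ^ 2} with hXdef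
  refine h.norm_aut hx (K := X) ?_ ?_ ?_ hy ?_
  · rw [hXdef, closure_le]
    rintro g ⟨a, ha, rfl⟩
    exact (A ⊓ cj x A).pow_mem ha 2
  · intro σ hσ
    have h1 : X ≤ X.comap σ.toMonoidHom := by
      rw [hXdef, closure_le]
      rintro g ⟨a, ha, rfl⟩
      exact subset_closure ⟨σ a, hσ a ha, map_pow σ a 2⟩
    exact fun k hk => h1 hk
  · intro h1
    apply hs1
    rw [← mem_bot, ← h1]
    exact subset_closure ⟨s, mem_inf.2 ⟨hs, mem_cj.2 hsx⟩, rfl⟩
  · have h1 : X ≤ centralizer ({y} : Set Q) := by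
      rw [hXdef, closure_le]
      rintro g ⟨a, ha, rfl⟩
      exact mem_centralizer_singleton_iff.2 (hyc a (mem_inf.1 ha).1 (mem_cj.1 (mem_inf.1 ha).2))
    intro k hk
    rw [← mem_centralizer_singleton_iff.1 (h1 hk), mul_inv_cancel_right]
    exact hk

end crit

section basic
variable {F : Type*} [Field F] {ι : Type} [Fintype ι] [DecidableEq ι]

theorem mat_ext {A B : Matrix ι ι F} (h : ∀ x, A *ᵥ x = B *ᵥ x) : A = B :=
  Matrix.mulVec_injective (funext h)

/-- `K = F ⊕ F θ`, `θ* = b - θ`, `θ θ* = N` -/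
structure UK (q : QuadraticForm F (ι → F)) (K : Subalgebra F (Matrix ι ι F)) (θ : Matrix ι ι F) (b N : F) : Prop where
  field : IsFieldSubalgebra 2 K
  mem : θ ∈ K
  adj : ∀ u v, polar q (θ *ᵥ u) v = b * polar q u v - polar q u (θ *ᵥ v)
  sq : θ * θ = b • θ - N • 1
  gen : ∀ x ∈ K, ∃ α β : F, x = α • 1 + β • θ
  ns : ∀ c : F, θ ≠ c • 1
  nb : θ + θ ≠ b • 1

variable {K : Subalgebra F (Matrix ι ι F)} {q : QuadraticForm F (ι → F)}

theorem one_smul_mem (c : F) : c • (1 : Matrix ι ι F) ∈ K := K.smul_mem K.one_mem c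

/-- `1`, `θ` span `K` -/
theorem gen_of_ns (hK : IsFieldSubalgebra 2 K) {θ : Matrix ι ι F} (hmem : θ ∈ K) (hns : ∀ c : F, θ ≠ c • 1) :
    ∀ x ∈ K, ∃ α β : F, x = α • 1 + β • θ := by
  classical
  have h10 : (1 : Matrix ι ι F) ≠ 0 := by
    intro h
    apply hns 0
    rw [zero_smul, ← mul_one θ, h, mul_zero]
  have hind : LinearIndependent F ![(⟨1, K.one_mem⟩ : K), ⟨θ, hmem⟩] := by
    rw [LinearIndependent.pair_iff]
    intro s t hst
    have h1 : s • (1 : Matrix ι ι F) + t • θ = 0 := congrArg Subtype.val hst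
    by_cases ht : t = 0
    · subst ht
      rw [zero_smul, add_zero] at h1
      exact ⟨(smul_eq_zero.1 h1).resolve_right h10, rfl⟩
    · exfalso
      apply hns (-(t⁻¹ * s))
      have h3 : t • θ = -(s • (1 : Matrix ι ι F)) := eq_neg_of_add_eq_zero_right h1
      have h4 : θ = t⁻¹ • (t • θ) := by rw [smul_smul, inv_mul_cancel₀ ht, one_smul]
      rw [h4, h3, smul_neg, smul_smul, neg_smul]
  have hspan := hind.span_eq_top_of_card_eq_finrank (by rw [Fintype.card_fin, hK.finrank_eq])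
  intro x hx
  have h1 : (⟨x, hx⟩ : K) ∈ Submodule.span F (Set.range ![(⟨1, K.one_mem⟩ : K), ⟨θ, hmem⟩]) := by
    rw [hspan]; exact Submodule.mem_top
  rw [Matrix.range_cons, Matrix.range_cons, Matrix.range_empty, Set.union_empty, Set.singleton_union,
    Submodule.mem_span_pair] at h1
  obtain ⟨α, β, h2⟩ := h1
  exact ⟨α, β, (congrArg Subtype.val h2).symm⟩

theorem exists_uk (hK : IsFieldSubalgebra 2 K) (hadj : IsAdjointClosedFor (polar q) K)
    (hn : ¬ IsSelfAdjointFor (polar q) K) : ∃ θ b N, UK q K θ b N := by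
  classical
  unfold IsSelfAdjointFor at hn
  push Not at hn
  obtain ⟨θ, hθ, u0, v0, hne⟩ := hn
  obtain ⟨θ1, hθ1, had⟩ := hadj θ hθ
  have had1 : ∀ u v, polar q (θ1 *ᵥ u) v = polar q u (θ *ᵥ v) := by
    intro u v
    rw [polar_comm, ← had, polar_comm]
  -- self-adjoint elements are scalars
  have hsa : ∀ c ∈ K, (∀ u v, polar q (c *ᵥ u) v = polar q u (c *ᵥ v)) → ∃ α : F, c = α • 1 := by
    intro c hc hcs
    by_contra hcon
    push Not at hcon
    obtain ⟨α, β, e⟩ := gen_of_ns hK hc hcon θ hθ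
    apply hne
    rw [e, Matrix.add_mulVec, Matrix.add_mulVec, Matrix.smul_mulVec, Matrix.smul_mulVec, Matrix.smul_mulVec,
      Matrix.smul_mulVec, Matrix.one_mulVec, Matrix.one_mulVec, polar_add_left, polar_add_right, polar_smul_left,
      polar_smul_left, polar_smul_right, polar_smul_right, hcs]
  have hns : ∀ c : F, θ ≠ c • 1 := by
    rintro c rfl
    apply hne
    rw [Matrix.smul_mulVec, Matrix.smul_mulVec, Matrix.one_mulVec, Matrix.one_mulVec, polar_smul_left,
      polar_smul_right]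
  obtain ⟨b, hb⟩ := hsa (θ + θ1) (K.add_mem hθ hθ1) (by
    intro u v
    rw [Matrix.add_mulVec, Matrix.add_mulVec, polar_add_left, polar_add_right, had, had1, add_comm])
  obtain ⟨N, hN⟩ := hsa (θ * θ1) (K.mul_mem hθ hθ1) (by
    intro u v
    rw [hK.comm θ hθ θ1 hθ1, ← Matrix.mulVec_mulVec, had1, had, Matrix.mulVec_mulVec])
  have e1 : θ1 = b • 1 - θ := by rw [← hb, add_sub_cancel_left]
  refine ⟨θ, b, N, hK, hθ, ?_, ?_, gen_of_ns hK hθ hns, hns, ?_⟩
  · intro u v
    rw [had, e1, Matrix.sub_mulVec, Matrix.smul_mulVec, Matrix.one_mulVec, sub_eq_add_neg, polar_add_right,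
      polar_smul_right, polar_neg_right, smul_eq_mul, ← sub_eq_add_neg]
  · rw [← hN, e1, mul_sub, mul_smul_comm, mul_one, sub_sub_cancel]
  · intro e
    apply hne
    rw [had]
    congr 1
    have : θ1 = θ := by rw [e1, ← e, add_sub_cancel_right]
    rw [this]

namespace UK

variable {θ : Matrix ι ι F} {b N : F} (h : UK q K θ b N)

include h

theorem ne : θ ≠ 0 := by
  have := h.ns 0
  rwa [zero_smul] at this

theorem one_ne : (1 : Matrix ι ι F) ≠ 0 := by
  intro e
  apply h.ne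
  rw [← mul_one θ, e, mul_zero]

theorem two (v : ι → F) : θ *ᵥ (θ *ᵥ v) = b • (θ *ᵥ v) - N • v := by
  rw [Matrix.mulVec_mulVec, h.sq, Matrix.sub_mulVec, Matrix.smul_mulVec, Matrix.smul_mulVec, Matrix.one_mulVec]

theorem inj {x : Matrix ι ι F} (hx : x ∈ K) (hx0 : x ≠ 0) {v : ι → F} (hv : x *ᵥ v = 0) : v = 0 := by
  obtain ⟨y, hy, hy1⟩ := h.field.inv _ hx hx0
  rw [h.field.comm _ hx y hy] at hy1
  rw [← Matrix.one_mulVec v, ← hy1, ← Matrix.mulVec_mulVec, hv, Matrix.mulVec_zero]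

/-- `1`, `θ` are independent on every nonzero vector -/
theorem lin {v : ι → F} (hv : v ≠ 0) {α β : F} (e : α • v + β • (θ *ᵥ v) = 0) : α = 0 ∧ β = 0 := by
  by_contra hcon
  have h0 : α • (1 : Matrix ι ι F) + β • θ ≠ 0 := by
    intro h0
    apply hcon
    by_cases hb : β = 0
    · subst hb
      rw [zero_smul, add_zero] at h0
      exact ⟨(smul_eq_zero.1 h0).resolve_right h.one_ne, rfl⟩
    · exfalso
      apply h.ns (-(β⁻¹ * α))
      have h3 : β • θ = -(α • (1 : Matrix ι ι F)) := eq_neg_of_add_eq_zero_right h0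
      have h4 : θ = β⁻¹ • (β • θ) := by rw [smul_smul, inv_mul_cancel₀ hb, one_smul]
      rw [h4, h3, smul_neg, smul_smul, neg_smul]
  apply hv
  apply h.inj (K.add_mem (one_smul_mem α) (K.smul_mem h.mem β)) h0
  rw [Matrix.add_mulVec, Matrix.smul_mulVec, Matrix.smul_mulVec, Matrix.one_mulVec, e]

theorem mulVec_ne {v : ι → F} (hv : v ≠ 0) : θ *ᵥ v ≠ 0 := by
  intro e
  have := (h.lin hv (α := 0) (β := 1) (by rw [zero_smul, e, smul_zero, add_zero])).2
  exact one_ne_zero this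

theorem mul_eq_zero {x y : Matrix ι ι F} (hx : x ∈ K) (hy : y ∈ K) (e : x * y = 0) : x = 0 ∨ y = 0 := by
  by_cases hx0 : x = 0
  · exact Or.inl hx0
  · right
    obtain ⟨z, hz, hz1⟩ := h.field.inv _ hx hx0
    rw [h.field.comm _ hx z hz] at hz1
    calc y = (z * x) * y := by rw [hz1, one_mul]
      _ = 0 := by rw [mul_assoc, e, mul_zero]

theorem N_ne : N ≠ 0 := by
  intro hN
  have e := h.sq
  rw [hN, zero_smul, sub_zero] at e
  have e1 : θ * (θ - b • 1) = 0 := by
    rw [mul_sub, mul_smul_comm, mul_one, e, sub_self]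
  rcases h.mul_eq_zero h.mem (K.sub_mem h.mem (one_smul_mem b)) e1 with h1 | h1
  · exact h.ne h1
  · exact h.ns b (sub_eq_zero.1 h1)

/-- normalising `K` -/
theorem conj {g : GL ι F} (hg : g ∈ subalgebraNormalizer K) :
    (g : Matrix ι ι F) * θ = θ * g ∨ (g : Matrix ι ι F) * θ = b • (g : Matrix ι ι F) - θ * g := by
  obtain ⟨g', hg'⟩ : ∃ g' : Matrix ι ι F, g' = ((g⁻¹ : GL ι F) : Matrix ι ι F) := ⟨_, rfl⟩
  have hgg' : g' * (g : Matrix ι ι F) = 1 := by
    rw [hg', ← Units.val_mul, inv_mul_cancel, Units.val_one]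
  have hgg : (g : Matrix ι ι F) * g' = 1 := by
    rw [hg', ← Units.val_mul, mul_inv_cancel, Units.val_one]
  have hφ : (g : Matrix ι ι F) * θ * g' ∈ K := by rw [hg']; exact (hg θ).1 h.mem
  obtain ⟨φ, e⟩ : ∃ φ, φ = (g : Matrix ι ι F) * θ * g' := ⟨_, rfl⟩
  have hφg : φ * (g : Matrix ι ι F) = (g : Matrix ι ι F) * θ := by rw [e, mul_assoc, hgg', mul_one]
  have hφ2 : φ * φ = b • φ - N • 1 := by
    have : φ * φ = (g : Matrix ι ι F) * (θ * θ) * g' := by
      rw [e]
      simp only [mul_assoc]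
      rw [← mul_assoc g' (g : Matrix ι ι F), hgg', one_mul]
    rw [this, h.sq, mul_sub, sub_mul, mul_smul_comm, mul_smul_comm, smul_mul_assoc, smul_mul_assoc, ← e, mul_one, hgg]
  rw [← e] at hφ
  have e1 : (φ - θ) * (φ - (b • 1 - θ)) = 0 := by
    rw [sub_mul, mul_sub, mul_sub, mul_sub, mul_sub, hφ2, h.sq, mul_smul_comm, mul_smul_comm, mul_one, mul_one,
      h.field.comm _ hφ _ h.mem]
    abel
  rcases h.mul_eq_zero (K.sub_mem hφ h.mem) (K.sub_mem hφ (K.sub_mem (one_smul_mem b) h.mem)) e1 with h1 | h1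
  · left
    rw [← hφg, sub_eq_zero.1 h1]
  · right
    rw [← hφg, sub_eq_zero.1 h1, sub_mul, smul_mul_assoc, one_mul]

theorem sq_comm {g : GL ι F} (hg : g ∈ subalgebraNormalizer K) :
    (g : Matrix ι ι F) * g * θ = θ * (g * g) := by
  rcases h.conj hg with h1 | h1
  · rw [mul_assoc, h1, ← mul_assoc, h1, mul_assoc]
  · rw [mul_assoc, h1, mul_sub, ← mul_assoc (g : Matrix ι ι F) θ, h1, sub_mul, mul_smul_comm, smul_mul_assoc,
      mul_assoc]
    abel

/-- matrices commuting with `θ` normalise `K` -/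
theorem mem_norm {g : GL ι F} (hg : (g : Matrix ι ι F) * θ = θ * g) : g ∈ subalgebraNormalizer K := by
  obtain ⟨g', hg'⟩ : ∃ g' : Matrix ι ι F, g' = ((g⁻¹ : GL ι F) : Matrix ι ι F) := ⟨_, rfl⟩
  have hgg' : g' * (g : Matrix ι ι F) = 1 := by
    rw [hg', ← Units.val_mul, inv_mul_cancel, Units.val_one]
  have hgg : (g : Matrix ι ι F) * g' = 1 := by
    rw [hg', ← Units.val_mul, mul_inv_cancel, Units.val_one]
  have key : ∀ x ∈ K, (g : Matrix ι ι F) * x = x * g := by
    intro x hx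
    obtain ⟨α, β, rfl⟩ := h.gen x hx
    rw [mul_add, add_mul, mul_smul_comm, mul_smul_comm, smul_mul_assoc, smul_mul_assoc, hg, mul_one, one_mul]
  intro x
  rw [← hg']
  constructor
  · intro hx
    rw [key x hx, mul_assoc, hgg, mul_one]
    exact hx
  · intro hx
    have h1 := key _ hx
    have h2 : x = (g : Matrix ι ι F) * x * g' := by
      have h3 : g' * ((g : Matrix ι ι F) * ((g : Matrix ι ι F) * x * g')) =
          g' * ((g : Matrix ι ι F) * x * g' * (g : Matrix ι ι F)) := by rw [h1]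
      rw [← mul_assoc g' (g : Matrix ι ι F), hgg', one_mul, mul_assoc ((g : Matrix ι ι F) * x), hgg', mul_one,
        ← mul_assoc, hgg', one_mul] at h3
      exact h3.symm
    rw [h2]
    exact hx

end UK

end basic

section basic
variable {F : Type*} [Field F] {ι : Type} [Fintype ι] [DecidableEq ι]
variable {K : Subalgebra F (Matrix ι ι F)} {q : QuadraticForm F (ι → F)}

/-- the values of the form on the `K`-lines -/
def Fm (q : QuadraticForm F (ι → F)) (θ : Matrix ι ι F) (b N : F) : Prop :=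
  ∀ x, q (θ *ᵥ x) = N * q x ∧ polar q x (θ *ᵥ x) = b * q x

theorem q_sub (x y : ι → F) : q (x - y) = q x + q y - polar q x y := by
  rw [sub_eq_add_neg, map_add', QuadraticMap.map_neg, polar_neg_right, sub_eq_add_neg]

namespace UK

variable {θ : Matrix ι ι F} {b N : F} (h : UK q K θ b N)

include h

theorem adj' (u v : ι → F) : polar q u (θ *ᵥ v) = b * polar q u v - polar q (θ *ᵥ u) v := by
  rw [h.adj]; ring

theorem form_odd (h2 : (2 : F) ≠ 0) : Fm q θ b N := by
  have e2 : ∀ x, polar q x (θ *ᵥ x) = b * q x := by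
    intro x
    have e := h.adj x x
    rw [polar_comm, polar_self'] at e
    have : 2 * (polar q x (θ *ᵥ x) - b * q x) = 0 := by linear_combination e
    exact sub_eq_zero.1 ((_root_.mul_eq_zero.1 this).resolve_left h2)
  intro x
  refine ⟨?_, e2 x⟩
  have e := h.adj x (θ *ᵥ x)
  rw [polar_self', h.two, sub_eq_add_neg (b • (θ *ᵥ x)), polar_add_right, polar_neg_right, polar_smul_right,
    polar_smul_right, e2, polar_self', smul_eq_mul, smul_eq_mul] at e
  have : 2 * (q (θ *ᵥ x) - N * q x) = 0 := by linear_combination e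
  exact sub_eq_zero.1 ((_root_.mul_eq_zero.1 this).resolve_left h2)

end UK

theorem exists_lin [Finite F] [CharP F 2] (D : (ι → F) → F) (hadd : ∀ x y, D (x + y) = D x + D y)
    (hsmul : ∀ (c : F) x, D (c • x) = c ^ 2 * D x) : ∃ l : (ι → F) →ₗ[F] F, ∀ x, l x ^ 2 = D x := by
  haveI : Fact (Nat.Prime 2) := ⟨Nat.prime_two⟩
  haveI : PerfectRing F 2 := inferInstance
  refine ⟨{ toFun := fun x => (frobeniusEquiv F 2).symm (D x)
            map_add' := fun x y => by rw [hadd, map_add]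
            map_smul' := fun c x => ?_ }, fun x => ?_⟩
  · rw [hsmul, map_mul, RingHom.id_apply, smul_eq_mul]
    congr 1
    exact frobeniusEquiv_symm_pow F 2 c
  · exact frobeniusEquiv_symm_pow_p F 2 (D x)

namespace UK

variable {θ : Matrix ι ι F} {b N : F} (h : UK q K θ b N)

include h

theorem form_even [Finite F] (h2 : (2 : F) = 0) (hn : 3 ≤ Fintype.card ι) {H : Subgroup (GL ι F)}
    (hirr : ActsIrreducibly (matrixSet H)) (hHK : H ≤ subalgebraNormalizer K)
    (hHq : ∀ g ∈ H, ∀ x, q ((g : Matrix ι ι F) *ᵥ x) = q x) : Fm q θ b N := by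
  haveI : CharP F 2 := CharTwo.of_one_ne_zero_of_two_eq_zero one_ne_zero h2
  have hpol : ∀ g ∈ H, ∀ x y, polar q ((g : Matrix ι ι F) *ᵥ x) ((g : Matrix ι ι F) *ᵥ y) = polar q x y :=
    fun g hg x y => polar_mulVec_of_isometry q _ (hHq g hg) x y
  obtain ⟨l1, hl1⟩ := exists_lin (fun x => q (θ *ᵥ x) - N * q x) (by
    intro x y
    change q (θ *ᵥ (x + y)) - N * q (x + y) = _
    rw [Matrix.mulVec_add, map_add', map_add', h.adj, h.two, sub_eq_add_neg (b • (θ *ᵥ y)), polar_add_right,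
      polar_neg_right, polar_smul_right, polar_smul_right, smul_eq_mul, smul_eq_mul]
    ring) (by
    intro c x
    change q (θ *ᵥ (c • x)) - N * q (c • x) = _
    rw [Matrix.mulVec_smul, QuadraticMap.map_smul, QuadraticMap.map_smul, smul_eq_mul, smul_eq_mul]
    ring)
  obtain ⟨l2, hl2⟩ := exists_lin (fun x => polar q x (θ *ᵥ x) - b * q x) (by
    intro x y
    change polar q (x + y) (θ *ᵥ (x + y)) - b * q (x + y) = _
    rw [Matrix.mulVec_add, map_add', polar_add_left, polar_add_right, polar_add_right, h.adj' y x, polar_comm q (θ *ᵥ y) x,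
      polar_comm q y x]
    ring) (by
    intro c x
    change polar q (c • x) (θ *ᵥ (c • x)) - b * q (c • x) = _
    rw [Matrix.mulVec_smul, QuadraticMap.map_smul, polar_smul_left, polar_smul_right, smul_eq_mul, smul_eq_mul,
      smul_eq_mul]
    ring)
  have hk : ∀ x, x ∈ LinearMap.ker (l1.prod l2) ↔ l1 x = 0 ∧ l2 x = 0 := fun x => by
    rw [LinearMap.mem_ker]
    exact Prod.mk_eq_zero
  have hW := hirr (LinearMap.ker (l1.prod l2)) (by
    rintro _ ⟨g, hg, rfl⟩
    rintro _ ⟨x, hx, rfl⟩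
    rw [SetLike.mem_coe, hk] at hx
    rw [hk]
    have e1 := hl1 x
    have e2 := hl2 x
    rw [hx.1, zero_pow two_ne_zero] at e1
    rw [hx.2, zero_pow two_ne_zero] at e2
    change 0 = q (θ *ᵥ x) - N * q x at e1
    change 0 = polar q x (θ *ᵥ x) - b * q x at e2
    have e3 := hl1 (Matrix.toLin' (g : Matrix ι ι F) x)
    have e4 := hl2 (Matrix.toLin' (g : Matrix ι ι F) x)
    change _ = q (θ *ᵥ ((g : Matrix ι ι F) *ᵥ x)) - N * q ((g : Matrix ι ι F) *ᵥ x) at e3
    change _ = polar q ((g : Matrix ι ι F) *ᵥ x) (θ *ᵥ ((g : Matrix ι ι F) *ᵥ x)) - b * q ((g : Matrix ι ι F) *ᵥ x) at e4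
    rw [hHq g hg] at e3 e4
    have key : q (θ *ᵥ ((g : Matrix ι ι F) *ᵥ x)) = N * q x ∧
        polar q ((g : Matrix ι ι F) *ᵥ x) (θ *ᵥ ((g : Matrix ι ι F) *ᵥ x)) = b * q x := by
      rcases h.conj (hHK hg) with hc | hc
      · rw [Matrix.mulVec_mulVec, ← hc, ← Matrix.mulVec_mulVec, hHq g hg, hpol g hg]
        exact ⟨by linear_combination -e1, by linear_combination -e2⟩
      · have hc' : θ *ᵥ ((g : Matrix ι ι F) *ᵥ x) = (g : Matrix ι ι F) *ᵥ (b • x - θ *ᵥ x) := by
          rw [Matrix.mulVec_mulVec, Matrix.mulVec_sub, Matrix.mulVec_smul, Matrix.mulVec_mulVec, hc,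
            Matrix.sub_mulVec, Matrix.smul_mulVec, sub_sub_cancel]
        rw [hc', hHq g hg, hpol g hg, q_sub, sub_eq_add_neg (b • x), polar_add_right, polar_neg_right,
          polar_smul_right, polar_smul_left, QuadraticMap.map_smul, polar_self', smul_eq_mul, smul_eq_mul,
          smul_eq_mul]
        exact ⟨by linear_combination -e1 + b * e2, by linear_combination e2⟩
    refine ⟨?_, ?_⟩
    · rw [key.1, sub_self] at e3
      exact pow_eq_zero_iff two_ne_zero |>.1 e3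
    · rw [key.2, sub_self] at e4
      exact pow_eq_zero_iff two_ne_zero |>.1 e4)
  have htop : LinearMap.ker (l1.prod l2) = ⊤ := by
    rcases hW with hW | hW
    · exfalso
      have h1 := (l1.prod l2).finrank_range_add_finrank_ker
      rw [hW, finrank_bot, add_zero, Module.finrank_fintype_fun_eq_card] at h1
      have h3 := Submodule.finrank_le (LinearMap.range (l1.prod l2))
      rw [Module.finrank_prod, Module.finrank_self] at h3
      omega
    · exact hW
  intro x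
  have hx : x ∈ LinearMap.ker (l1.prod l2) := by rw [htop]; exact Submodule.mem_top
  rw [hk] at hx
  have e1 := hl1 x
  have e2 := hl2 x
  rw [hx.1, zero_pow two_ne_zero] at e1
  rw [hx.2, zero_pow two_ne_zero] at e2
  change 0 = q (θ *ᵥ x) - N * q x at e1
  change 0 = polar q x (θ *ᵥ x) - b * q x at e2
  exact ⟨by linear_combination -e1, by linear_combination -e2⟩

end UK

end basic

section pair
variable {F : Type*} [Field F] {ι : Type} [Fintype ι] [DecidableEq ι]
variable {K : Subalgebra F (Matrix ι ι F)} {q : QuadraticForm F (ι → F)} {θ : Matrix ι ι F} {b N : F}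

/-- a pair of singular vectors with `⟨u, θ v⟩` hyperbolic, `u ⊥ v` -/
structure Pr (q : QuadraticForm F (ι → F)) (θ : Matrix ι ι F) (u v : ι → F) : Prop where
  qu : q u = 0
  qv : q v = 0
  uv : polar q u v = 0
  tuv : polar q (θ *ᵥ u) v = 1

/-- orthogonal to `u`, `θ u`, `v`, `θ v` -/
structure Pp (q : QuadraticForm F (ι → F)) (θ : Matrix ι ι F) (u v w : ι → F) : Prop where
  pu : polar q u w = 0
  ptu : polar q (θ *ᵥ u) w = 0
  pv : polar q v w = 0
  ptv : polar q (θ *ᵥ v) w = 0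

theorem exists_perp_sing [Finite F] (f : Fin 4 → (ι → F)) (hn : 7 ≤ Fintype.card ι) :
    ∃ w, w ≠ 0 ∧ q w = 0 ∧ ∀ i, polar q (f i) w = 0 := by
  let L : (ι → F) →ₗ[F] (Fin 4 → F) := LinearMap.pi fun i => polarBilin q (f i)
  have h1 := L.finrank_range_add_finrank_ker
  rw [Module.finrank_fintype_fun_eq_card] at h1
  have h3 := Submodule.finrank_le (LinearMap.range L)
  rw [Module.finrank_fintype_fun_eq_card, Fintype.card_fin] at h3
  obtain ⟨w, hw, hw0⟩ := H181.StdBasis.exists_singular (q.comp (LinearMap.ker L).subtype) (by omega)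
  refine ⟨w, fun e => hw (Subtype.ext e), hw0, fun i => ?_⟩
  have h2 : L w = 0 := w.2
  exact congrFun h2 i

theorem UK.exists_pair [Finite F] (h : UK q K θ b N) (hF : Fm q θ b N)
    (hnd : ∀ x, (∀ y, polar q x y = 0) → x = 0) (hn : 3 ≤ Fintype.card ι) : ∃ u v, Pr q θ u v := by
  obtain ⟨u, hu, hu0⟩ := H181.StdBasis.exists_singular q (by rw [Module.finrank_fintype_fun_eq_card]; exact hn)
  obtain ⟨x, hx, hx1⟩ : ∃ x, polar q u x = 0 ∧ polar q (θ *ᵥ u) x ≠ 0 := by
    by_contra hcon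
    push Not at hcon
    obtain ⟨y, hy⟩ : ∃ y, polar q u y ≠ 0 := by
      by_contra hc
      push Not at hc
      exact hu (hnd u hc)
    have key : ∀ z, polar q (θ *ᵥ u) z = polar q ((polar q (θ *ᵥ u) y / polar q u y) • u) z := by
      intro z
      have h1 := hcon (z - (polar q u z / polar q u y) • y) (by
        rw [sub_eq_add_neg, polar_add_right, polar_neg_right, polar_smul_right, smul_eq_mul]
        field_simp
        ring)
      rw [sub_eq_add_neg, polar_add_right, polar_neg_right, polar_smul_right, smul_eq_mul] at h1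
      rw [polar_smul_left, smul_eq_mul]
      field_simp at h1 ⊢
      linear_combination h1
    have h1 := hnd (θ *ᵥ u - (polar q (θ *ᵥ u) y / polar q u y) • u) (by
      intro z
      rw [sub_eq_add_neg, polar_add_left, polar_neg_left, key, add_neg_cancel])
    have h2 := (h.lin hu (α := -(polar q (θ *ᵥ u) y / polar q u y)) (β := 1) (by
      rw [one_smul, neg_smul, neg_add_eq_sub, h1])).2
    exact one_ne_zero h2
  obtain ⟨c, hc⟩ : ∃ c, c = polar q (θ *ᵥ u) x := ⟨_, rfl⟩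
  rw [← hc] at hx1
  have e1 : q (θ *ᵥ u) = 0 := by rw [(hF u).1, hu0, mul_zero]
  have e2 : polar q u (θ *ᵥ u) = 0 := by rw [(hF u).2, hu0, mul_zero]
  refine ⟨u, c⁻¹ • x + (-(c⁻¹ * c⁻¹ * q x)) • (θ *ᵥ u), hu0, ?_, ?_, ?_⟩
  · rw [map_add', QuadraticMap.map_smul, QuadraticMap.map_smul, polar_smul_left, polar_smul_right, e1, polar_comm, ← hc]
    simp only [smul_eq_mul]
    field_simp
    ring
  · rw [polar_add_right, polar_smul_right, polar_smul_right, hx, e2, smul_zero, smul_zero, add_zero]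
  · rw [polar_add_right, polar_smul_right, polar_smul_right, ← hc, polar_self', e1, mul_zero, smul_zero, add_zero,
      smul_eq_mul, inv_mul_cancel₀ hx1]

namespace Pr

variable {u v : ι → F} (P : Pr q θ u v) (h : UK q K θ b N) (hF : Fm q θ b N)
include P h hF

theorem tab : polar q u u = 0 ∧ polar q v v = 0 ∧ polar q v u = 0 ∧ polar q u (θ *ᵥ u) = 0 ∧ polar q v (θ *ᵥ v) = 0 ∧
    polar q u (θ *ᵥ v) = -1 ∧ polar q v (θ *ᵥ u) = 1 ∧ q (θ *ᵥ u) = 0 ∧ q (θ *ᵥ v) = 0 ∧
    polar q (θ *ᵥ u) (θ *ᵥ v) = 0 := by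
  have e1 : polar q u (θ *ᵥ v) = -1 := by rw [h.adj', P.uv, P.tuv]; ring
  refine ⟨?_, ?_, ?_, ?_, ?_, e1, ?_, ?_, ?_, ?_⟩
  · rw [polar_self', P.qu, mul_zero]
  · rw [polar_self', P.qv, mul_zero]
  · rw [polar_comm, P.uv]
  · rw [(hF u).2, P.qu, mul_zero]
  · rw [(hF v).2, P.qv, mul_zero]
  · rw [polar_comm, P.tuv]
  · rw [(hF u).1, P.qu, mul_zero]
  · rw [(hF v).1, P.qv, mul_zero]
  · rw [h.adj, h.two, sub_eq_add_neg (b • (θ *ᵥ v)), polar_add_right, polar_neg_right, polar_smul_right,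
      polar_smul_right, e1, P.uv, smul_eq_mul, smul_eq_mul]
    ring

theorem exists_nonsing (hnd : ∀ x, (∀ y, polar q x y = 0) → x = 0) [Finite F] (hn : 7 ≤ Fintype.card ι) :
    ∃ w, q w ≠ 0 ∧ Pp q θ u v w := by
  obtain ⟨t1, t2, t3, t4, t5, t6, t7, t8, t9, t10⟩ := P.tab h hF
  obtain ⟨w, hw, hw0, hwp⟩ := exists_perp_sing (q := q) ![u, θ *ᵥ u, v, θ *ᵥ v] hn
  have hp : Pp q θ u v w := ⟨hwp 0, hwp 1, hwp 2, hwp 3⟩
  obtain ⟨y, hy⟩ : ∃ y, polar q w y ≠ 0 := by
    by_contra hc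
    push Not at hc
    exact hw (hnd w hc)
  -- the projection
  obtain ⟨y', hy'⟩ : ∃ y', y' = y + (polar q y (θ *ᵥ v)) • u + (-(polar q y v)) • (θ *ᵥ u) +
    (-(polar q y (θ *ᵥ u))) • v + (polar q y u) • (θ *ᵥ v) := ⟨_, rfl⟩
  have hpy : Pp q θ u v y' := by
    constructor <;>
    · rw [hy']
      simp only [polar_add_right, polar_smul_right, smul_eq_mul, t1, t2, t3, P.uv, P.tuv, t4, t5, t6, t7, t10,
        polar_self', t8, t9, polar_comm q (θ *ᵥ v) (θ *ᵥ u), polar_comm q (θ *ᵥ u) u, polar_comm q (θ *ᵥ v) u,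
        polar_comm q (θ *ᵥ v) v, polar_comm q y]
      ring
  have hwy : polar q w y' = polar q w y := by
    rw [hy']
    simp only [polar_add_right, polar_smul_right, smul_eq_mul, polar_comm q w u, polar_comm q w v,
      polar_comm q w (θ *ᵥ u), polar_comm q w (θ *ᵥ v), hp.pu, hp.pv, hp.ptu, hp.ptv]
    ring
  by_cases h1 : q y' = 0
  · refine ⟨w + y', ?_, ?_, ?_, ?_, ?_⟩
    · rw [map_add', hw0, h1, hwy, zero_add, zero_add]
      exact hy
    · rw [polar_add_right, hp.pu, hpy.pu, add_zero]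
    · rw [polar_add_right, hp.ptu, hpy.ptu, add_zero]
    · rw [polar_add_right, hp.pv, hpy.pv, add_zero]
    · rw [polar_add_right, hp.ptv, hpy.ptv, add_zero]
  · exact ⟨y', h1, hpy⟩

omit P hF in
/-- the orthogonal space is invariant under `θ` -/
theorem _root_.Cfsg.Agent.H681.EP.Pp.th {w : ι → F} (hp : Pp q θ u v w) : Pp q θ u v (θ *ᵥ w) := by
  refine ⟨?_, ?_, ?_, ?_⟩
  · rw [h.adj', hp.pu, hp.ptu]; ring
  · rw [h.adj', hp.ptu, h.two, sub_eq_add_neg (b • (θ *ᵥ u)), polar_add_left, polar_neg_left, polar_smul_left,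
      polar_smul_left, hp.ptu, hp.pu, smul_zero, smul_zero]; ring
  · rw [h.adj', hp.pv, hp.ptv]; ring
  · rw [h.adj', hp.ptv, h.two, sub_eq_add_neg (b • (θ *ᵥ v)), polar_add_left, polar_neg_left, polar_smul_left,
      polar_smul_left, hp.ptv, hp.pv, smul_zero, smul_zero]; ring

end Pr

end pair

end Cfsg.Agent.H681.EP
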