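import Cfsg.Agent.H681.EP.TTwo
import Cfsg.Agent.H419.EP.Iface
import Cfsg.Agent.H909.SpBasic
import Cfsg.Agent.H181.StdBasis

/-!
# S3499, class C3 of the symplectic groups, unitary type (helper681)

`GU_k(q).2` in `Sp_2k(q)`, `q` odd, `k ≥ 2`: the elements of order `p` commute with the centre of `GU_k(q)`, and a unitary
transvection commutes with a symplectic transvection outside.
-/

set_option autoImplicit false
set_option linter.unusedSectionVars false

open Cfsg Cfsg.Geo Matrix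

namespace Cfsg.Agent.H681.EP

open Cfsg.Agent.ClassicalGeometry.SympBasic Cfsg.Agent.H909
open Cfsg.Agent.H284 Cfsg.Agent.H419.EP

section tg
variable {F : Type*} [Field F] {k : ℕ}

/-- the transvection as an element of `GL` -/
def tg (w : Fin k ⊕ Fin k → F) (c : F) : GL (Fin k ⊕ Fin k) F where
  val := sympTransvection k w c
  inv := sympTransvection k w (-c)
  val_inv := by rw [sympTransvection_mul, add_neg_cancel, sympTransvection_zero]
  inv_val := by rw [sympTransvection_mul, neg_add_cancel, sympTransvection_zero]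

theorem tg_mulVec (w : Fin k ⊕ Fin k → F) (c : F) (x : Fin k ⊕ Fin k → F) :
    (tg w c : Matrix (Fin k ⊕ Fin k) (Fin k ⊕ Fin k) F) *ᵥ x = x + (c * sympForm k F x w) • w :=
  sympTransvection_mulVec w x c

theorem tg_mem (w : Fin k ⊕ Fin k → F) (c : F) : tg w c ∈ spGL k F :=
  mem_spGL_iff_symplectic.2 (sympTransvection_mem w c)

theorem tg_mul (w : Fin k ⊕ Fin k → F) (c d : F) : tg w c * tg w d = tg w (c + d) :=
  Units.ext (sympTransvection_mul w c d)

theorem tg_zero (w : Fin k ⊕ Fin k → F) : tg w (0 : F) = 1 := Units.ext (sympTransvection_zero w)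

theorem tg_pow (w : Fin k ⊕ Fin k → F) (c : F) (n : ℕ) : (tg w c) ^ n = tg w (n * c) := by
  induction n with
  | zero => rw [pow_zero, Nat.cast_zero, zero_mul, tg_zero]
  | succ n ih => rw [pow_succ, ih, tg_mul, Nat.cast_succ, add_mul, one_mul]

theorem ext_mulVec {A B : Matrix (Fin k ⊕ Fin k) (Fin k ⊕ Fin k) F} (h : ∀ x, A *ᵥ x = B *ᵥ x) : A = B :=
  Matrix.mulVec_injective (funext h)

theorem tg_comm {w w' : Fin k ⊕ Fin k → F} (h : sympForm k F w w' = 0) (c d : F) :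
    tg w c * tg w' d = tg w' d * tg w c := by
  apply Units.ext
  apply ext_mulVec
  intro x
  have h' : sympForm k F w' w = 0 := by rw [sympForm_swap, h, neg_zero]
  rw [Units.val_mul, Units.val_mul, ← Matrix.mulVec_mulVec, ← Matrix.mulVec_mulVec, tg_mulVec, tg_mulVec, tg_mulVec,
    tg_mulVec, sympForm_add_left, sympForm_add_left, sympForm_smul_left, sympForm_smul_left, h, h', mul_zero,
    mul_zero, add_zero, add_zero]
  abel

end tg

section field
variable {F : Type*} [Field F] [Fintype F] {k : ℕ} {K : Subalgebra F (Matrix (Fin k ⊕ Fin k) (Fin k ⊕ Fin k) F)}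

/-- a skew element generating `K` -/
structure Skew (K : Subalgebra F (Matrix (Fin k ⊕ Fin k) (Fin k ⊕ Fin k) F))
    (θ : Matrix (Fin k ⊕ Fin k) (Fin k ⊕ Fin k) F) (a : F) : Prop where
  field : IsFieldSubalgebra 2 K
  two : (2 : F) ≠ 0
  mem : θ ∈ K
  ne : θ ≠ 0
  skew : ∀ u v, sympForm k F (θ *ᵥ u) v = - sympForm k F u (θ *ᵥ v)
  gen : ∀ x ∈ K, ∃ α β : F, x = α • 1 + β • θ
  sq : θ * θ = a • 1
  ns : ∀ c : F, θ ≠ c • 1

theorem smul_one_mem (c : F) : c • (1 : Matrix (Fin k ⊕ Fin k) (Fin k ⊕ Fin k) F) ∈ K :=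
  K.smul_mem K.one_mem c

theorem exists_skew (hk : 1 ≤ k) (h2 : (2 : F) ≠ 0) (hK : IsFieldSubalgebra 2 K)
    (hadj : IsAdjointClosedFor (sympForm k F) K) (hn : ¬ IsSelfAdjointFor (sympForm k F) K) :
    ∃ θ a, Skew K θ a := by
  classical
  unfold IsSelfAdjointFor at hn
  push Not at hn
  obtain ⟨k0, hk0, u0, v0, hne⟩ := hn
  obtain ⟨k1, hk1, had⟩ := hadj k0 hk0
  have hself : ∀ u v, sympForm k F (k1 *ᵥ u) v = sympForm k F u (k0 *ᵥ v) := by
    intro u v
    rw [sympForm_swap, ← had, ← sympForm_swap]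
  obtain ⟨θ, hθ⟩ : ∃ θ, θ = k0 - k1 := ⟨_, rfl⟩
  have hmem : θ ∈ K := by rw [hθ]; exact K.sub_mem hk0 hk1
  have hskew : ∀ u v, sympForm k F (θ *ᵥ u) v = - sympForm k F u (θ *ᵥ v) := by
    intro u v
    rw [hθ, Matrix.sub_mulVec, Matrix.sub_mulVec, sympForm_sub_left, sympForm_sub_right, had, hself]
    ring
  have hne0 : θ ≠ 0 := by
    intro h0
    apply hne
    rw [hθ, sub_eq_zero] at h0
    rw [had, h0]
  have hns : ∀ c : F, θ ≠ c • 1 := by
    intro c hc
    have h1 := hskew u0 v0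
    rw [hc, Matrix.smul_mulVec, Matrix.smul_mulVec, Matrix.one_mulVec, Matrix.one_mulVec, sympForm_smul_left,
      sympForm_smul_right] at h1
    by_cases h3 : ∀ u v, sympForm k F u v = 0
    · exact hne (by rw [h3, h3])
    · push Not at h3
      obtain ⟨u, v, h4⟩ := h3
      have h5 := hskew u v
      rw [hc, Matrix.smul_mulVec, Matrix.smul_mulVec, Matrix.one_mulVec, Matrix.one_mulVec, sympForm_smul_left,
        sympForm_smul_right] at h5
      have h6 : (2 * c) * sympForm k F u v = 0 := by linear_combination h5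
      rcases mul_eq_zero.1 h6 with h7 | h7
      · rcases mul_eq_zero.1 h7 with h8 | h8
        · exact h2 h8
        · apply hne0
          rw [hc, h8, zero_smul]
      · exact h4 h7
  have hind : LinearIndependent F ![(⟨1, K.one_mem⟩ : K), ⟨θ, hmem⟩] := by
    rw [LinearIndependent.pair_iff]
    intro s t hst
    have h1 : s • (1 : Matrix (Fin k ⊕ Fin k) (Fin k ⊕ Fin k) F) + t • θ = 0 := congrArg Subtype.val hst
    by_cases ht : t = 0
    · subst ht
      rw [zero_smul, add_zero] at h1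
      refine ⟨?_, rfl⟩
      by_contra hs
      have h3 : (1 : Matrix (Fin k ⊕ Fin k) (Fin k ⊕ Fin k) F) = 0 := by
        rcases smul_eq_zero.1 h1 with h4 | h4
        · exact absurd h4 hs
        · exact h4
      apply hne0
      rw [← mul_one θ, h3, mul_zero]
    · exfalso
      apply hns (-(t⁻¹ * s))
      have h3 : t • θ = -(s • (1 : Matrix (Fin k ⊕ Fin k) (Fin k ⊕ Fin k) F)) := eq_neg_of_add_eq_zero_right h1
      have h4 : θ = t⁻¹ • (t • θ) := by rw [smul_smul, inv_mul_cancel₀ ht, one_smul]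
      rw [h4, h3, smul_neg, smul_smul, neg_smul]
  have hspan := hind.span_eq_top_of_card_eq_finrank (by rw [Fintype.card_fin, hK.finrank_eq])
  have hgen : ∀ x ∈ K, ∃ α β : F, x = α • 1 + β • θ := by
    intro x hx
    have h1 : (⟨x, hx⟩ : K) ∈ Submodule.span F (Set.range ![(⟨1, K.one_mem⟩ : K), ⟨θ, hmem⟩]) := by
      rw [hspan]; exact Submodule.mem_top
    rw [Matrix.range_cons, Matrix.range_cons, Matrix.range_empty, Set.union_empty, Set.singleton_union,
      Submodule.mem_span_pair] at h1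
    obtain ⟨α, β, h2⟩ := h1
    exact ⟨α, β, (congrArg Subtype.val h2).symm⟩
  obtain ⟨a, b, hab⟩ := hgen (θ * θ) (K.mul_mem hmem hmem)
  have hb : b = 0 := by
    by_contra hb
    apply hne0
    have h1 : ∀ u v, sympForm k F u (θ *ᵥ v) = 0 := by
      intro u v
      have h4 : sympForm k F ((θ * θ) *ᵥ u) v = sympForm k F u ((θ * θ) *ᵥ v) := by
        rw [← Matrix.mulVec_mulVec, ← Matrix.mulVec_mulVec, hskew, hskew, neg_neg]
      rw [hab, Matrix.add_mulVec, Matrix.add_mulVec, Matrix.smul_mulVec, Matrix.smul_mulVec, Matrix.smul_mulVec,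
        Matrix.smul_mulVec, Matrix.one_mulVec, Matrix.one_mulVec, sympForm_add_left, sympForm_add_right,
        sympForm_smul_left, sympForm_smul_left, sympForm_smul_right, sympForm_smul_right, hskew] at h4
      have h3 : (2 * b) * sympForm k F u (θ *ᵥ v) = 0 := by linear_combination -h4
      exact (mul_eq_zero.1 h3).resolve_left (mul_ne_zero h2 hb)
    apply ext_mulVec
    intro v
    rw [Matrix.zero_mulVec]
    exact eq_zero_of_forall_sympForm_left fun w => h1 w v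
  exact ⟨θ, a, hK, h2, hmem, hne0, hskew, hgen, by rw [hab, hb, zero_smul, add_zero], hns⟩

namespace Skew

variable {θ : Matrix (Fin k ⊕ Fin k) (Fin k ⊕ Fin k) F} {a : F} (h : Skew K θ a)

include h

/-- `1`, `θ` are independent on every nonzero vector -/
theorem lin {v : Fin k ⊕ Fin k → F} (hv : v ≠ 0) {α β : F} (e : α • v + β • (θ *ᵥ v) = 0) : α = 0 ∧ β = 0 := by
  by_contra hcon
  have h0 : α • (1 : Matrix (Fin k ⊕ Fin k) (Fin k ⊕ Fin k) F) + β • θ ≠ 0 := by
    intro h0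
    apply hcon
    by_cases hb : β = 0
    · subst hb
      rw [zero_smul, add_zero] at h0
      rcases smul_eq_zero.1 h0 with h1 | h1
      · exact ⟨h1, rfl⟩
      · exfalso
        apply h.ne
        rw [← mul_one θ, h1, mul_zero]
    · exfalso
      apply h.ns (-(β⁻¹ * α))
      have h3 : β • θ = -(α • (1 : Matrix (Fin k ⊕ Fin k) (Fin k ⊕ Fin k) F)) := eq_neg_of_add_eq_zero_right h0
      have h4 : θ = β⁻¹ • (β • θ) := by rw [smul_smul, inv_mul_cancel₀ hb, one_smul]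
      rw [h4, h3, smul_neg, smul_smul, neg_smul]
  obtain ⟨y, hy, hy1⟩ := h.field.inv _ (K.add_mem (smul_one_mem α) (K.smul_mem h.mem β)) h0
  have hy2 := h.field.comm _ (K.add_mem (smul_one_mem α) (K.smul_mem h.mem β)) y hy
  rw [hy1] at hy2
  apply hv
  rw [← Matrix.one_mulVec v, hy2, ← Matrix.mulVec_mulVec, Matrix.add_mulVec, Matrix.smul_mulVec, Matrix.smul_mulVec,
    Matrix.one_mulVec, e, Matrix.mulVec_zero]

theorem a_ne : a ≠ 0 := by
  intro ha
  obtain ⟨y, hy, hy1⟩ := h.field.inv _ h.mem h.ne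
  apply h.ne
  have h1 := h.sq
  rw [ha, zero_smul] at h1
  calc θ = θ * (θ * y) := by rw [hy1, mul_one]
    _ = (θ * θ) * y := by rw [mul_assoc]
    _ = 0 := by rw [h1, zero_mul]

/-- an isometry normalising `K` maps `θ` to `± θ` -/
theorem conj {g : GL (Fin k ⊕ Fin k) F} (hg : g ∈ subalgebraNormalizer K ⊓ spGL k F) :
    ∃ β : F, β * β = 1 ∧ (g : Matrix (Fin k ⊕ Fin k) (Fin k ⊕ Fin k) F) * θ = β • (θ * g) := by
  set g' : Matrix (Fin k ⊕ Fin k) (Fin k ⊕ Fin k) F :=
    ((g⁻¹ : GL (Fin k ⊕ Fin k) F) : Matrix (Fin k ⊕ Fin k) (Fin k ⊕ Fin k) F) with hg'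
  have hgg : (g : Matrix (Fin k ⊕ Fin k) (Fin k ⊕ Fin k) F) * g' = 1 := by
    rw [hg', ← Units.val_mul, mul_inv_cancel, Units.val_one]
  have hgg' : g' * (g : Matrix (Fin k ⊕ Fin k) (Fin k ⊕ Fin k) F) = 1 := by
    rw [hg', ← Units.val_mul, inv_mul_cancel, Units.val_one]
  obtain ⟨α, β, e⟩ := h.gen _ ((hg.1 θ).1 h.mem)
  have hsk : ∀ u v, sympForm k F (((g : Matrix (Fin k ⊕ Fin k) (Fin k ⊕ Fin k) F) * θ * g') *ᵥ u) v =
      - sympForm k F u (((g : Matrix (Fin k ⊕ Fin k) (Fin k ⊕ Fin k) F) * θ * g') *ᵥ v) := by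
    intro u v
    have h1 := mem_spGL_iff.1 hg.2
    have e1 : ∀ w, w = (g : Matrix (Fin k ⊕ Fin k) (Fin k ⊕ Fin k) F) *ᵥ (g' *ᵥ w) := by
      intro w
      rw [Matrix.mulVec_mulVec, hgg, Matrix.one_mulVec]
    rw [← Matrix.mulVec_mulVec, ← Matrix.mulVec_mulVec, ← Matrix.mulVec_mulVec, ← Matrix.mulVec_mulVec]
    conv_lhs => rw [e1 v]
    conv_rhs => rw [e1 u]
    rw [h1, h1, h.skew]
  have hα : α = 0 := by
    by_contra hα
    apply h.ne
    have h3 : ∀ u v, sympForm k F u v = 0 := by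
      intro u v
      have h4 := hsk u v
      rw [e, Matrix.add_mulVec, Matrix.add_mulVec, Matrix.smul_mulVec, Matrix.smul_mulVec, Matrix.smul_mulVec,
        Matrix.smul_mulVec, Matrix.one_mulVec, Matrix.one_mulVec, sympForm_add_left, sympForm_add_right,
        sympForm_smul_left, sympForm_smul_left, sympForm_smul_right, sympForm_smul_right, h.skew] at h4
      have h5 : (2 * α) * sympForm k F u v = 0 := by linear_combination h4
      exact (mul_eq_zero.1 h5).resolve_left (mul_ne_zero h.two hα)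
    apply ext_mulVec
    intro v
    rw [Matrix.zero_mulVec]
    exact eq_zero_of_forall_sympForm_left fun w => h3 w _
  rw [hα, zero_smul, zero_add] at e
  have e2 : (g : Matrix (Fin k ⊕ Fin k) (Fin k ⊕ Fin k) F) * θ = β • (θ * g) := by
    calc (g : Matrix (Fin k ⊕ Fin k) (Fin k ⊕ Fin k) F) * θ
        = ((g : Matrix (Fin k ⊕ Fin k) (Fin k ⊕ Fin k) F) * θ * g') * g := by
          rw [mul_assoc _ g', hgg', mul_one]
      _ = β • (θ * g) := by rw [e, smul_mul_assoc]
  refine ⟨β, ?_, e2⟩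
  -- squares
  have e3 : (g : Matrix (Fin k ⊕ Fin k) (Fin k ⊕ Fin k) F) * (θ * θ) = (β * β) • ((θ * θ) * g) := by
    rw [← mul_assoc, e2, smul_mul_assoc, mul_assoc, e2, mul_smul_comm, smul_smul, mul_assoc]
  rw [h.sq, mul_smul_comm, mul_one, smul_mul_assoc, one_mul, smul_smul] at e3
  have e4 : (a - β * β * a) • (1 : Matrix (Fin k ⊕ Fin k) (Fin k ⊕ Fin k) F) = 0 := by
    have e5 : (a - β * β * a) • (g : Matrix (Fin k ⊕ Fin k) (Fin k ⊕ Fin k) F) = 0 := by
      rw [sub_smul, e3, sub_self]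
    rw [← hgg, ← smul_mul_assoc, e5, zero_mul]
  rcases smul_eq_zero.1 e4 with e5 | e5
  · have e6 : a * (1 - β * β) = 0 := by linear_combination e5
    have e7 := (mul_eq_zero.1 e6).resolve_left h.a_ne
    linear_combination -e7
  · exfalso
    apply h.ne
    rw [← mul_one θ, e5, mul_zero]

/-- matrices commuting with `θ` normalise `K` -/
theorem mem_norm {g : GL (Fin k ⊕ Fin k) F}
    (hg : (g : Matrix (Fin k ⊕ Fin k) (Fin k ⊕ Fin k) F) * θ = θ * g) : g ∈ subalgebraNormalizer K := by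
  have hgg : (g : Matrix (Fin k ⊕ Fin k) (Fin k ⊕ Fin k) F) *
      ((g⁻¹ : GL (Fin k ⊕ Fin k) F) : Matrix (Fin k ⊕ Fin k) (Fin k ⊕ Fin k) F) = 1 := by
    rw [← Units.val_mul, mul_inv_cancel, Units.val_one]
  have hgg' : ((g⁻¹ : GL (Fin k ⊕ Fin k) F) : Matrix (Fin k ⊕ Fin k) (Fin k ⊕ Fin k) F) *
      (g : Matrix (Fin k ⊕ Fin k) (Fin k ⊕ Fin k) F) = 1 := by
    rw [← Units.val_mul, inv_mul_cancel, Units.val_one]
  have key : ∀ x ∈ K, (g : Matrix (Fin k ⊕ Fin k) (Fin k ⊕ Fin k) F) * x = x * g := by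
    intro x hx
    obtain ⟨α, β, rfl⟩ := h.gen x hx
    rw [mul_add, add_mul, mul_smul_comm, mul_smul_comm, smul_mul_assoc, smul_mul_assoc, hg, mul_one, one_mul]
  intro x
  constructor
  · intro hx
    rw [key x hx, mul_assoc, hgg, mul_one]
    exact hx
  · intro hx
    have h1 := key _ hx
    have h2 : x = (g : Matrix (Fin k ⊕ Fin k) (Fin k ⊕ Fin k) F) * x *
        ((g⁻¹ : GL (Fin k ⊕ Fin k) F) : Matrix (Fin k ⊕ Fin k) (Fin k ⊕ Fin k) F) := by
      have h3 : (g : Matrix (Fin k ⊕ Fin k) (Fin k ⊕ Fin k) F) * ((g : Matrix (Fin k ⊕ Fin k) (Fin k ⊕ Fin k) F) * x *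
        ((g⁻¹ : GL (Fin k ⊕ Fin k) F) : Matrix (Fin k ⊕ Fin k) (Fin k ⊕ Fin k) F)) = (g : Matrix _ _ F) * x := by
        rw [h1, mul_assoc _ _ (g : Matrix (Fin k ⊕ Fin k) (Fin k ⊕ Fin k) F), hgg', mul_one]
      have h4 : ∀ A B : Matrix (Fin k ⊕ Fin k) (Fin k ⊕ Fin k) F,
          (g : Matrix (Fin k ⊕ Fin k) (Fin k ⊕ Fin k) F) * A = (g : Matrix _ _ F) * B → A = B := by
        intro A B hAB
        have h5 := congrArg (fun C => ((g⁻¹ : GL (Fin k ⊕ Fin k) F) : Matrix (Fin k ⊕ Fin k) (Fin k ⊕ Fin k) F) * C) hAB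
        simp only [← mul_assoc, hgg', one_mul] at h5
        exact h5
      exact (h4 _ _ h3).symm
    rw [h2]
    exact hx

/-- an isotropic vector -/
theorem exists_iso (hk : 2 ≤ k) : ∃ v : Fin k ⊕ Fin k → F, v ≠ 0 ∧ sympForm k F v (θ *ᵥ v) = 0 := by
  let B : LinearMap.BilinMap F (Fin k ⊕ Fin k → F) F := (sympBilin k F).compl₂ (Matrix.toLin' θ)
  obtain ⟨v, hv, hv0⟩ := H181.StdBasis.exists_singular (LinearMap.BilinMap.toQuadraticMap B) (by
    rw [Module.finrank_fintype_fun_eq_card, Fintype.card_sum, Fintype.card_fin]; omega)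
  exact ⟨v, hv, hv0⟩

theorem one_sub_ne (h1 : (1 : Matrix (Fin k ⊕ Fin k) (Fin k ⊕ Fin k) F) ≠ 0) : (1 : F) - a ≠ 0 := by
  intro ha
  have ha1 : a = 1 := by linear_combination -ha
  have e : (θ - 1) * (θ + 1) = 0 := by
    rw [sub_mul, mul_add, mul_one, one_mul, h.sq, ha1, one_smul]
    abel
  have e1 : θ - 1 ≠ 0 := by
    intro e1
    apply h.ns 1
    rw [one_smul]
    exact sub_eq_zero.1 e1
  obtain ⟨y, hy, hy1⟩ := h.field.inv _ (K.sub_mem h.mem K.one_mem) e1
  have hy2 := h.field.comm _ (K.sub_mem h.mem K.one_mem) y hy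
  rw [hy1] at hy2
  apply h.ns (-1)
  have e2 : θ + 1 = 0 := by
    calc θ + 1 = (y * (θ - 1)) * (θ + 1) := by rw [← hy2, one_mul]
      _ = 0 := by rw [mul_assoc, e, mul_zero]
  rw [neg_smul, one_smul]
  exact eq_neg_of_add_eq_zero_left e2

/-- a non scalar isometry commuting with `θ`, a combination of `1` and `θ` -/
theorem exists_center : ∃ C : GL (Fin k ⊕ Fin k) F, ∃ s t : F, t ≠ 0 ∧ C ∈ spGL k F ∧
    (C : Matrix (Fin k ⊕ Fin k) (Fin k ⊕ Fin k) F) = s • 1 + t • θ := by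
  have h1 : (1 : Matrix (Fin k ⊕ Fin k) (Fin k ⊕ Fin k) F) ≠ 0 := by
    intro h1
    apply h.ne
    rw [← mul_one θ, h1, mul_zero]
  have ha := h.one_sub_ne h1
  obtain ⟨s, hs⟩ : ∃ s : F, s = (1 + a) / (1 - a) := ⟨_, rfl⟩
  obtain ⟨t, ht⟩ : ∃ t : F, t = -2 / (1 - a) := ⟨_, rfl⟩
  have hst : s * s - t * t * a = 1 := by
    rw [hs, ht]
    field_simp
    ring
  have hmul : ∀ t' : F, t' * t' = t * t →
      (s • (1 : Matrix (Fin k ⊕ Fin k) (Fin k ⊕ Fin k) F) + t' • θ) * (s • 1 + (-t') • θ) = 1 := by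
    intro t' ht'
    have e1 : (s • (1 : Matrix (Fin k ⊕ Fin k) (Fin k ⊕ Fin k) F) + t' • θ) * (s • 1 + (-t') • θ) =
        (s * s) • 1 + (s * (-t') + t' * s) • θ + (t' * (-t')) • (θ * θ) := by
      rw [add_mul, mul_add, mul_add, smul_mul_smul_comm, smul_mul_smul_comm, smul_mul_smul_comm, smul_mul_smul_comm,
        one_mul, one_mul, mul_one, add_smul]
      abel
    rw [e1, h.sq, smul_smul]
    have e2 : s * (-t') + t' * s = 0 := by ring
    rw [e2, zero_smul, add_zero, ← add_smul]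
    have e3 : s * s + t' * -t' * a = 1 := by linear_combination hst - a * ht'
    rw [e3, one_smul]
  refine ⟨⟨s • 1 + t • θ, s • 1 + (-t) • θ, hmul t rfl, ?_⟩, s, t, ?_, ?_, rfl⟩
  · have := hmul (-t) (by ring)
    rwa [neg_neg] at this
  · rw [ht]
    exact div_ne_zero (neg_ne_zero.2 h.two) ha
  · rw [mem_spGL_iff]
    intro u v
    change sympForm k F ((s • (1 : Matrix (Fin k ⊕ Fin k) (Fin k ⊕ Fin k) F) + t • θ) *ᵥ u)
      ((s • (1 : Matrix (Fin k ⊕ Fin k) (Fin k ⊕ Fin k) F) + t • θ) *ᵥ v) = _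
    have e1 : sympForm k F (θ *ᵥ u) (θ *ᵥ v) = -(a * sympForm k F u v) := by
      rw [h.skew, Matrix.mulVec_mulVec, h.sq, Matrix.smul_mulVec, Matrix.one_mulVec, sympForm_smul_right]
    rw [Matrix.add_mulVec, Matrix.add_mulVec, Matrix.smul_mulVec, Matrix.smul_mulVec, Matrix.smul_mulVec,
      Matrix.smul_mulVec, Matrix.one_mulVec, Matrix.one_mulVec, sympForm_add_left, sympForm_add_right,
      sympForm_add_right, sympForm_smul_left, sympForm_smul_left, sympForm_smul_left, sympForm_smul_left,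
      sympForm_smul_right, sympForm_smul_right, sympForm_smul_right, sympForm_smul_right, e1, h.skew]
    linear_combination (sympForm k F u v) * hst

end Skew

end field

/-- **S3499, C3 of the symplectic groups, unitary type** -/
theorem spC3U {Q : Type*} [Group Q] {A : Subgroup Q} {Γ : Subgroup (MulAut Q)} (h : EPT A Γ)
    {F : Type*} [Field F] [Fintype F] {k : ℕ} (hk : 2 ≤ k) (m : Model Q (Cfsg.spGL k F))
    (hodd : Odd (Fintype.card F)) (K : Subalgebra F (Matrix (Fin k ⊕ Fin k) (Fin k ⊕ Fin k) F))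
    (hK : IsFieldSubalgebra 2 K) (hadj : IsAdjointClosedFor (sympForm k F) K)
    (hn : ¬ IsSelfAdjointFor (sympForm k F) K) (hA : m.hat A ≤ subalgebraNormalizer K ⊓ spGL k F) : False := by
  classical
  have h2 : (2 : F) ≠ 0 := by
    intro h2
    have : CharP F 2 := CharTwo.of_one_ne_zero_of_two_eq_zero one_ne_zero h2
    obtain ⟨n, -, hn⟩ := FiniteField.card F 2
    rw [hn] at hodd
    exact (Nat.not_odd_iff_even.2 (Nat.even_pow.2 ⟨even_two, n.2.ne'⟩)) hodd
  obtain ⟨θ, a, H⟩ := exists_skew (by omega) h2 hK hadj hn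
  obtain ⟨p, hp⟩ := CharP.exists F
  have hpp : p.Prime := CharP.char_is_prime F p
  have hpodd : Odd p := hpp.odd_of_ne_two (by
    rintro rfl
    exact h2 (CharTwo.two_eq_zero))
  obtain ⟨v, hv, hv0⟩ := H.exists_iso hk
  have hv0' : sympForm k F (θ *ᵥ v) v = 0 := by rw [H.skew, hv0, neg_zero]
  have hvs : ∃ x, sympForm k F x v ≠ 0 := by
    by_contra hcon
    push Not at hcon
    exact hv (eq_zero_of_forall_sympForm_left hcon)
  have hθv : θ *ᵥ v ≠ 0 := by
    intro e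
    have := (H.lin hv (α := 0) (β := 1) (by rw [zero_smul, e, smul_zero, add_zero])).2
    exact one_ne_zero this
  -- the elements
  obtain ⟨C, s, t, ht0, hCS, hC⟩ := H.exists_center
  obtain ⟨u, hu⟩ : ∃ u : GL (Fin k ⊕ Fin k) F, u = tg (θ *ᵥ v) 1 * tg v (-a) := ⟨_, rfl⟩
  have hact : ∀ x, (u : Matrix (Fin k ⊕ Fin k) (Fin k ⊕ Fin k) F) *ᵥ x =
      x + (-a * sympForm k F x v) • v + sympForm k F x (θ *ᵥ v) • (θ *ᵥ v) := by
    intro x
    rw [hu, Units.val_mul, ← Matrix.mulVec_mulVec, tg_mulVec, tg_mulVec, sympForm_add_left, sympForm_smul_left, hv0,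
      mul_zero, add_zero, one_mul]
  have hcomm : tg (θ *ᵥ v) (1 : F) * tg v (-a) = tg v (-a) * tg (θ *ᵥ v) 1 := tg_comm hv0' _ _
  have huS : u ∈ spGL k F := by rw [hu]; exact (spGL k F).mul_mem (tg_mem _ _) (tg_mem _ _)
  have hup : u ^ p = 1 := by
    rw [hu, (show Commute (tg (θ *ᵥ v) (1 : F)) (tg v (-a)) from hcomm).mul_pow, tg_pow, tg_pow, CharP.cast_eq_zero,
      zero_mul, zero_mul, tg_zero, tg_zero, one_mul]
  have huθ : (u : Matrix (Fin k ⊕ Fin k) (Fin k ⊕ Fin k) F) * θ = θ * u := by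
    apply ext_mulVec
    intro x
    have e1 : sympForm k F (θ *ᵥ x) (θ *ᵥ v) = -(a * sympForm k F x v) := by
      rw [H.skew, Matrix.mulVec_mulVec, H.sq, Matrix.smul_mulVec, Matrix.one_mulVec, sympForm_smul_right]
    rw [← Matrix.mulVec_mulVec, ← Matrix.mulVec_mulVec, hact, hact, Matrix.mulVec_add, Matrix.mulVec_add,
      Matrix.mulVec_smul, Matrix.mulVec_smul, Matrix.mulVec_mulVec _ θ θ, H.sq, Matrix.smul_mulVec, Matrix.one_mulVec,
      smul_smul, e1, H.skew, add_assoc, add_assoc, add_comm ((-a * sympForm k F x v) • (θ *ᵥ v))]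
    congr 2
    · congr 1
      ring
    · congr 1
      ring
  have hun : u ∉ scalars (Fin k ⊕ Fin k) F := by
    intro hu1
    obtain ⟨c, hc⟩ := (mem_scalars_iff u).1 hu1
    have e1 := hact v
    have e2 : sympForm k F v v = 0 := sympForm_self _
    rw [hc, Matrix.smul_mulVec, Matrix.one_mulVec, e2, hv0, mul_zero, zero_smul, zero_smul, add_zero, add_zero] at e1
    have e3 : (c : F) = 1 := by
      have : ((c : F) - 1) • v = 0 := by rw [sub_smul, e1, one_smul, sub_self]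
      rcases smul_eq_zero.1 this with h3 | h3
      · exact sub_eq_zero.1 h3
      · exact absurd h3 hv
    obtain ⟨x, hx⟩ := hvs
    have e4 := hact x
    rw [hc, e3, one_smul, Matrix.one_mulVec, add_assoc] at e4
    have e5 := (H.lin hv (left_eq_add.1 e4)).1
    rcases mul_eq_zero.1 e5 with h3 | h3
    · exact H.a_ne (neg_eq_zero.1 h3)
    · exact hx h3
  have hT : tg v (1 : F) ∉ subalgebraNormalizer K ⊓ spGL k F := by
    intro hT
    obtain ⟨β, -, hβ⟩ := H.conj hT
    have e1 : ∀ x, θ *ᵥ x + (1 * sympForm k F (θ *ᵥ x) v) • v = β • (θ *ᵥ x + (1 * sympForm k F x v) • (θ *ᵥ v)) := by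
      intro x
      have e2 := congrArg (fun B => B *ᵥ x) hβ
      simp only [Matrix.smul_mulVec, ← Matrix.mulVec_mulVec] at e2
      rw [tg_mulVec, tg_mulVec, Matrix.mulVec_add, Matrix.mulVec_smul] at e2
      exact e2
    have e2 := e1 v
    rw [hv0', sympForm_self, mul_zero, zero_smul, zero_smul, add_zero] at e2
    have e3 : β = 1 := by
      have : (1 - β) • (θ *ᵥ v) = 0 := by rw [sub_smul, ← e2, one_smul, sub_self]
      rcases smul_eq_zero.1 this with h3 | h3
      · exact (sub_eq_zero.1 h3).symm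
      · exact absurd h3 hθv
    obtain ⟨x, hx⟩ := hvs
    have e4 := e1 x
    rw [e3, one_smul, one_mul, one_mul, add_right_inj] at e4
    have e5 := (H.lin hv (α := sympForm k F (θ *ᵥ x) v) (β := - sympForm k F x v) (by
      rw [neg_smul, e4, add_neg_cancel])).2
    exact hx (neg_eq_zero.1 e5)
  -- the preimage of `A`
  have hM : m.hat A = subalgebraNormalizer K ⊓ spGL k F := by
    rcases (m.isMaximalIn h.max).2 _ hA inf_le_right with e | e
    · exact e.symm
    · exfalso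
      apply hT
      rw [e]
      exact tg_mem _ _
  have hCθ : (C : Matrix (Fin k ⊕ Fin k) (Fin k ⊕ Fin k) F) * θ = θ * C := by
    rw [hC, mul_add, add_mul, mul_smul_comm, mul_smul_comm, smul_mul_assoc, smul_mul_assoc, one_mul, mul_one]
  have hCA : m.π ⟨C, hCS⟩ ∈ A := by
    rw [← m.mem_hat_iff, hM]
    exact ⟨H.mem_norm hCθ, hCS⟩
  have huA : m.π ⟨u, huS⟩ ∈ A := by
    rw [← m.mem_hat_iff, hM]
    exact ⟨H.mem_norm huθ, huS⟩
  have hC1 : m.π ⟨C, hCS⟩ ≠ 1 := by
    rw [Ne, m.ker, mem_scalars_iff]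
    rintro ⟨c, hc⟩
    apply H.ns (t⁻¹ * (c - s))
    change (C : Matrix (Fin k ⊕ Fin k) (Fin k ⊕ Fin k) F) = _ at hc
    rw [hC] at hc
    rw [mul_smul, sub_smul, ← hc, add_sub_cancel_left, smul_smul, inv_mul_cancel₀ ht0, one_smul]
  have hTA := mem_of_comm h (p := p) hCA hC1 ?_ huA ?_ ?_ (t := m.π ⟨tg v 1, tg_mem _ _⟩) ?_
  · apply hT
    rw [← hM]
    exact (m.mem_hat_iff ⟨tg v 1, tg_mem _ _⟩).2 hTA
  · intro g hg hgp
    obtain ⟨g, rfl⟩ := m.surj g
    have hg' := (m.mem_hat_iff g).2 hg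
    rw [hM] at hg'
    obtain ⟨β, hβ1, hβ⟩ := H.conj hg'
    rw [← map_pow, m.ker, mem_scalars_iff] at hgp
    obtain ⟨c, hc⟩ := hgp
    have hpow : ∀ n : ℕ, ((g : GL (Fin k ⊕ Fin k) F) : Matrix (Fin k ⊕ Fin k) (Fin k ⊕ Fin k) F) ^ n * θ =
        β ^ n • (θ * ((g : GL (Fin k ⊕ Fin k) F) : Matrix (Fin k ⊕ Fin k) (Fin k ⊕ Fin k) F) ^ n) := by
      intro n
      induction n with
      | zero => rw [pow_zero, pow_zero, one_mul, mul_one, one_smul]
      | succ n ih =>
        rw [pow_succ', mul_assoc, ih, mul_smul_comm, ← mul_assoc, hβ, smul_mul_assoc, smul_smul, mul_assoc, pow_succ β]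
    have h3 := hpow p
    have hc' : ((g : GL (Fin k ⊕ Fin k) F) : Matrix (Fin k ⊕ Fin k) (Fin k ⊕ Fin k) F) ^ p = (c : F) • 1 := by
      rw [← hc]
      push_cast
      rfl
    rw [hc', smul_mul_assoc, one_mul, mul_smul_comm, mul_one, smul_smul] at h3
    have h4 : β ^ p = 1 := by
      have h5 : ((1 - β ^ p) * c) • θ = 0 := by
        rw [sub_mul, sub_smul, one_mul, h3, sub_self]
      rcases smul_eq_zero.1 h5 with h6 | h6
      · rcases mul_eq_zero.1 h6 with h7 | h7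
        · exact (sub_eq_zero.1 h7).symm
        · exact absurd h7 c.ne_zero
      · exact absurd h6 H.ne
    have h5 : β = 1 := by
      obtain ⟨n, hn⟩ := hpodd
      rw [hn, pow_succ, pow_mul, sq, hβ1, one_pow, one_mul] at h4
      exact h4
    rw [h5, one_smul] at hβ
    rw [← map_mul, ← map_mul]
    congr 1
    apply Subtype.ext
    apply Units.ext
    change ((g : GL (Fin k ⊕ Fin k) F) : Matrix (Fin k ⊕ Fin k) (Fin k ⊕ Fin k) F) * C =
      C * ((g : GL (Fin k ⊕ Fin k) F) : Matrix (Fin k ⊕ Fin k) (Fin k ⊕ Fin k) F)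
    rw [hC, mul_add, add_mul, mul_smul_comm, mul_smul_comm, smul_mul_assoc, smul_mul_assoc, one_mul, mul_one, hβ]
  · rw [← map_pow, m.ker]
    have : (((⟨u, huS⟩ : spGL k F) ^ p : spGL k F) : GL (Fin k ⊕ Fin k) F) = u ^ p := rfl
    rw [this, hup]
    exact Subgroup.one_mem _
  · rw [Ne, m.ker]
    exact hun
  · rw [← map_mul, ← map_mul]
    congr 1
    apply Subtype.ext
    change tg v 1 * u = u * tg v 1
    rw [hu, ← mul_assoc, tg_comm hv0, mul_assoc, mul_assoc, tg_mul, tg_mul, add_comm]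

end Cfsg.Agent.H681.EP
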