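import Cfsg.Agent.H284.EP.TForm

/-!
# S3499: commuting invariant subgroups (helper681)

* `inf_cj_eq_bot` : (T2) commuting `Γ`-invariant `X`, `Y ≠ 1` in `A`: `X ∩ A^x = 1` for `x ∉ A`;
* `card_eq` : then `|X| = |Y|` if `X ≠ 1`;
* `mem_of_comm` : some `1 ≠ z ∈ A` commutes with the elements `g ∈ A`, `g ^ p = 1`: then `C_Q(u) ≤ A` for each of them,
  `u ≠ 1`.
-/

set_option autoImplicit false

namespace Cfsg.Agent.H681.EP

open Subgroup Cfsg.Agent.H284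

variable {Q : Type*} [Group Q] {A : Subgroup Q} {Γ : Subgroup (MulAut Q)}

/-- **(T2)** -/
theorem inf_cj_eq_bot (h : EPT A Γ) {X Y : Subgroup Q} (hXA : X ≤ A) (hYA : Y ≤ A)
    (hX : ∀ σ ∈ Γ, ∀ k ∈ X, σ k ∈ X) (hY : ∀ σ ∈ Γ, ∀ k ∈ Y, σ k ∈ Y) (hYne : Y ≠ ⊥)
    (hc : ∀ a ∈ X, ∀ b ∈ Y, a * b = b * a) {x : Q} (hx : x ∉ A) : X ⊓ cj x A = ⊥ := by
  refine h.F1 x hx _ (inf_le_left.trans hXA) ?_ inf_le_right
  intro σ hσ d hd
  obtain ⟨k, hk, τ, hτ, hτx, rfl⟩ := h.fac hYA hY hYne hx hσ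
  have h1 : τ d ∈ A ⊓ cj x A := h.stab_M0 hτ hτx ⟨hXA (mem_inf.1 hd).1, (mem_inf.1 hd).2⟩
  have h2 : τ d ∈ X := hX τ hτ d (mem_inf.1 hd).1
  rw [MulAut.mul_apply, MulAut.conj_apply, ← hc (τ d) h2 k hk, mul_inv_cancel_right]
  exact mem_inf.2 ⟨h2, (mem_inf.1 h1).2⟩

/-- `C_Q(u) ≤ A` for `1 ≠ u ∈ X` -/
theorem mem_of_comm' (h : EPT A Γ) {X Y : Subgroup Q} (hXA : X ≤ A) (hYA : Y ≤ A)
    (hX : ∀ σ ∈ Γ, ∀ k ∈ X, σ k ∈ X) (hY : ∀ σ ∈ Γ, ∀ k ∈ Y, σ k ∈ Y) (hYne : Y ≠ ⊥)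
    (hc : ∀ a ∈ X, ∀ b ∈ Y, a * b = b * a) {u t : Q} (hu : u ∈ X) (hu1 : u ≠ 1) (ht : t * u = u * t) : t ∈ A := by
  by_contra htA
  have h1 := inf_cj_eq_bot h hXA hYA hX hY hYne hc htA
  apply hu1
  rw [← mem_bot, ← h1]
  refine mem_inf.2 ⟨hu, mem_cj.2 ?_⟩
  rw [mul_assoc, ← ht, inv_mul_cancel_left]
  exact hXA hu

/-- the centralizer in `A` of a `Γ`-invariant subgroup is `Γ`-invariant -/
theorem centralizer_inv (h : EPT A Γ) {X : Subgroup Q} (hX : ∀ σ ∈ Γ, ∀ k ∈ X, σ k ∈ X) :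
    ∀ σ ∈ Γ, ∀ k ∈ A ⊓ centralizer (X : Set Q), σ k ∈ A ⊓ centralizer (X : Set Q) := by
  intro σ hσ k hk
  refine mem_inf.2 ⟨(h.inv σ hσ k).2 (mem_inf.1 hk).1, ?_⟩
  rw [mem_centralizer_iff]
  intro x hx
  have h1 := mem_centralizer_iff.1 (mem_inf.1 hk).2 _ (hX σ⁻¹ (inv_mem hσ) x hx)
  have h2 := congrArg σ h1
  rwa [map_mul, map_mul, MulAut.apply_inv_self] at h2

/-- **Kill criterion for a commuting element**: some `1 ≠ z ∈ A` commutes with all `g ∈ A` with `g ^ p = 1`. -/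
theorem mem_of_comm (h : EPT A Γ) {p : ℕ} {z : Q} (hz : z ∈ A) (hz1 : z ≠ 1)
    (hzc : ∀ g ∈ A, g ^ p = 1 → g * z = z * g) {u t : Q} (hu : u ∈ A) (hup : u ^ p = 1) (hu1 : u ≠ 1)
    (ht : t * u = u * t) : t ∈ A := by
  set X : Subgroup Q := closure {g | g ∈ A ∧ g ^ p = 1} with hXdef
  have hXA : X ≤ A := (closure_le A).2 fun g hg => hg.1
  have hX : ∀ σ ∈ Γ, ∀ k ∈ X, σ k ∈ X := by
    intro σ hσ
    have h1 : X ≤ X.comap σ.toMonoidHom := by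
      rw [hXdef, closure_le]
      rintro g ⟨hg, hgp⟩
      exact subset_closure ⟨(h.inv σ hσ g).2 hg, by
        change (σ g) ^ p = 1
        rw [← map_pow, hgp, map_one]⟩
    exact fun k hk => h1 hk
  have hzX : z ∈ centralizer (X : Set Q) := by
    have h1 : X ≤ centralizer ({z} : Set Q) := by
      rw [hXdef, closure_le]
      rintro g ⟨hg, hgp⟩
      exact mem_centralizer_singleton_iff.2 (hzc g hg hgp)
    rw [mem_centralizer_iff]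
    intro x hx
    exact mem_centralizer_singleton_iff.1 (h1 hx)
  refine mem_of_comm' h hXA (inf_le_left : A ⊓ centralizer (X : Set Q) ≤ A) hX (centralizer_inv h hX) ?_ ?_
    (subset_closure ⟨hu, hup⟩) hu1 ht
  · intro h1
    apply hz1
    rw [← mem_bot, ← h1]
    exact mem_inf.2 ⟨hz, hzX⟩
  · intro a ha b hb
    exact mem_centralizer_iff.1 (mem_inf.1 hb).2 a ha

end Cfsg.Agent.H681.EP
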